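import Cfsg.Agent.H42.PcDefs

/-! Project PC: the derived group of `T⟨y⟩` modulo the squares of `T`. -/

set_option autoImplicit false

namespace Cfsg.Agent.H19.PcA0

open Subgroup Cfsg.Agent.H42.Pc
open scoped commutatorElement

universe u

theorem core {G : Type u} [Group G] (T : Subgroup G) (hT : T.Normal)
    (ab : ∀ a ∈ T, ∀ b ∈ T, a * b = b * a) (y : G) (hy : y * y ∈ T) (x : G)
    (hx : x ∈ ⁅T ⊔ zpowers y, T ⊔ zpowers y⁆) : ∃ v ∈ T, x = v⁻¹ * (y⁻¹ * v * y) := by
  have cj : ∀ v ∈ T, y⁻¹ * v * y ∈ T := fun v hv => hT.conj_mem' v hv y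
  have cj' : ∀ v ∈ T, y * v * y⁻¹ ∈ T := fun v hv => hT.conj_mem v hv y
  let D : Subgroup G :=
    { carrier := {x | ∃ v ∈ T, x = v⁻¹ * (y⁻¹ * v * y)}
      one_mem' := ⟨1, one_mem _, by group⟩
      mul_mem' := by
        rintro _ _ ⟨v, hv, rfl⟩ ⟨w, hw, rfl⟩
        refine ⟨v * w, mul_mem hv hw, ?_⟩
        calc _ = (v⁻¹ * (y⁻¹ * v * y)) * w⁻¹ * (y⁻¹ * w * y) := by group
          _ = _ := by rw [ab _ (mul_mem (inv_mem hv) (cj v hv)) _ (inv_mem hw)]; group
      inv_mem' := by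
        rintro _ ⟨v, hv, rfl⟩
        refine ⟨v⁻¹, inv_mem hv, ?_⟩
        rw [ab _ (inv_mem (inv_mem hv)) _ (cj _ (inv_mem hv))]; group }
  let E : Subgroup G :=
    { carrier := {g | g ∈ T ∨ g * y⁻¹ ∈ T}
      one_mem' := Or.inl (one_mem _)
      mul_mem' := by
        rintro a b (ha | ha) (hb | hb)
        · exact Or.inl (mul_mem ha hb)
        · exact Or.inr (mul_assoc a b _ ▸ mul_mem ha hb)
        · refine Or.inr ?_
          have := mul_mem ha (cj' b hb)
          convert this using 1; group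
        · refine Or.inl ?_
          have := mul_mem (mul_mem ha (cj' _ hb)) hy
          convert this using 1; group
      inv_mem' := by
        rintro a (ha | ha)
        · exact Or.inl (inv_mem ha)
        · refine Or.inr ?_
          have := mul_mem (cj _ (inv_mem ha)) (inv_mem hy)
          convert this using 1; group }
  have hE : T ⊔ zpowers y ≤ E :=
    sup_le (fun a ha => Or.inl ha) (zpowers_le.2 (Or.inr (by rw [mul_inv_cancel]; exact one_mem _)))
  have c2 : ∀ a ∈ T, ∀ b, b * y⁻¹ ∈ T → ⁅a, b⁆ ∈ D := fun a ha b hb => by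
    refine ⟨y * a * y⁻¹, cj' a ha, ?_⟩
    have e1 := ab _ hb _ (cj' _ (inv_mem ha))
    have e2 := ab _ ha _ (cj' _ (inv_mem ha))
    calc ⁅a, b⁆ = a * (b * y⁻¹ * (y * a⁻¹ * y⁻¹)) * (b * y⁻¹)⁻¹ := by
          rw [commutatorElement_def]; group
      _ = a * (y * a⁻¹ * y⁻¹) := by rw [e1]; group
      _ = _ := by rw [e2]; group
  refine (commutator_le (H₃ := D)).2 (fun a ha b hb => ?_) hx
  rcases hE ha with ha | ha <;> rcases hE hb with hb | hb
  · rw [commutatorElement_eq_one_iff_mul_comm.2 (ab a ha b hb)]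
    exact one_mem _
  · exact c2 a ha b hb
  · rw [← commutatorElement_inv]
    exact inv_mem (c2 b hb a ha)
  · have h1 : b * a⁻¹ ∈ T := by
      have := mul_mem hb (inv_mem ha)
      convert this using 1; group
    refine ⟨(y * (b * a⁻¹) * y⁻¹)⁻¹, inv_mem (cj' _ h1), ?_⟩
    have e1 := ab _ ha _ (cj' _ h1)
    calc ⁅a, b⁆ = a * y⁻¹ * (y * (b * a⁻¹) * y⁻¹) * (b * y⁻¹)⁻¹ := by
          rw [commutatorElement_def]; group
      _ = _ := by rw [e1]; group

theorem sq_normal {G : Type u} [Group G] (T : Subgroup G) [hT : T.Normal] : (Sq T).Normal :=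
  ⟨fun x hx g => by
    induction hx using closure_induction with
    | mem x hx =>
      obtain ⟨w, hw, rfl⟩ := hx
      exact subset_closure ⟨g * w * g⁻¹, hT.conj_mem w hw g, by group⟩
    | one => rw [mul_one, mul_inv_cancel]; exact one_mem _
    | mul a b _ _ ha hb =>
      have := mul_mem ha hb
      convert this using 1; group
    | inv a _ ha =>
      have := inv_mem ha
      convert this using 1; group⟩

theorem a0 : A0Stmt.{u} := by
  intro G _ T hT y hy x hx
  have := sq_normal T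
  have sq : ∀ w ∈ T, w * w ∈ Sq T := fun w hw => subset_closure ⟨w, hw, rfl⟩
  obtain ⟨_, ⟨v, hv, rfl⟩, e⟩ := core (T.map (QuotientGroup.mk' (Sq T)))
    (hT.map _ (QuotientGroup.mk'_surjective _)) (by
      rintro _ ⟨a, ha, rfl⟩ _ ⟨b, hb, rfl⟩
      rw [← map_mul, ← map_mul]
      refine QuotientGroup.eq.2 ?_
      have := mul_mem (mul_mem (sq _ (inv_mem hb)) (sq _ (mul_mem hb (inv_mem ha)))) (sq _ ha)
      convert this using 1; group)
    (QuotientGroup.mk' (Sq T) y) ⟨_, hy, map_mul _ _ _⟩ (QuotientGroup.mk' (Sq T) x) (by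
      rw [← MonoidHom.map_zpowers, ← Subgroup.map_sup, ← map_commutator]
      exact mem_map_of_mem _ hx)
  exact ⟨v, hv, QuotientGroup.eq.1 e⟩

end Cfsg.Agent.H19.PcA0
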