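import Cfsg.Agent.H99.C1Defs

/-! The automizer of `G` in standard form (piece AS+AK of S5227). -/

set_option autoImplicit false

namespace Cfsg.Agent.H19.C1As

open Cfsg.Agent.H99.C1 Subgroup
open scoped Pointwise

instance fact3 : Fact (Nat.Prime 3) := ⟨by norm_num⟩

theorem sgns (au : AU1Stmt) (β : MulAut G) : ∃ e : Sg, ∀ g, (β g).a = e.1 * g.a ∧
    (β g).b = e.2.1 * g.b ∧ (β g).t = e.2.2 * g.t := by
  obtain ⟨e, he⟩ := au.2 β
  refine ⟨e, fun g => ?_⟩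
  have := he (tor e g)
  rwa [MulAut.mul_apply, MulAut.inv_apply_self] at this

theorem nKS (au : AU1Stmt) : KS.Normal := ⟨fun κ h β g => by
  obtain ⟨e, he⟩ := sgns au β
  have h1 := he (κ (β⁻¹ g))
  have h2 := he (β⁻¹ g)
  rw [MulAut.apply_inv_self] at h2
  rw [(h _).1, (h _).2.1, (h _).2.2, ← h2.1, ← h2.2.1, ← h2.2.2] at h1
  exact h1⟩

theorem sq_KS (au : AU1Stmt) (β : MulAut G) : β * β ∈ KS := fun g => by
  obtain ⟨e, he⟩ := sgns au β
  have h1 := he (β g)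
  rw [(he g).1, (he g).2.1, (he g).2.2, ← mul_assoc, ← mul_assoc, ← mul_assoc, sgn_sq, sgn_sq,
    sgn_sq, one_mul, one_mul, one_mul] at h1
  exact h1

theorem conj_KS (s : G) : MulAut.conj s ∈ KS := fun g => by
  simp [MulAut.conj_apply]

theorem inn (au : AU1Stmt) {C : Subgroup (MulAut G)} (h : Inn3 C) {κ : MulAut G} (h1 : κ ∈ C)
    (h2 : κ ∈ KS) : ∃ s, κ = MulAut.conj s := by
  have l1 : (MulAut.conj : G →* MulAut G).range ≤ C ⊓ KS := by
    rintro _ ⟨s, rfl⟩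
    exact ⟨h.1 s, conj_KS s⟩
  obtain ⟨n, hn⟩ := (au.1.to_le (inf_le_right : C ⊓ KS ≤ KS)).index
    ((MulAut.conj : G →* MulAut G).range.subgroupOf (C ⊓ KS))
  have h3 := relIndex_mul_relIndex _ _ _ l1 (inf_le_left : C ⊓ KS ≤ C)
  have h4 : (MulAut.conj : G →* MulAut G).range.relIndex (C ⊓ KS) = 1 := by
    rcases n with _ | n
    · exact hn
    · exact absurd (h3 ▸ ((show _ ∣ (MulAut.conj : G →* MulAut G).range.relIndex (C ⊓ KS) from
        (dvd_pow_self 3 n.succ_ne_zero).trans hn.symm.dvd).mul_right _)) h.2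
  obtain ⟨s, hs⟩ := relIndex_eq_one.1 h4 ⟨h1, h2⟩
  exact ⟨s, hs.symm⟩

theorem tor_sq (e : Sg) : tor e ^ 2 = 1 := by
  rw [← map_pow, show e ^ 2 = 1 by revert e; decide, map_one]

theorem as (au : AU1Stmt) : ASStmt := fun C h => by
  have := nKS au
  obtain ⟨L⟩ : Nonempty (Sylow 2 C) := inferInstance
  obtain ⟨Q, hQ⟩ := (L.2.map C.subtype).exists_le_sylow
  have t2 : IsPGroup 2 tor.range := by
    rintro ⟨_, e, rfl⟩
    exact ⟨1, Subtype.ext (tor_sq e)⟩
  obtain ⟨P, hP⟩ := t2.exists_le_sylow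
  have eP : ∀ p ∈ (P : Subgroup (MulAut G)), ∃ e, p = tor e := fun p hp => by
    obtain ⟨e, he⟩ := au.2 p
    have h1 := (IsPGroup.disjoint_of_ne 2 3 (by norm_num) _ _ P.2 au.1).le_bot
      ⟨(P : Subgroup (MulAut G)).mul_mem hp ((P : Subgroup (MulAut G)).inv_mem (hP ⟨e, rfl⟩)), he⟩
    exact ⟨e, mul_inv_eq_one.1 h1⟩
  obtain ⟨β, rfl⟩ := MulAction.exists_smul_eq (MulAut G) P Q
  have top : KS.subgroupOf C ⊔ L = ⊤ := by
    have q2 : IsPGroup 2 (C ⧸ KS.subgroupOf C) := fun x => ⟨1, by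
      obtain ⟨x, rfl⟩ := QuotientGroup.mk_surjective x
      rw [pow_one, pow_two, ← QuotientGroup.mk_mul, QuotientGroup.eq_one_iff]
      exact sq_KS au x⟩
    obtain ⟨n, hn⟩ := q2.exists_card_eq
    rw [← index_eq_one]
    exact Nat.eq_one_of_dvd_coprimes (Nat.Coprime.pow_left n
      ((Nat.Prime.coprime_iff_not_dvd Nat.prime_two).2 L.not_dvd_index))
      (hn ▸ index_dvd_of_le le_sup_left) (index_dvd_of_le le_sup_right)
  refine ⟨β, fun γ hγ => ?_⟩
  have h1 : (⟨_, hγ⟩ : C) ∈ ((KS.subgroupOf C ⊔ L : Subgroup C) : Set C) := top ▸ mem_top _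
  rw [normal_mul] at h1
  obtain ⟨n, hn, l, hl, e⟩ := h1
  obtain ⟨s, hs⟩ := inn au h n.2 hn
  have h2 := hQ ⟨l, hl, rfl⟩
  rw [Sylow.coe_subgroup_smul] at h2
  obtain ⟨p, hp, e1⟩ := h2
  obtain ⟨f, rfl⟩ := eP p hp
  have e2 : β * tor f * β⁻¹ = l := e1
  have e3 : (n : MulAut G) * l = β * γ * β⁻¹ := congrArg Subtype.val e
  refine ⟨β⁻¹ s, f, ?_, e2 ▸ l.2⟩
  have e4 : MulAut.conj (β⁻¹ s) = β⁻¹ * MulAut.conj s * β := by
    ext g <;> simp [MulAut.conj_apply]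
  rw [e4, ← hs]
  calc γ = β⁻¹ * (β * γ * β⁻¹) * β := by group
    _ = _ := by rw [← e3, ← e2]; group

theorem cenZ (g : G) (h1 : g * xa 1 = xa 1 * g) (h2 : g * xb 1 = xb 1 * g)
    (h3 : g * xt 1 = xt 1 * g) : g = xz g.z := by
  have a1 := congrArg G.c h1
  have a2 := congrArg G.z h1
  have a3 := congrArg G.y h1
  have a4 := congrArg G.x h1
  have b1 := congrArg G.c h2
  have b2 := congrArg G.y h2
  have b3 := congrArg G.v h2
  have c1 := congrArg G.x h3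
  simp [xa, xb, xt] at a1 a2 a3 a4 b1 b2 b3 c1
  have : (2 : K) ≠ 0 := by decide
  ext <;> simp_all [xz]

theorem fixZ (au : AU1Stmt) {κ : MulAut G} (h : κ ∈ KS) : κ (xz (-1)) = xz (-1) := by
  have c : ∀ g, κ (xz (-1)) * g = g * κ (xz (-1)) := fun g => by
    obtain ⟨g, rfl⟩ := κ.surjective g
    rw [← map_mul, ← map_mul]
    congr 1
    ext <;> simp [xz, add_comm]
  have h1 := cenZ _ (c _) (c _) (c _)
  generalize (κ (xz (-1))).z = k at h1
  rcases (by decide : ∀ k : K, k = -1 ∨ xz k = 1 ∨ xz k = (xz (-1))⁻¹) k with e | e | e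
  · rw [h1, e]
  · exact absurd ((map_eq_one_iff κ κ.injective).1 (h1.trans e)) (by decide)
  · exfalso
    obtain ⟨n, hn⟩ := au.1 ⟨κ, h⟩
    replace hn : κ ^ 3 ^ n = 1 := congrArg Subtype.val hn
    obtain ⟨j, hj⟩ : Odd (3 ^ n) := Odd.pow (by decide)
    have h2 : ∀ j : ℕ, ((κ * κ) ^ j) (xz (-1)) = xz (-1) := fun j => by
      induction j with
      | zero => rfl
      | succ j ih => rw [pow_succ, MulAut.mul_apply, MulAut.mul_apply, h1, e, map_inv, h1, e,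
          inv_inv, ih]
    have h3 := h2 j
    rw [← pow_two, ← pow_mul] at h3
    have h4 := congrArg (fun f : MulAut G => f (xz (-1))) hn
    simp only [hj, pow_succ', MulAut.mul_apply, h3, MulAut.one_apply] at h4
    exact absurd (h4.symm.trans (h1.trans e)) (by decide)

theorem ak (au : AU1Stmt) : AKStmt := fun C h h2 h3 hσ γ hγ => by
  obtain ⟨e, he⟩ := au.2 γ
  have h1 : tor e ∈ C := by
    have k : ∀ e : Sg, e.2.2 = 1 → tor e ∈ C := fun e he => by
      rcases (by decide : ∀ e : Sg, e.2.2 = 1 → e = 1 ∨ e = τ2 ∨ e = τ3 ∨ e = τ2 * τ3) e he with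
        rfl | rfl | rfl | rfl
      exacts [map_one tor ▸ one_mem C, h2, h3, map_mul tor τ2 τ3 ▸ mul_mem h2 h3]
    rcases sgn e.2.2 with e1 | e1
    · exact k e e1
    rcases hσ with hσ | hσ
    · have := mul_mem (k (e * σ) (by simp [e1, σ])) (inv_mem hσ)
      rwa [map_mul, mul_inv_cancel_right] at this
    · refine absurd ?_ (hσ γ hγ)
      have := fixZ au he
      rwa [MulAut.mul_apply, show (tor e)⁻¹ (xz (-1)) = xz 1 from (tor e).injective (by
        rw [MulAut.apply_inv_self, tor_apply]; ext <;> simp [torF, xz, e1])] at this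
  obtain ⟨s, hs⟩ := inn au h (mul_mem hγ (inv_mem h1)) he
  exact ⟨s, e, by rw [← hs, inv_mul_cancel_right], h1⟩

end Cfsg.Agent.H19.C1As
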