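import Cfsg.Agent.H99.C1Defs

/-! Invariance of `Z` and `J5` under the automizer of `J` (piece TZ5 of S5227). -/

set_option autoImplicit false

namespace Cfsg.Agent.H19.C1Tz

open Cfsg.Agent.H97 Cfsg.Agent.H96.VB Cfsg.Agent.H96.CP Cfsg.Agent.H99.C1 Subgroup
open Matrix hiding J

abbrev M6 : Type := Matrix (Fin 6) (Fin 6) K

/-- matrices with the action `N ↦ θ m * N * (θ m)ᵀ` -/
def Sy (_ : GL6 →* M6) : Type := M6

instance (θ : GL6 →* M6) : AddCommGroup (Sy θ) := inferInstanceAs (AddCommGroup M6)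

instance (θ : GL6 →* M6) : DistribMulAction GL6 (Sy θ) where
  smul m N := (θ m * (show M6 from N) * (θ m)ᵀ : M6)
  one_smul N := by
    change (θ 1 * (show M6 from N) * (θ 1)ᵀ : M6) = N
    rw [map_one, transpose_one, one_mul, mul_one]
  mul_smul m n N := by
    change (θ (m * n) * (show M6 from N) * (θ (m * n))ᵀ : M6) =
      θ m * (θ n * (show M6 from N) * (θ n)ᵀ) * (θ m)ᵀ
    generalize (show M6 from N) = L
    rw [map_mul, transpose_mul]
    simp only [Matrix.mul_assoc]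
  smul_zero m := by
    change (θ m * (0 : M6) * (θ m)ᵀ : M6) = (0 : M6)
    rw [mul_zero, zero_mul]
  smul_add m N L := by
    change (θ m * ((show M6 from N) + (show M6 from L)) * (θ m)ᵀ : M6) =
      θ m * (show M6 from N) * (θ m)ᵀ + θ m * (show M6 from L) * (θ m)ᵀ
    rw [mul_add, add_mul]

variable {A B : Subgroup (MulAut J)}

theorem ac_cj {β : MulAut J} {s : G} (h : Cj β s) : Ac (ext β) (ug s) := fun v => by
  rw [h _ (jv_mem v), jv_ug]

theorem cj (s : G) : ∃ β : MulAut J, Cj β s := exists_cj (le_normalizer_of_normal (mem_top s))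

theorem ug_mem (h : Cp 3 J A B) (s : G) : ug s ∈ XX B :=
  let ⟨β, hβ⟩ := cj s; ⟨β, h.cj β s hβ, ac_cj hβ⟩

theorem XX_le (h : B ≤ A) : XX B ≤ XX A := fun _ ⟨α, hα, e⟩ => ⟨α, h hα, e⟩

theorem fix (trm : TrmStmt.{0}) {M : Type} [AddCommGroup M] [DistribMulAction GL6 M]
    (hU : ∀ N : M, ∑ p : K × K × K, um p.1 p.2.1 p.2.2 • N = 0) (h : Cp 3 J A B) (N : M)
    (hB : ∀ m ∈ XX B, m • N = N) : ∀ m ∈ XX A, m • N = N := fun m hm => by
  obtain ⟨I, hI⟩ := trm (XX A) M (ug.range.subgroupOf (XX A)) ((XX B).subgroupOf (XX A))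
    (fun t ⟨s, hs⟩ => show (XX A).subtype t ∈ XX B from hs ▸ ug_mem h s)
    (by
      rintro ⟨g, α, hα, e⟩ hg ⟨t, ht⟩ ⟨s, rfl⟩ ⟨γ, hγ, k⟩
      by_cases hs : s ∈ J
      · obtain ⟨e1, e2, e3⟩ := hs
        exact Subtype.ext (Units.ext (by
          change uM s.a s.b s.c = 1
          rw [e1, e2, e3, uM_zero]))
      obtain ⟨β, hβ⟩ := cj s
      have h1 : α⁻¹ * β * α⁻¹⁻¹ = γ := aut_ext fun x hx => by
        have k' : Ac (ext γ) (g⁻¹ * ug s * g) := k
        rw [← jv_vj hx, k', inv_inv, ext_mul, ext_mul, e, ac_cj hβ, mulVec_mulVec, ← Units.val_mul]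
        have := e ((g⁻¹ * ug s * g).1 *ᵥ vj x)
        rw [mulVec_mulVec, ← Units.val_mul, ← mul_assoc, ← mul_assoc, mul_inv_cancel,
          one_mul] at this
        rw [← this, ext_inv_ext]
      exact absurd (show g ∈ XX B from
        ⟨α, inv_mem_iff.1 (h.se α⁻¹ (inv_mem hα) β s hβ hs (h1 ▸ hγ)), e⟩) hg)
    N fun b hb => hB b hb
  let f : K × K × K → ug.range.subgroupOf (XX A) := fun p =>
    ⟨⟨um p.1 p.2.1 p.2.2, XX_le h.le (ug_mem h ⟨p.1, p.2.1, p.2.2, 0, 0, 0, 0, 0, 0⟩)⟩,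
      ⟨⟨p.1, p.2.1, p.2.2, 0, 0, 0, 0, 0, 0⟩, rfl⟩⟩
  have hf : Function.Bijective f := ⟨fun p q e => by
      have e1 : uM p.1 p.2.1 p.2.2 = uM q.1 q.2.1 q.2.2 := congrArg (fun t => t.1.1.1) e
      exact Prod.ext (congrFun (congrFun e1 1) 3)
        (Prod.ext (congrFun (congrFun e1 1) 2) (congrFun (congrFun e1 2) 5)),
    fun ⟨_, s, hs⟩ => ⟨(s.a, s.b, s.c), Subtype.ext (Subtype.ext hs)⟩⟩
  have h0 : ∀ L : M, ∑ᶠ t : ug.range.subgroupOf (XX A), (t : XX A) • L = 0 := fun L => by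
    rw [← finsum_comp_equiv (Equiv.ofBijective f hf), finsum_eq_sum_of_fintype]
    exact hU L
  have := hI ⟨m, hm⟩
  simp only [h0, Finset.sum_const_zero, add_zero] at this
  exact this

theorem col (trm : TrmStmt.{0}) (θ : GL6 →* M6)
    (hθ : ∀ i k j l, ∑ p : K × K × K, θ (um p.1 p.2.1 p.2.2) i k * θ (um p.1 p.2.1 p.2.2) j l = 0)
    (h : Cp 3 J A B) (n : Fin 6) (hB : ∀ m ∈ XX B, ∀ i, i ≠ n → θ m i n = 0) :
    ∀ m ∈ XX A, ∀ i, i ≠ n → θ m i n = 0 := fun m hm i hi => by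
  have e : ∀ m i j, (θ m * single n n (1 : K) * (θ m)ᵀ : M6) i j = θ m i n * θ m j n :=
    fun m i j => by
      rw [mul_apply, Finset.sum_eq_single n (fun k _ hk => by
        rw [mul_single_apply_of_ne _ _ _ _ _ hk, zero_mul]) (by simp), mul_single_apply_same,
        mul_one, transpose_apply]
  have h1 := fix trm (M := Sy θ) (fun N => by
    change (∑ p : K × K × K, θ (um p.1 p.2.1 p.2.2) * (show M6 from N) *
      (θ (um p.1 p.2.1 p.2.2))ᵀ : M6) = (0 : M6)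
    generalize (show M6 from N) = L
    ext i j
    simp only [Matrix.sum_apply, mul_apply, transpose_apply, Finset.sum_mul, Matrix.zero_apply]
    rw [Finset.sum_comm]
    refine Finset.sum_eq_zero fun l _ => ?_
    rw [Finset.sum_comm]
    refine Finset.sum_eq_zero fun k _ => ?_
    simp only [mul_right_comm _ (L k l)]
    rw [← Finset.sum_mul, hθ, zero_mul]) h (single n n (1 : K) : M6) (fun m hm => by
    change (θ m * single n n (1 : K) * (θ m)ᵀ : M6) = (single n n (1 : K) : M6)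
    have h2 : θ m n n ≠ 0 := fun e0 => by
      have h3 := congrFun (congrFun (show θ m⁻¹ * θ m = 1 by
        rw [← map_mul, inv_mul_cancel, map_one]) n) n
      rw [mul_apply, Finset.sum_eq_zero fun k _ => by
        by_cases hk : k = n
        · rw [hk, e0, mul_zero]
        · rw [hB m hm k hk, mul_zero], one_apply_eq] at h3
      exact zero_ne_one h3
    ext i j
    rw [e]
    by_cases hi : i = n
    · by_cases hj : j = n
      · rw [hi, hj, single_apply_same]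
        exact (by decide : ∀ c : K, c ≠ 0 → c * c = 1) _ h2
      · rw [hB m hm j hj, mul_zero, single_apply_of_col_ne _ _ (Ne.symm hj)]
    · rw [hB m hm i hi, zero_mul, single_apply_of_row_ne (Ne.symm hi)]) m hm
  have h2 := congrFun (congrFun
    (show (θ m * single n n (1 : K) * (θ m)ᵀ : M6) = (single n n (1 : K) : M6) from h1) i) i
  rw [e, single_apply_of_row_ne (Ne.symm hi)] at h2
  exact mul_self_eq_zero.1 h2

theorem mat (lin : LinStmt) (α : MulAut J) : ∃ m, Ac (ext α) m :=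
  let ⟨m, hm, _⟩ := lin J (ext α) le_rfl (fun _ a _ b => ext_map_mul α a b) fun _ _ _ _ e => by
    simpa using congrArg (ext α⁻¹) e
  ⟨m, hm⟩

/-- inverse transpose -/
def it : GL6 →* M6 where
  toFun m := (m⁻¹).1ᵀ
  map_one' := by rw [inv_one, Units.val_one, transpose_one]
  map_mul' m n := by rw [_root_.mul_inv_rev, Units.val_mul, transpose_mul]

theorem sum1 : ∀ i k j l, ∑ p : K × K × K, uM p.1 p.2.1 p.2.2 i k * uM p.1 p.2.1 p.2.2 j l = 0 := by
  decide +kernel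

theorem sum2 : ∀ i k j l, ∑ p : K × K × K, uM (-p.1) (-p.2.1) (p.1 * p.2.1 - p.2.2) k i *
    uM (-p.1) (-p.2.1) (p.1 * p.2.1 - p.2.2) l j = 0 := by
  decide +kernel

theorem tz (trm : TrmStmt.{0}) (lin : LinStmt) : TZStmt := fun A B h hZ α hα x hx xZ => by
  obtain ⟨m, hm⟩ := mat lin α
  have h1 := col trm (Units.coeHom M6) sum1 h 0 (by
    rintro m ⟨γ, hγ, k⟩ i hi
    have h2 := hZ γ hγ _ (jv_mem (Pi.single 0 1)) (mem_Z.2 (by decide))
    rw [k, mulVec_single_one] at h2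
    obtain ⟨-, -, -, e1, e2, e3, e4, e5⟩ := h2
    fin_cases i
    exacts [absurd rfl hi, e1, e3 ▸ e2, e3, e4, e5]) m ⟨α, hα, hm⟩
  obtain ⟨-, -, -, e1, e2, e3, e4, e5⟩ := xZ
  rw [← jv_vj hx, hm]
  have h2 : ∀ i, i ≠ 0 → (m.1 *ᵥ vj x) i = 0 := fun i hi => by
    have := h1 i hi
    simp only [Units.coeHom_apply] at this
    simp [mulVec, dotProduct, Fin.sum_univ_six, vj, *]
  exact ⟨rfl, rfl, rfl, h2 1 (by decide), h2 2 (by decide), h2 3 (by decide), h2 4 (by decide),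
    h2 5 (by decide)⟩

theorem t5 (trm : TrmStmt.{0}) (lin : LinStmt) : T5Stmt := fun A B h hZ α hα x hx xZ => by
  obtain ⟨m, hm⟩ := mat lin α
  have h1 := col trm it sum2 h 5 (fun m hm i hi => by
    obtain ⟨γ, hγ, k⟩ := inv_mem hm
    have h2 := hZ γ hγ _ (jv_mem (Pi.single i 1)) ⟨jv_mem _, Pi.single_eq_of_ne hi.symm _⟩
    rw [k, mulVec_single_one] at h2
    exact h2.2) m⁻¹ (inv_mem ⟨α, hα, hm⟩)
  have h2 : ∀ i, i ≠ 5 → m.1 5 i = 0 := h1
  have e : x.t = 0 := xZ.2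
  rw [← jv_vj hx, hm]
  refine ⟨jv_mem _, show (m.1 *ᵥ vj x) 5 = 0 from ?_⟩
  simp [mulVec, dotProduct, Fin.sum_univ_six, vj, h2, e]

theorem eqns_C1Tz : True := by
  have := @Sy.eq_1
  have := @it.eq_1
  trivial

end Cfsg.Agent.H19.C1Tz
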