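import Cfsg.Agent.H9.C3Defs

/-!
# The cliques of the four lines
-/

set_option autoImplicit false

namespace Cfsg.Agent.H19.C3Lin2

open Subgroup Cfsg.Agent.H62 Cfsg.Agent.H9.C3

universe u

variable {G : Type u} [Group G] [Finite G] {P : Sylow 3 G} {e x : G}

omit [Finite G] in
theorem W_le {I : Finset (Fin 4)} {j : Fin 4} (hj : j ∈ I) : W e x j ≤ Pr e x I :=
  le_iSup₂_of_le (f := fun j (_ : j ∈ I) => W e x j) j hj le_rfl

omit [Finite G] in
theorem Pr_le {I : Finset (Fin 4)} {K : Subgroup G} (h : ∀ j ∈ I, W e x j ≤ K) : Pr e x I ≤ K :=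
  iSup₂_le h

omit [Finite G] in
theorem memW (k : Kit G) (l : Lin0 (P : Subgroup G) e x) {i : Fin 4} {v : G} :
    v ∈ W e x i ↔ v * v = 1 ∧ v * ln e x i = ln e x i * v := k.mem _ (l.ord i) v

omit [Finite G] in
theorem cm_Pr {I : Finset (Fin 4)} {v : G} (h : ∀ j ∈ I, ∀ w ∈ W e x j, w * v = v * w) :
    ∀ w ∈ Pr e x I, w * v = v * w := fun _ hw =>
  mem_centralizer_singleton_iff.1 (Pr_le (K := C1 v)
    (fun j hj w hw => mem_centralizer_singleton_iff.2 (h j hj w hw)) hw)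

omit [Finite G] in
theorem ea_Pr (k : Kit G) (l : Lin0 (P : Subgroup G) e x) {I : Finset (Fin 4)}
    (hc : ∀ j ∈ I, ∀ m ∈ I, Cm (W e x j) (W e x m)) : EA (Pr e x I) := fun _ hv =>
  (mem_omZ.1 (Pr_le (K := omZ (Pr e x I)) (fun j hj _ hw => mem_omZ.2
    ⟨W_le hj hw, ((memW k l).1 hw).1, cm_Pr fun m hm a ha => hc m hm j hj a ha _ hw⟩) hv)).2.1

omit [Finite G] in
theorem inf_Pr (k : Kit G) (l : Lin0 (P : Subgroup G) e x) {I : Finset (Fin 4)}
    (hc : ∀ j ∈ I, ∀ m ∈ I, Cm (W e x j) (W e x m)) {i : Fin 4} (hi : i ∉ I) :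
    W e x i ⊓ Pr e x I = ⊥ := by
  have ea := ea_Pr k l hc
  set y := ln e x i with hy
  have y3 : y * y * y = 1 := by
    have := k.cube P y (l.mem i)
    rwa [pow_succ, pow_two] at this
  have n1 : ∀ v ∈ Pr e x I, y * v * y⁻¹ ∈ Pr e x I := fun v hv =>
    conj_mem_of_norm (l.nP I (l.mem i)) hv
  let S : Subgroup G :=
    { carrier := {v | v ∈ Pr e x I ∧ v * (y * v * y⁻¹) * (y * (y * v * y⁻¹) * y⁻¹) = 1}
      one_mem' := ⟨one_mem _, by simp⟩
      mul_mem' := fun {a b} ha hb => ⟨mul_mem ha.1 hb.1, by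
        have a1 := n1 a ha.1
        have a2 := n1 _ a1
        have b1 := n1 b hb.1
        have e1 : y * (a * b) * y⁻¹ = y * a * y⁻¹ * (y * b * y⁻¹) := by group
        have e2 : y * (y * a * y⁻¹ * (y * b * y⁻¹)) * y⁻¹ =
            y * (y * a * y⁻¹) * y⁻¹ * (y * (y * b * y⁻¹) * y⁻¹) := by group
        have h1 := ha.2
        have h2 := hb.2
        rw [e1, e2]
        generalize y * (y * a * y⁻¹) * y⁻¹ = a'' at *
        generalize y * (y * b * y⁻¹) * y⁻¹ = b'' at *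
        generalize y * a * y⁻¹ = a' at *
        generalize y * b * y⁻¹ = b' at *
        calc a * b * (a' * b') * (a'' * b'') = a * (b * a') * (b' * a'') * b'' := by group
          _ = a * a' * (b * a'') * b' * b'' := by
            rw [ea.comm hb.1 a1, ea.comm b1 a2]; group
          _ = a * a' * a'' * (b * b' * b'') := by rw [ea.comm hb.1 a2]; group
          _ = 1 := by rw [h1, h2, one_mul]⟩
      inv_mem' := fun {a} ha => by rw [ea.inv ha.1]; exact ha }
  have hS : Pr e x I ≤ S := Pr_le fun j hj v hv => ⟨W_le hj hv, by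
    have n2 : ∀ v ∈ W e x j, y * v * y⁻¹ ∈ W e x j := fun v hv =>
      conj_mem_of_norm (l.nW j (l.mem i)) hv
    have v1 := n2 v hv
    have v2 := n2 _ v1
    refine k.fpf _ y (l.ord j) (l.ord i) (k.comm P _ (l.mem j) _ (l.mem i))
      (l.ne j i fun h => hi (h ▸ hj)) _ (mul_mem (mul_mem hv v1) v2) ?_
    have e3 : y * (y * (y * v * y⁻¹) * y⁻¹) * y⁻¹ = v := by
      calc _ = (y * y * y) * v * (y * y * y)⁻¹ := by group
        _ = v := by rw [y3]; simp
    have c1 := ea.comm (W_le hj hv) (mul_mem (W_le hj v1) (W_le hj v2))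
    rw [eq_comm, ← mul_inv_eq_iff_eq_mul]
    calc y * (v * (y * v * y⁻¹) * (y * (y * v * y⁻¹) * y⁻¹)) * y⁻¹ =
          y * v * y⁻¹ * (y * (y * v * y⁻¹) * y⁻¹) * (y * (y * (y * v * y⁻¹) * y⁻¹) * y⁻¹) := by
          group
      _ = _ := by rw [e3, ← c1, mul_assoc v]⟩
  rw [eq_bot_iff]
  rintro v ⟨h1, h2⟩
  obtain ⟨h3, h4⟩ := (memW k l).1 h1
  have h5 : y * v * y⁻¹ = v := by rw [hy, ← h4, mul_inv_cancel_right]
  have h6 := (hS h2).2
  rw [h5, h5, h3, one_mul] at h6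
  exact h6

omit [Finite G] in
theorem card_Pr (k : Kit G) (l : Lin0 (P : Subgroup G) e x) (I : Finset (Fin 4)) :
    (∀ j ∈ I, W e x j ≠ ⊥) → (∀ j ∈ I, ∀ m ∈ I, Cm (W e x j) (W e x m)) →
      Nat.card (Pr e x I) = 4 ^ I.card := by
  induction I using Finset.induction_on with
  | empty => intro _ _; simp [Pr]
  | insert i I hi ih =>
    intro hb hc
    have hc' : ∀ j ∈ I, ∀ m ∈ I, Cm (W e x j) (W e x m) := fun j hj m hm =>
      hc j (Finset.mem_insert_of_mem hj) m (Finset.mem_insert_of_mem hm)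
    have e1 : Pr e x (insert i I) = W e x i ⊔ Pr e x I := Finset.iSup_insert _ _ _
    rw [e1, H69.card_sup_comm (fun a ha b hb => (cm_Pr (fun j hj w hw =>
      hc j (Finset.mem_insert_of_mem hj) i (Finset.mem_insert_self _ _) w hw a ha) b hb).symm)
      (inf_Pr k l hc' hi), ih (fun j hj => hb j (Finset.mem_insert_of_mem hj)) hc',
      Finset.card_insert_of_notMem hi, pow_succ', W,
      (k.card _ (l.ord i)).resolve_left (hb i (Finset.mem_insert_self _ _))]

omit [Finite G] in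
theorem eq_of_cent (k : Kit G) (l : Lin0 (P : Subgroup G) e x) {i j : Fin 4} (hj : W e x j ≠ ⊥)
    (h : ∀ v ∈ W e x j, v * ln e x i = ln e x i * v) : j = i := by
  by_contra hne
  refine hj (eq_bot_iff.2 fun v hv => ?_)
  exact k.fpf _ _ (l.ord j) (l.ord i) (k.comm P _ (l.mem j) _ (l.mem i)) (l.ne j i hne) v hv
    (h v hv)

theorem mcl (k : Kit G) (l : Lin0 (P : Subgroup G) e x) (I : Finset (Fin 4)) (h2 : 2 ≤ I.card)
    (hb : ∀ j ∈ I, W e x j ≠ ⊥) :
    ∃ J : Finset (Fin 4), (∀ m, m ∈ J ↔ W e x m ≠ ⊥ ∧ ∀ j ∈ I, Cm (W e x m) (W e x j)) ∧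
      centralizer (Pr e x I : Set G) = Pr e x J ∧ IsPGroup 2 (Pr e x J) := by
  have hn : (P : Subgroup G) ≤ Nm (centralizer (Pr e x I : Set G)) := fun g hg =>
    mem_normalizer_of_forall fun c hc => mem_centralizer_iff.2 fun v hv => by
      have h1 := mem_centralizer_iff.1 hc _ (conj_mem_of_norm (l.nP I (inv_mem hg)) hv)
      calc v * (g * c * g⁻¹) = g * (g⁻¹ * v * g⁻¹⁻¹ * c) * g⁻¹ := by group
        _ = g * c * g⁻¹ * v := by rw [h1]; group
  have hi : centralizer (Pr e x I : Set G) ⊓ (P : Subgroup G) = ⊥ := by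
    rw [eq_bot_iff]
    rintro z ⟨hz, hzP⟩
    by_contra h1
    obtain ⟨i, hi⟩ := l.cov z hzP h1
    have h3 : ln e x i ∈ centralizer (Pr e x I : Set G) := by
      rcases hi with rfl | rfl
      · exact hz
      · exact (inv_mem_iff (H := centralizer (Pr e x I : Set G))).1 hz
    have h4 : ∀ j ∈ I, j = i := fun j hj =>
      eq_of_cent k l (hb j hj) fun v hv => mem_centralizer_iff.1 h3 v (W_le hj hv)
    obtain ⟨a, ha, b, hb', hab⟩ := Finset.one_lt_card.1 h2
    exact hab ((h4 a ha).trans (h4 b hb').symm)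
  have hp := k.cop P _ hn hi
  obtain ⟨J, hJ, e1⟩ := l.gen _ hp hn
  refine ⟨J, fun m => (hJ m).trans (and_congr_right fun _ => ⟨fun h j hj a ha b hb => ?_,
    fun h a ha => ?_⟩), e1, e1 ▸ hp⟩
  · exact (mem_centralizer_iff.1 (h ha) b (W_le hj hb)).symm
  · exact mem_centralizer_iff.2 (cm_Pr fun j hj w hw => (h j hj a ha w hw).symm)

theorem sfix (k : Kit G) (f : Fr (P : Subgroup G) e) (l : Lin0 (P : Subgroup G) e x) (i : Fin 4)
    (hb : W e x i ≠ ⊥) : Nat.card (W e x i ⊓ C1 (e * e) : Subgroup G) = 2 := by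
  have h4 : Nat.card (W e x i) = 4 := (k.card _ (l.ord i)).resolve_left hb
  have hinv := f.inv _ (l.mem i)
  have hsq := l.sq
  generalize e * e = s at hinv hsq ⊢
  obtain ⟨v, hv, hne⟩ := k.inv _ s (l.ord i) hinv hb
  have ea : EA (W e x i) := fun w hw => ((memW k l).1 hw).1
  obtain ⟨v2, vc⟩ := (memW k l).1 hv
  have hs : s⁻¹ = s := inv_eq_of_mul_eq_one_right hsq
  have hv' : s * v * s⁻¹ ∈ W e x i := by
    refine (memW k l).2 ⟨?_, ?_⟩
    · calc s * v * s⁻¹ * (s * v * s⁻¹) = s * (v * v) * s⁻¹ := by group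
        _ = 1 := by rw [v2]; simp
    · have h1 : ln e x i = s * (ln e x i)⁻¹ * s⁻¹ := by
        rw [← hinv]
        calc ln e x i = (s * s) * ln e x i * (s * s)⁻¹ := by rw [hsq]; simp
          _ = _ := by group
      have h2 : v * (ln e x i)⁻¹ = (ln e x i)⁻¹ * v := (show Commute v _ from vc).inv_right
      rw [h1]
      calc s * v * s⁻¹ * (s * (ln e x i)⁻¹ * s⁻¹) = s * (v * (ln e x i)⁻¹) * s⁻¹ := by group
        _ = _ := by rw [h2]; group
  have hw : v * (s * v * s⁻¹) ∈ W e x i ⊓ C1 s := by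
    refine ⟨mul_mem hv hv', mem_centralizer_singleton_iff.2 ?_⟩
    have c := ea.comm hv hv'
    rw [hs] at c ⊢
    calc v * (s * v * s) * s = v * s * v * (s * s) := by group
      _ = (s * s) * v * s * v := by rw [hsq]; group
      _ = s * (s * v * s * v) := by group
      _ = _ := by rw [← c]
  have hw1 : v * (s * v * s⁻¹) ≠ 1 := fun h => hne (by
    have h1 : s * v * s⁻¹ = v := mul_left_cancel (a := v) (h.trans v2.symm)
    exact mul_inv_eq_iff_eq_mul.1 h1)
  have hd : Nat.card (W e x i ⊓ C1 s : Subgroup G) ∣ 2 ^ 2 :=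
    (card_dvd_of_le inf_le_left).trans (dvd_of_eq h4)
  obtain ⟨n, hn, e1⟩ := (Nat.dvd_prime_pow Nat.prime_two).1 hd
  interval_cases n
  · exact absurd (mem_bot.1 (card_eq_one.1 e1 ▸ hw)) hw1
  · exact e1
  · have h5 : W e x i ⊓ C1 s = W e x i := eq_of_le_of_card_ge inf_le_left (by rw [e1, h4]; rfl)
    exact absurd (mem_centralizer_singleton_iff.1 (inf_eq_left.1 h5 hv)).symm hne

theorem lin2 : Lin2Stmt.{u} := fun _ _ _ k _ _ _ f l =>
  { l with
    cl := fun I hb hc => ⟨ea_Pr k l hc, card_Pr k l I hb hc, fun _ hi => inf_Pr k l hc hi⟩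
    mcl := mcl k l
    sfix := sfix k f l }

end Cfsg.Agent.H19.C3Lin2
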