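import Mathlib
import Cfsg.Agent.H11.CyDefs
import Cfsg.Agent.H29.PSL2Sub
import Cfsg.Agent.S0813
import Cfsg.Agent.S1069

/-! Project CY: passing from a doubly transitive normal subgroup to the whole group. -/

set_option autoImplicit false

namespace Cfsg.Agent.H19.CyUp

open Subgroup MulAction H11.Cy

variable {G : Type} [Group G] {Ω : Type} [MulAction G Ω]

/-- A regular subgroup normalised by a doubly transitive normal subgroup is normal. -/
theorem normal_of_reg [Finite G] (faith : ∀ g : G, (∀ x : Ω, g • x = x) → g = 1) (x₀ : Ω)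
    {N W : Subgroup G} (hN : N.Normal) (h2 : Tr2 N (Set.univ : Set Ω)) (hWN : W ≤ N)
    (hn : ∀ n ∈ N, ∀ w ∈ W, n * w * n⁻¹ ∈ W) (tr : ∀ x y : Ω, ∃ w ∈ W, w • x = y)
    (sr : ∀ w ∈ W, w • x₀ = x₀ → w = 1) : W.Normal := by
  have cj : ∀ w ∈ W, ∀ w' ∈ W, w ≠ 1 → w' ≠ 1 → ∃ n ∈ N, n * w * n⁻¹ = w' := by
    intro w hw w' hw' h1 h1'
    obtain ⟨n, hnN, e1, e2⟩ := h2 x₀ trivial (w • x₀) trivial x₀ trivial (w' • x₀) trivial
      (fun e => h1 (sr w hw e.symm)) (fun e => h1' (sr w' hw' e.symm))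
    refine ⟨n, hnN, ?_⟩
    have e3 : n⁻¹ • x₀ = x₀ := inv_smul_eq_iff.2 e1.symm
    have := sr (w'⁻¹ * (n * w * n⁻¹)) (mul_mem (inv_mem hw') (hn n hnN w hw)) (by
      rw [mul_smul, mul_smul, mul_smul, e3, e2, inv_smul_smul])
    exact (inv_mul_eq_one.1 this).symm
  have ab : ∀ v ∈ W, ∀ w ∈ W, v * w = w * v := by
    intro v hv w hw
    by_cases h1 : v = 1
    · rw [h1, one_mul, mul_one]
    have : Nontrivial W := ⟨⟨⟨v, hv⟩, 1, fun e => h1 (congrArg Subtype.val e)⟩⟩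
    obtain ⟨r, hr, hd⟩ := Nat.exists_prime_and_dvd (Finite.one_lt_card (α := W)).ne'
    have : Fact r.Prime := ⟨hr⟩
    obtain ⟨u, hu⟩ := exists_prime_orderOf_dvd_card' r hd
    have hu1 : (u : G) ≠ 1 := fun e => by
      rw [show u = 1 from Subtype.ext e, orderOf_one] at hu
      exact hr.one_lt.ne hu
    have hur : (u : G) ^ r = 1 := by
      rw [← Subgroup.coe_pow, ← hu, pow_orderOf_eq_one]; rfl
    have hP : IsPGroup r W := fun y => ⟨1, by
      by_cases hy : (y : G) = 1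
      · rw [show y = 1 from Subtype.ext hy, one_pow]
      obtain ⟨n, -, e⟩ := cj u u.2 y y.2 hu1 hy
      exact Subtype.ext (by rw [pow_one, Subgroup.coe_pow, ← e, conj_pow, hur]; simp)⟩
    have := hP.center_nontrivial
    obtain ⟨z, hz⟩ := exists_ne (1 : center W)
    have hz1 : ((z : W) : G) ≠ 1 := fun e => hz (Subtype.ext (Subtype.ext e))
    obtain ⟨n, hnN, e⟩ := cj _ (z : W).2 v hv hz1 h1
    have h3 : n⁻¹ * w * n ∈ W := by simpa using hn _ (inv_mem hnN) w hw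
    have h4 : n⁻¹ * w * n * ((z : W) : G) = ((z : W) : G) * (n⁻¹ * w * n) :=
      congrArg Subtype.val (mem_center_iff.1 z.2 ⟨_, h3⟩)
    calc v * w = n * (((z : W) : G) * (n⁻¹ * w * n)) * n⁻¹ := by rw [← e]; group
      _ = w * v := by rw [← h4, ← e]; group
  refine ⟨fun w hw g => ?_⟩
  have hw' : g * w * g⁻¹ ∈ N := hN.conj_mem _ (hWN hw) g
  by_cases h1 : w = 1
  · rw [h1, mul_one, mul_inv_cancel]; exact one_mem _
  by_cases hc : ∀ v ∈ W, v * (g * w * g⁻¹) = g * w * g⁻¹ * v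
  · obtain ⟨v, hv, e⟩ := tr x₀ ((g * w * g⁻¹) • x₀)
    have : v⁻¹ * (g * w * g⁻¹) = 1 := faith _ fun x => by
      obtain ⟨u, hu, rfl⟩ := tr x₀ x
      rw [← mul_smul, mul_assoc, ← hc u hu, ← mul_assoc, ab _ (inv_mem hv) u hu, mul_assoc, mul_smul,
        mul_smul, ← e, inv_smul_smul]
    rw [← inv_mul_eq_one.1 this]
    exact hv
  · push Not at hc
    obtain ⟨v, hv, hne⟩ := hc
    have hc1 : v * (g * w * g⁻¹) * v⁻¹ * (g * w * g⁻¹)⁻¹ ∈ W := by
      have := mul_mem hv (hn _ hw' _ (inv_mem hv))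
      convert this using 1; group
    have hgv : g⁻¹ * v * g ∈ N := by simpa using hN.conj_mem _ (hWN hv) g⁻¹
    have hc2 : g⁻¹ * (v * (g * w * g⁻¹) * v⁻¹ * (g * w * g⁻¹)⁻¹) * g ∈ W := by
      have := mul_mem (hn _ hgv _ hw) (inv_mem hw)
      convert this using 1; group
    have hc3 : g⁻¹ * (v * (g * w * g⁻¹) * v⁻¹ * (g * w * g⁻¹)⁻¹) * g ≠ 1 := fun e => hne (by
      have e' : v * (g * w * g⁻¹) * v⁻¹ * (g * w * g⁻¹)⁻¹ = 1 := by
        calc _ = g * (g⁻¹ * (v * (g * w * g⁻¹) * v⁻¹ * (g * w * g⁻¹)⁻¹) * g) * g⁻¹ := by group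
          _ = 1 := by rw [e]; group
      calc _ = (v * (g * w * g⁻¹) * v⁻¹ * (g * w * g⁻¹)⁻¹) * (g * w * g⁻¹ * v) := by group
        _ = _ := by rw [e', one_mul])
    obtain ⟨n, hnN, e⟩ := cj _ hc2 w hw hc3 h1
    have := hn _ (hN.conj_mem _ hnN g) _ hc1
    rw [← e]
    convert this using 1; group

theorem rns_up [Finite G] (faith : ∀ g : G, (∀ x : Ω, g • x = x) → g = 1) (x₀ : Ω)
    {N : Subgroup G} (hN : N.Normal) (h2 : Tr2 N (Set.univ : Set Ω)) (h : RNS N Ω) : RNS G Ω := by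
  obtain ⟨V, hV, ht, hs⟩ := h
  have tr : ∀ x y : Ω, ∃ w ∈ V.map N.subtype, w • x = y := fun x y => by
    obtain ⟨v, hv⟩ := ht.exists_smul_eq x y
    exact ⟨_, ⟨v.1, v.2, rfl⟩, hv⟩
  have sr : ∀ x : Ω, ∀ w ∈ V.map N.subtype, w • x = x → w = 1 := by
    rintro x _ ⟨v, hv, rfl⟩ e
    have : (⟨v, hv⟩ : V) ∈ stabilizer V x := e
    rw [hs x, mem_bot] at this
    exact congrArg (fun t : V => (t.1 : G)) this
  refine ⟨V.map N.subtype, normal_of_reg faith x₀ hN h2 (map_subtype_le V) ?_ tr (sr x₀),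
    ⟨fun x y => ?_⟩, fun x => eq_bot_iff.2 fun w hw => Subtype.ext (sr x w.1 w.2 hw)⟩
  · rintro n hn _ ⟨v, hv, rfl⟩
    exact ⟨_, hV.conj_mem v hv ⟨n, hn⟩, rfl⟩
  · obtain ⟨w, hw, e⟩ := tr x y
    exact ⟨⟨w, hw⟩, e⟩

theorem st_sub {p : ℕ} {A : Ω → Subgroup G} (h : St p A) {N : Subgroup G} (hA : ∀ x, A x ≤ N)
    (h2 : Tr2 N (Set.univ : Set Ω)) : St (G := N) p fun x => (A x).subgroupOf N where
  pp := h.pp
  faith g hg := Subtype.ext (h.faith g.1 hg)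
  two x hx y hy x' hx' y' hy' e e' := by
    obtain ⟨g, hg, e1, e2⟩ := h2 x hx y hy x' hx' y' hy' e e'
    exact ⟨⟨g, hg⟩, mem_top _, e1, e2⟩
  nt := h.nt
  card x := (Nat.card_congr (subgroupOfEquivOfLe (hA x)).toEquiv).trans (h.card x)
  fix x a ha := h.fix x a.1 ha
  eqv g x a ha := h.eqv g.1 x a.1 ha
  semi x y a ha e := (h.semi x y a.1 ha e).imp_left Subtype.ext

theorem exists_ne_one {p : ℕ} {A : Ω → Subgroup G} [Finite G] (h : St p A) (x : Ω) :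
    ∃ a ∈ A x, a ≠ 1 := by
  have : Nontrivial (A x) := Finite.one_lt_card_iff_nontrivial.1 (h.card x ▸ h.pp.one_lt)
  obtain ⟨a, ha⟩ := exists_ne (1 : A x)
  exact ⟨a.1, a.2, fun e => ha (Subtype.ext e)⟩

theorem card_aut {M : Type} [Group M] (h : IsL2 M 8) : Nat.card (MulAut M) = 1512 := by
  obtain ⟨F, _, _, hF, ⟨e⟩⟩ := h
  have : Fact (Nat.Prime 2) := ⟨Nat.prime_two⟩
  have h1 := Cfsg.Agent.S0813.result (F := F) 2 3 (by norm_num) hF 2 le_rfl (fun _ => by norm_num)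
  rw [Nat.card_congr (MulAut.congr e).toEquiv, h1, Cfsg.Agent.H29.card_PGL2,
    Nat.card_eq_fintype_card, hF]
  norm_num

theorem card_r3 {M : Type} [Group M] (h : IsR3 M) : Nat.card M = 1512 := by
  obtain ⟨K, _, _, hK, ⟨e⟩⟩ := h
  have h1 := Cfsg.Agent.S1069.result (K := K) (m := 0) hK
  rw [Nat.card_congr e.toEquiv]
  exact h1

theorem up : UpStmt := by
  intro G _ _ Ω _ _ p A h ih hm
  unfold H11.Cy.Min at hm
  push Not at hm
  obtain ⟨N, hN, hA, h2, hne⟩ := hm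
  have hlt : Nat.card N < Nat.card G := by
    have h3 := N.card_mul_index
    have h4 : 1 < N.index := one_lt_index_of_ne_top hne
    have h5 : 0 < Nat.card N := Nat.card_pos
    nlinarith
  have := h.nt
  obtain ⟨x₀⟩ : Nonempty Ω := inferInstance
  rcases ih N Ω p _ (st_sub h hA h2) hlt with hr | ⟨M, hMn, hMs, hAM, ⟨x, k, hk, hkx, hkc⟩, ht⟩
  · exact Or.inl (rns_up h.faith x₀ hN h2 hr)
  have e : M ≃* M.map N.subtype := M.equivMapOfInjective _ N.subtype_injective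
  have hs : IsSimpleGroup (M.map N.subtype) := e.isSimpleGroup_congr.1 hMs
  have hAM' : ∀ y, A y ≤ M.map N.subtype := fun y a ha => ⟨⟨a, hA y ha⟩, hAM y ha, rfl⟩
  have hL : (⨆ y, A y).Normal := ⟨fun a ha g => by
    refine iSup_induction A (C := fun a => g * a * g⁻¹ ∈ ⨆ y, A y) ha (fun y a ha => ?_) ?_ ?_
    · exact mem_iSup_of_mem _ (h.eqv g y a ha)
    · simp
    · intro a b ha hb
      have := mul_mem ha hb
      convert this using 1; group⟩
  have hLM : (⨆ y, A y) = M.map N.subtype := by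
    rcases hs.eq_bot_or_eq_top_of_normal ((⨆ y, A y).subgroupOf _) (hL.subgroupOf _) with e1 | e1
    · obtain ⟨a, ha, ha1⟩ := exists_ne_one h x₀
      have : (⟨a, hAM' x₀ ha⟩ : M.map N.subtype) ∈ (⨆ y, A y).subgroupOf (M.map N.subtype) :=
        mem_iSup_of_mem x₀ ha
      rw [e1, mem_bot] at this
      exact absurd (congrArg Subtype.val this) ha1
    · exact le_antisymm (iSup_le hAM') (subgroupOf_eq_top.1 e1)
  have hM' : (M.map N.subtype).Normal := hLM ▸ hL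
  have t2 : ∀ q, IsL2 M q → IsL2 (M.map N.subtype) q := fun q ⟨F, i1, i2, hF, ⟨f⟩⟩ =>
    ⟨F, i1, i2, hF, ⟨e.symm.trans f⟩⟩
  refine Or.inr ⟨M.map N.subtype, hM', hs, hAM', ⟨x, k.1, ⟨k, hk, rfl⟩, hkx, fun hc => hkc ?_⟩, ?_⟩
  · exact fun a ha => Subtype.ext (hc a.1 ha)
  rcases ht with ⟨h5, hc, hl⟩ | ⟨hc, F, i1, i2, hF, ⟨f⟩⟩ | ⟨-, -, hl, hr⟩
  · exact Or.inl ⟨h5, hc, t2 _ hl⟩
  · exact Or.inr (Or.inl ⟨hc, F, i1, i2, hF, ⟨e.symm.trans f⟩⟩)
  · exfalso
    have h6 := card_aut (t2 _ hl)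
    have : Finite (MulAut (M.map N.subtype)) := Nat.finite_of_card_ne_zero (by omega)
    have h7 : Function.Injective (MulAut.conjNormal (H := M.map N.subtype)) := by
      refine (injective_iff_map_eq_one _).2 fun g hg => h.faith g fun y => ?_
      obtain ⟨a, ha, ha1⟩ := exists_ne_one h y
      have h8 : g * a * g⁻¹ = a :=
        congrArg Subtype.val (DFunLike.congr_fun hg (⟨a, hAM' y ha⟩ : M.map N.subtype))
      exact (h.semi y _ a ha (h.fix _ a (h8 ▸ h.eqv g y a ha))).resolve_left ha1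
    have h9 := Nat.card_le_card_of_injective _ h7
    rw [card_r3 hr] at hlt
    omega

end Cfsg.Agent.H19.CyUp
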