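import Mathlib
import Cfsg.Agent.H50.E72Defs
import Cfsg.Agent.H29.AS4

/-! Eigenspaces of semisimple elements of `E₇(2)` on the two modules. -/

set_option autoImplicit false
set_option maxRecDepth 100000

namespace Cfsg.Agent.H19.E72Tor

open Equiv Cfsg.Lie H37 H40 H34 H29 Module Cfsg.Agent.H50.E72
open scoped Matrix

theorem finrank_supp {ι F : Type*} [Fintype ι] [Field F] (p : ι → Prop) [DecidablePred p]
    (W : Submodule F (ι → F)) (h : ∀ v, v ∈ W ↔ ∀ i, ¬ p i → v i = 0) :
    finrank F W = ∑ i, if p i then 1 else 0 := by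
  classical
  let e : W ≃ₗ[F] ({i // p i} → F) :=
    { toFun := fun v i => v.1 i
      map_add' := fun _ _ => rfl
      map_smul' := fun _ _ => rfl
      invFun := fun f => ⟨fun i => if hi : p i then f ⟨i, hi⟩ else 0, (h _).2 fun i hi => dif_neg hi⟩
      left_inv := fun v => Subtype.ext (funext fun i => by
        by_cases hi : p i
        · exact dif_pos hi
        · exact (dif_neg hi).trans ((h _).1 v.2 i hi).symm)
      right_inv := fun f => funext fun i => dif_pos i.2 }
  rw [e.finrank_eq, finrank_fintype_fun_eq_card, Fintype.card_subtype, Finset.card_filter]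

theorem sum_filter {α : Type} (l : List α) (d : α) (p : α → Bool) :
    (∑ i : Fin l.length, if p (l.getD i d) = true then 1 else 0) = (l.filter p).length := by
  induction l with
  | nil => simp
  | cons a l ih =>
    rw [List.filter_cons]
    change (∑ i : Fin (l.length + 1), if p ((a :: l).getD i d) = true then 1 else 0) = _
    rw [Fin.sum_univ_succ]
    simp only [Fin.val_zero, List.getD_cons_zero, Fin.val_succ, List.getD_cons_succ, ih]
    split_ifs
    · rw [List.length_cons, add_comm]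
    · rw [zero_add]

theorem sum_filter' {α : Type} (l : List α) (d : α) (p : α → Bool) {n : ℕ} (h : l.length = n) :
    (∑ i : Fin n, if p (l.getD i d) = true then 1 else 0) = (l.filter p).length := by
  subst h; exact sum_filter l d p

/-- The multiplicity of an eigenvalue of an element that is conjugate to a diagonal matrix. -/
theorem mu_diag {n Γ : Type} [Fintype n] [DecidableEq n] [Group Γ] (π : G0 →* Matrix n n (ZMod 2))
    (ρ : Γ →* Matrix n n K) {g : G0} {x y : Γ} {d : n → K} (hx : ρ x = Matrix.diagonal d)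
    (hy : ρ y = (π g).map (algebraMap (ZMod 2) K)) (h : IsConj x y) (η : K) (p : n → Prop)
    [DecidablePred p] (hp : ∀ i, p i ↔ d i = η) : mu π g η = ∑ i, if p i then 1 else 0 := by
  obtain ⟨u, rfl⟩ := isConj_iff.1 h
  have h1 : ρ u * ρ u⁻¹ = 1 := by rw [← map_mul, mul_inv_cancel, map_one]
  have h2 : ρ u⁻¹ * ρ u = 1 := by rw [← map_mul, inv_mul_cancel, map_one]
  let e : (n → K) ≃ₗ[K] (n → K) := Matrix.toLin'OfInv h1 h2
  have he : ∀ v, e.symm v = ρ u *ᵥ v := fun _ => rfl
  rw [mu, ← e.finrank_map_eq]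
  refine finrank_supp p _ fun v => ?_
  rw [Submodule.mem_map_equiv, he, mem_eig, act_apply, ← hy, Matrix.mulVec_mulVec, ← map_mul,
    inv_mul_cancel_right, map_mul, ← Matrix.mulVec_mulVec, ← Matrix.mulVec_smul, hx]
  have inj : ∀ a b : n → K, ρ u *ᵥ a = ρ u *ᵥ b ↔ a = b := fun a b =>
    ⟨fun k => e.symm.injective k, fun k => k ▸ rfl⟩
  rw [inj, funext_iff]
  refine forall_congr' fun i => ?_
  rw [Matrix.mulVec_diagonal, Pi.smul_apply, smul_eq_mul, mul_eq_mul_right_iff, or_iff_not_imp_left,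
    hp]

theorem mod_iff {ζ : Kˣ} {s : ℕ} (hζ : IsPrimitiveRoot ζ s) (a b : ℤ) :
    ((a - b) % s == 0) = true ↔ ζ ^ a = ζ ^ b := by
  rw [zpow_eq_iff hζ, beq_iff_eq, ← sub_eq_zero (a := (a : ZMod s)), ← Int.cast_sub,
    ZMod.intCast_zmod_eq_zero_iff_dvd, Int.dvd_iff_emod_eq_zero]

theorem tor (alc : AlcStmt) (relT : RelTStmt) (rep : RepStmt) (bc : BcStmt) : TorStmt := by
  intro π hπ g s ζ hs hζ hg
  obtain ⟨a, c, h1, h2, hc, hr, hw⟩ := alc g s ζ hs hζ hg
  obtain ⟨ρ, hρ⟩ := rep K
  refine ⟨a, h1, h2, fun k => ⟨?_, ?_⟩⟩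
  · rw [mu_diag π ρ ((hρ _ _).1 (relT K c)).symm ((hρ _ _).1 (bc g _ (hπ g))).symm hc _
      (fun b => ((dotZ (dbT.getD b []) a - 2 * k) % s == 0) = true) fun b => ?_]
    · exact sum_filter' dbT [] (fun w => (dotZ w a - 2 * k) % s == 0) rfl
    · rw [mod_iff hζ, ← hw, mul_comm, zpow_mul, zpow_natCast, zpow_ofNat, ← Units.val_inj,
        Units.val_pow_eq_pow_val, Units.val_pow_eq_pow_val _ 2]
      exact (frobenius_inj K 2).eq_iff
  · classical
    rw [mu_diag ad ((Units.coeHom _).comp (Subgroup.subtype _))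
      (d := Sum.elim (fun _ => (1 : K)) fun r => (torChar chevE7 c r.val : K)) rfl rfl hc _
      (Sum.elim (fun _ => k % s = 0) fun r : Rt => ((dotZ (rcE7.getD r []) a - k) % s == 0) = true)
      ?_, Fintype.sum_sum_type, cL]
    · refine congrArg₂ _ ?_ ((Finset.sum_congr rfl fun r _ => by congr).trans
        (sum_filter' rcE7 [] (fun w => (dotZ w a - k) % s == 0) (by decide +kernel)))
      split_ifs with hk
      · exact (Finset.sum_congr rfl fun i _ => if_pos hk).trans (by simp; rfl)
      · exact Finset.sum_eq_zero fun i _ => if_neg hk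
    · rintro (i | r)
      · simp only [Sum.elim_inl]
        rw [eq_comm (a := (1 : K)), Units.val_eq_one, hζ.pow_eq_one_iff_dvd, Nat.dvd_iff_mod_eq_zero]
      · simp only [Sum.elim_inr]
        rw [mod_iff hζ, hr, Units.val_inj, zpow_natCast]

end Cfsg.Agent.H19.E72Tor
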