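import Cfsg.Agent.H50.E83Defs2

/-! The piece `LAMD` of the project on subgroups of `E₈(3)`. -/

set_option autoImplicit false

namespace Cfsg.Agent.H19.E83L
open Cfsg.Agent.H50.E83 Module
open scoped Matrix

theorem mem_skE {d : Fin 16 → K} {c : K} {Y : M16} : Y ∈ skE (Matrix.diagonal d) c ↔
    (∀ a b, Y b a = -Y a b) ∧ ∀ a b, d a * d b * Y a b = c * Y a b := by
  change Yᵀ = -Y ∧ Matrix.diagonal d * Y * (Matrix.diagonal d)ᵀ = c • Y ↔ _
  rw [Matrix.diagonal_transpose, ← Matrix.ext_iff, ← Matrix.ext_iff]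
  simp only [Matrix.transpose_apply, Matrix.neg_apply, Matrix.mul_diagonal, Matrix.diagonal_mul,
    Matrix.smul_apply, smul_eq_mul, mul_right_comm]

theorem two_ne : (2 : K) ≠ 0 := fun h => by
  have := (CharP.cast_eq_zero_iff K 3 2).1 (by exact_mod_cast h)
  omega

open Classical in
theorem lamD : LamDStmt := by
  intro d c
  set S := Finset.univ.filter fun p : Fin 16 × Fin 16 => p.1 < p.2 ∧ d p.1 * d p.2 = c with hS
  have mS : ∀ p, p ∈ S ↔ p.1 < p.2 ∧ d p.1 * d p.2 = c := fun p => by simp [hS]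
  let f : skE (Matrix.diagonal d) c →ₗ[K] (S → K) :=
    { toFun := fun Y p => Y.1 p.1.1 p.1.2
      map_add' := fun _ _ => rfl
      map_smul' := fun _ _ => rfl }
  have inj : Function.Injective f := by
    rw [injective_iff_map_eq_zero]
    intro Y h
    obtain ⟨h1, h2⟩ := mem_skE.1 Y.2
    have k : ∀ a b, a < b → Y.1 a b = 0 := fun a b hab => by
      by_cases e : d a * d b = c
      · exact congrFun h ⟨(a, b), (mS _).2 ⟨hab, e⟩⟩
      · exact (mul_eq_mul_right_iff.1 (h2 a b)).resolve_left e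
    refine Subtype.ext (Matrix.ext fun a b => ?_)
    change Y.1 a b = 0
    rcases lt_trichotomy a b with hab | rfl | hab
    · exact k a b hab
    · have : 2 * Y.1 a a = 0 := by linear_combination h1 a a
      exact (mul_eq_zero.1 this).resolve_left two_ne
    · rw [h1, k b a hab, neg_zero]
  have sur : Function.Surjective f := fun g => by
    refine ⟨⟨Matrix.of fun a b => if h : (a, b) ∈ S then g ⟨_, h⟩ else
      if h : (b, a) ∈ S then -g ⟨_, h⟩ else 0, mem_skE.2 ⟨fun a b => ?_, fun a b => ?_⟩⟩, ?_⟩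
    · simp only [Matrix.of_apply]
      by_cases h1 : (a, b) ∈ S
      · have h2 : (b, a) ∉ S := fun h2 => lt_asymm ((mS _).1 h1).1 ((mS _).1 h2).1
        rw [dif_neg h2, dif_pos h1, dif_pos h1]
      · by_cases h2 : (b, a) ∈ S
        · rw [dif_pos h2, dif_neg h1, dif_pos h2, neg_neg]
        · rw [dif_neg h2, dif_neg h1, dif_neg h1, dif_neg h2, neg_zero]
    · simp only [Matrix.of_apply]
      by_cases h1 : (a, b) ∈ S
      · rw [((mS _).1 h1).2]
      · by_cases h2 : (b, a) ∈ S
        · rw [mul_comm (d a), ((mS _).1 h2).2]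
        · rw [dif_neg h1, dif_neg h2, mul_zero, mul_zero]
    · funext p
      change (if h : (p.1.1, p.1.2) ∈ S then g ⟨_, h⟩ else _) = _
      rw [dif_pos p.2]
  rw [(LinearEquiv.ofBijective f ⟨inj, sur⟩).finrank_eq, Module.finrank_fintype_fun_eq_card,
    Fintype.card_coe]

end Cfsg.Agent.H19.E83L
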