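import Cfsg.Agent.H50.E83Defs

/-! The piece `NOT2A` of the project on subgroups of `E₈(3)`. -/

set_option autoImplicit false

namespace Cfsg.Agent.H19.E83N
open Cfsg.Agent.H50.E83

/-- a group of order 32 -/
def Gm : Type := ZMod 2 × ZMod 2 × ZMod 2 × ZMod 2 × ZMod 2

instance fintypeGm : Fintype Gm :=
  inferInstanceAs (Fintype (ZMod 2 × ZMod 2 × ZMod 2 × ZMod 2 × ZMod 2))

def gmul (a b : Gm) : Gm :=
  (a.1 + b.1, a.2.1 + b.2.1 + a.1 * b.2.2.2.1, a.2.2.1 + b.2.2.1 + a.1 * b.2.2.2.2,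
    a.2.2.2.1 + b.2.2.2.1, a.2.2.2.2 + b.2.2.2.2)

def ginv (a : Gm) : Gm :=
  (-a.1, -a.2.1 + a.1 * a.2.2.2.1, -a.2.2.1 + a.1 * a.2.2.2.2, -a.2.2.2.1, -a.2.2.2.2)

def gone : Gm := (0, 0, 0, 0, 0)

instance groupGm : Group Gm where
  mul := gmul
  one := gone
  inv := ginv
  mul_assoc a b c := by
    change gmul (gmul a b) c = gmul a (gmul b c)
    simp only [gmul]
    refine Prod.ext ?_ (Prod.ext ?_ (Prod.ext ?_ (Prod.ext ?_ ?_))) <;> simp only <;> ring
  one_mul a := by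
    change gmul gone a = a
    simp only [gmul, gone]
    refine Prod.ext ?_ (Prod.ext ?_ (Prod.ext ?_ (Prod.ext ?_ ?_))) <;> simp only <;> ring
  mul_one a := by
    change gmul a gone = a
    simp only [gmul, gone]
    refine Prod.ext ?_ (Prod.ext ?_ (Prod.ext ?_ (Prod.ext ?_ ?_))) <;> simp only <;> ring
  inv_mul_cancel a := by
    change gmul (ginv a) a = gone
    simp only [gmul, gone, ginv]
    refine Prod.ext ?_ (Prod.ext ?_ (Prod.ext ?_ (Prod.ext ?_ ?_))) <;> simp only <;> ring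

theorem card_Gm : Fintype.card Gm = 32 := by
  change Fintype.card (ZMod 2 × ZMod 2 × ZMod 2 × ZMod 2 × ZMod 2) = 32
  simp

def vec (g : Gm) : E4 := ![g.2.1, g.2.2.1, g.2.2.2.1, g.2.2.2.2]

theorem vec_mul' : ∀ a b : ZMod 2 × ZMod 2 × ZMod 2 × ZMod 2 × ZMod 2,
    vec (gmul a b) = vec a + if a.1 = 0 then vec b else sa (vec b) := by
  decide +kernel

theorem vec_mul (a b : Gm) :
    vec (gmul a b) = vec a + if a.1 = 0 then vec b else sa (vec b) := vec_mul' a b

theorem z2 : ∀ a : ZMod 2, a = 0 ∨ a = 1 := by decide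

section
variable {Γ : Type} [Group Γ] {x : Multiplicative E4 →* Γ} {a y : Γ}

/-- the homomorphism -/
def hom (h : RelU x a y) : Gm →* Γ :=
  MonoidHom.mk' (fun g => x (Multiplicative.ofAdd (vec g)) * if g.1 = 0 then 1 else a) fun g g' => by
    change x (Multiplicative.ofAdd (vec (gmul g g'))) * (if g.1 + g'.1 = 0 then 1 else a) = _
    rw [vec_mul, ofAdd_add, map_mul]
    have k := mul_inv_eq_iff_eq_mul.1 (h.ax (vec g'))
    have e : (1 : ZMod 2) + 1 = 0 := by decide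
    rcases z2 g.1 with h1 | h1 <;> rcases z2 g'.1 with h2 | h2 <;>
      simp only [h1, h2, e, add_zero, zero_add, if_true, one_ne_zero, if_false, mul_one, mul_assoc]
    · rw [k]
    · rw [← mul_assoc a, k, mul_assoc, h.aa, mul_one]

theorem conj_eq (h : RelU x a y) (e f : E4) :
    x (Multiplicative.ofAdd f) * (x (Multiplicative.ofAdd e) * a) * (x (Multiplicative.ofAdd f))⁻¹ =
      x (Multiplicative.ofAdd (f + e - sa f)) * a := by
  have k := mul_inv_eq_iff_eq_mul.1 (h.ax f)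
  rw [mul_inv_eq_iff_eq_mul, mul_assoc _ a, k, ← mul_assoc, ← mul_assoc, ← map_mul x,
    ← map_mul x, ← ofAdd_add, ← ofAdd_add, sub_add_cancel]

theorem sq_eq (h : RelU x a y) (e : E4) :
    (x (Multiplicative.ofAdd e) * a) ^ 2 = x (Multiplicative.ofAdd (e + sa e)) := by
  have k := mul_inv_eq_iff_eq_mul.1 (h.ax e)
  rw [pow_two, mul_assoc, ← mul_assoc a, k, mul_assoc, h.aa, mul_one, ← map_mul, ← ofAdd_add]

end

theorem sum2 (f : ZMod 2 → ℤ) : ∑ a, f a = f 0 + f 1 := Fin.sum_univ_two f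

theorem not2A (mu : MuStmt) (br : BrStmt) (tr : Tr4Stmt) : Not2AStmt := by
  intro x a y h hx
  have B := br Gm (IsPGroup.of_card (n := 5) (by rw [Nat.card_eq_fintype_card, card_Gm]; rfl))
    (ι.comp (hom h)) 1
  rw [card_Gm] at B
  replace B := Dvd.intro _ B.symm
  have t1 : tau 1 = 248 := mu.2.2.2.2.2
  have cj : ∀ g g' : G0, IsConj g g' → tau (ι g) = tau (ι g') := fun g g' k => by
    unfold tau
    rw [mu.1 _ _ 1 (ι.map_isConj k), mu.1 _ _ (-1) (ι.map_isConj k)]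
  have X : ∀ e : E4, e ≠ 0 → tau (ι (x (Multiplicative.ofAdd e))) = 24 := fun e he => hx _ he
  have X0 : tau (ι (x (Multiplicative.ofAdd ![0, 0, 0, 0]))) = 248 := by
    rw [show (![0, 0, 0, 0] : E4) = 0 by decide, ofAdd_zero, map_one, map_one, t1]
  have C : ∀ p q r s : ZMod 2, tau (ι (x (Multiplicative.ofAdd ![p, q, r, s]) * a)) =
      tau (ι (x (Multiplicative.ofAdd ![0, 0, r, s]) * a)) := fun p q r s => by
    refine (cj _ _ (isConj_iff.2 ⟨x (Multiplicative.ofAdd ![0, 0, p, q]), ?_⟩)).symm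
    rw [conj_eq h]
    congr 3
    revert p q r s
    decide
  have sq : ∀ e : E4, x (Multiplicative.ofAdd e) ^ 2 = 1 := fun e => by
    rw [pow_two, ← map_mul, ← ofAdd_add, show e + e = 0 by revert e; decide, ofAdd_zero, map_one]
  have p4 : ∀ e : E4, (x (Multiplicative.ofAdd e) * a) ^ 4 = 1 := fun e => by
    have := pow_mul (x (Multiplicative.ofAdd e) * a) 2 2
    rwa [sq_eq h, sq] at this
  have T : ∀ e : E4, e + sa e ≠ 0 → tau (ι (x (Multiplicative.ofAdd e) * a)) % 8 = 4 :=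
    fun e he => by
      rcases (tr _ (p4 e)).2.2 (by rw [sq_eq h]; exact X _ he) with k | k | k | k <;> omega
  have T0 : tau (ι (x (Multiplicative.ofAdd ![0, 0, 0, 0]) * a)) % 8 = 0 := by
    have e0 : (![0, 0, 0, 0] : E4) = 0 := by decide
    rcases (tr _ (p4 ![0, 0, 0, 0])).1 (by
      rw [sq_eq h, show (![0, 0, 0, 0] : E4) + sa ![0, 0, 0, 0] = 0 by decide, ofAdd_zero, map_one])
      (by
        rw [e0, ofAdd_zero, map_one, one_mul]
        rintro rfl
        have k := h.ax ![0, 0, 1, 0]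
        rw [one_mul, inv_one, mul_one,
          show sa ![0, 0, 1, 0] = ![1, 0, 0, 0] + ![0, 0, 1, 0] by decide, ofAdd_add, map_mul] at k
        have k2 := X ![1, 0, 0, 0] (by decide)
        have k3 : x (Multiplicative.ofAdd ![1, 0, 0, 0]) = 1 :=
          mul_right_cancel (k.symm.trans (one_mul _).symm)
        rw [k3, map_one, t1] at k2
        omega) with k | k <;> omega
  have T1 := T ![0, 0, 1, 0] (by decide)
  have T2 := T ![0, 0, 0, 1] (by decide)
  have T3 := T ![0, 0, 1, 1] (by decide)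
  change ((32 : ℕ) : ℤ) ∣ ∑ g : ZMod 2 × ZMod 2 × ZMod 2 × ZMod 2 × ZMod 2, ((1 : ℤˣ) : ℤ) *
    tau (ι (x (Multiplicative.ofAdd ![g.2.1, g.2.2.1, g.2.2.2.1, g.2.2.2.2]) *
      if g.1 = 0 then 1 else a)) at B
  simp only [Fintype.sum_prod_type, sum2, Units.val_one, one_mul, if_true, one_ne_zero, if_false,
    mul_one, X0] at B
  rw [C 0 1 0 0, C 0 1 0 1, C 0 1 1 0, C 0 1 1 1, C 1 0 0 0, C 1 0 0 1, C 1 0 1 0, C 1 0 1 1,
    C 1 1 0 0, C 1 1 0 1, C 1 1 1 0, C 1 1 1 1] at B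
  repeat rw [X _ (by decide)] at B
  push_cast at B
  omega

theorem eqns_E83Not2A : True := by
  have := @gmul.eq_1
  have := @ginv.eq_1
  have := @gone.eq_1
  have := @vec.eq_1
  have := @hom.eq_1
  trivial

end Cfsg.Agent.H19.E83N
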