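import Cfsg.Agent.H11.ElDefs
import Mathlib.GroupTheory.Transfer
import Mathlib.GroupTheory.Nilpotent

/-! EL-N3T: the transfer argument for an abelian Sylow subgroup `R × U`. -/

set_option autoImplicit false
open Subgroup

namespace Cfsg.Agent.H19.ElN3T

open Cfsg.Agent.H11.EL

universe u

variable {G : Type u} [Group G] [Finite G]

theorem syl_max {r : ℕ} (hr : r.Prime) {R K S : Subgroup G} (h : Syl r R K) (hS : IsPGroup r S)
    (hRS : R ≤ S) (hSK : S ≤ K) : S ≤ R := by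
  haveI := Fact.mk hr
  obtain ⟨n, hn⟩ := IsPGroup.iff_card.mp hS
  have h1 : R.relIndex S ∣ r ^ n := hn ▸ relIndex_dvd_card R S
  have h2 : R.relIndex S ∣ R.relIndex K := Dvd.intro _ (relIndex_mul_relIndex R S K hRS hSK)
  obtain ⟨m, -, hm⟩ := (Nat.dvd_prime_pow hr).mp h1
  rcases m with _ | m
  · exact relIndex_eq_one.mp (by simpa using hm)
  · exact absurd (dvd_trans (by rw [hm]; exact Dvd.intro_left (r ^ m) (pow_succ r m).symm) h2) h.2.2

omit [Finite G] in
theorem pg_zpowers {r n : ℕ} {k : G} (h : k ^ r ^ n = 1) : IsPGroup r (zpowers k) := by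
  rintro ⟨x, m, rfl⟩
  refine ⟨n, Subtype.ext ?_⟩
  simp only [SubgroupClass.coe_pow, OneMemClass.coe_one]
  rw [← zpow_natCast, ← zpow_mul, mul_comm, zpow_mul, zpow_natCast, h, one_zpow]

theorem syl_mem {r n : ℕ} (hr : r.Prime) {R K : Subgroup G} (h : Syl r R K) {k : G} (hk : k ∈ K)
    (hN : k ∈ Nm R) (hp : k ^ r ^ n = 1) : k ∈ R := by
  have hS : IsPGroup r (R ⊔ zpowers k : Subgroup G) :=
    IsPGroup.to_sup_of_normal_left' h.2.1 (pg_zpowers hp) (by rwa [zpowers_le])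
  exact syl_max hr h hS le_sup_left (sup_le h.1 (by rwa [zpowers_le]))
    (mem_sup_right (mem_zpowers k))

open scoped IsMulCommutative in
theorem transfer_kill [IsSimpleGroup G] (nc : ¬ IsMulCommutative G) {r : ℕ} (hr : r.Prime)
    (P : Sylow r G) [IsMulCommutative P] {g : G} (hg : g ∈ P)
    (hc : ∀ n ∈ normalizer (P : Set G), Commute n g) : g = 1 := by
  haveI := Fact.mk hr
  have key : ∀ (k : ℕ) (g₀ : G), g₀⁻¹ * g ^ k * g₀ ∈ (P : Subgroup G) → g₀⁻¹ * g ^ k * g₀ = g ^ k := by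
    intro k g₀ h
    obtain ⟨n, hn, h'⟩ := P.conj_eq_normalizer_conj_of_mem (g ^ k) g₀ (P.pow_mem hg k) h
    rw [h']
    exact Commute.inv_mul_cancel ((hc n hn).pow_right k)
  have ht := MonoidHom.transfer_eq_pow (MonoidHom.id (P : Subgroup G)) g key
  have hker : (MonoidHom.transfer (MonoidHom.id (P : Subgroup G))).ker = ⊤ := by
    rcases (MonoidHom.normal_ker (MonoidHom.transfer (MonoidHom.id (P : Subgroup G)))).eq_bot_or_eq_top
      with h | h
    · exfalso
      apply nc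
      have hi := (MonoidHom.ker_eq_bot_iff _).mp h
      exact ⟨⟨fun a b => hi (by rw [map_mul, map_mul, mul_comm])⟩⟩
    · exact h
  have h1 : MonoidHom.transfer (MonoidHom.id (P : Subgroup G)) g = 1 := by
    rw [← MonoidHom.mem_ker, hker]; trivial
  rw [ht] at h1
  have h2 : g ^ (P : Subgroup G).index = 1 := congrArg Subtype.val h1
  obtain ⟨n, hn⟩ := P.isPGroup' ⟨g, hg⟩
  have h3 : g ^ r ^ n = 1 := congrArg Subtype.val hn
  have hcop : Nat.Coprime (r ^ n) (P : Subgroup G).index :=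
    Nat.Coprime.pow_left _ ((Nat.Prime.coprime_iff_not_dvd hr).mpr P.not_dvd_index)
  have := Nat.dvd_gcd (orderOf_dvd_of_pow_eq_one h3) (orderOf_dvd_of_pow_eq_one h2)
  rw [hcop] at this
  exact orderOf_eq_one_iff.mp (Nat.dvd_one.mp this)

theorem n3t (b : Base.{u}) : N3TStmt.{u} := by
  intro G _ _ D A B R U r h hr hR hR1 hRc hRN hU hUc hQ
  haveI := Fact.mk hr
  have lp : LP A B := h.ne.lp A h.hA B h.hB h.AB
  obtain ⟨f, s, lc1⟩ := b.lc1 A B lp
  have lt : LT A B f := b.lt A B f s lp (b.lc A B f s lp lc1)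
  have la : LA (A ⊔ B) := b.la _ lp.iso
  have com : ∀ k ∈ Ct (A ⊔ B), ∀ l ∈ A ⊔ B, Commute k l := fun k hk l hl => (hk l hl).symm
  have hUR : U ≤ Nm R := by
    intro l hl
    refine mem_normalizer_fintype fun x hx => ?_
    have := (com x (hR.1 hx) l (hU.1 hl)).eq
    rw [← this, mul_inv_cancel_right]; exact hx
  have hQp : IsPGroup r (R ⊔ U : Subgroup G) :=
    IsPGroup.to_sup_of_normal_left' hR.2.1 hU.2.1 hUR
  have hQK : (R ⊔ U) ⊓ Ct (A ⊔ B) ≤ R :=
    syl_max hr hR hQp.to_inf_left (le_inf le_sup_left hR.1) inf_le_right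
  have hQL : (R ⊔ U) ⊓ (A ⊔ B) ≤ U :=
    syl_max hr hU hQp.to_inf_left (le_inf le_sup_right hU.1) inf_le_right
  have dec : ∀ n ∈ Nm (R ⊔ U), ∃ k ∈ Ct (A ⊔ B), ∃ l ∈ A ⊔ B, n = k * l ∧ k ∈ Nm R ∧ l ∈ Nm U := by
    intro n hn
    obtain ⟨k, hk, l, hl, rfl⟩ := lt.e1M h.e1 n (hQ hn)
    refine ⟨k, hk, l, hl, rfl, mem_normalizer_fintype fun x hx => ?_,
      mem_normalizer_fintype fun x hx => ?_⟩
    · have h1 : k * l * x * (k * l)⁻¹ ∈ R ⊔ U := (hn x).mp (mem_sup_left hx)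
      have h2 : k * l * x * (k * l)⁻¹ = k * x * k⁻¹ := by
        have := (com x (hR.1 hx) l hl).eq
        rw [mul_assoc k l x, ← this]; group
      rw [h2] at h1
      have hm : k * x * k⁻¹ ∈ Ct (A ⊔ B) := mul_mem (mul_mem hk (hR.1 hx)) (inv_mem hk)
      exact hQK ⟨h1, hm⟩
    · have h1 : k * l * x * (k * l)⁻¹ ∈ R ⊔ U := (hn x).mp (mem_sup_right hx)
      have hm : l * x * l⁻¹ ∈ A ⊔ B := mul_mem (mul_mem hl (hU.1 hx)) (inv_mem hl)
      have h2 : k * l * x * (k * l)⁻¹ = l * x * l⁻¹ := by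
        have := (com k hk _ hm).eq
        calc k * l * x * (k * l)⁻¹ = k * (l * x * l⁻¹) * k⁻¹ := by group
          _ = l * x * l⁻¹ := by rw [this, mul_inv_cancel_right]
      rw [h2] at h1
      exact hQL ⟨h1, hm⟩
  obtain ⟨P, hP⟩ := hQp.exists_le_sylow
  have hPQ : (P : Subgroup G) ≤ R ⊔ U := by
    haveI : Group.IsNilpotent (P : Subgroup G) := P.isPGroup'.isNilpotent
    have hnc := normalizerCondition_iff_only_full_group_self_normalizing.mp
      (Group.normalizerCondition_of_isNilpotent (G := (P : Subgroup G)))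
      ((R ⊔ U).subgroupOf P) (by
        refine le_antisymm ?_ le_normalizer
        intro g hg
        have hg' : (g : G) ∈ Nm (R ⊔ U) := by
          refine mem_normalizer_fintype fun x hx => ?_
          exact (hg ⟨x, hP hx⟩).mp hx
        obtain ⟨k, hk, l, hl, e, hkN, hlN⟩ := dec g hg'
        obtain ⟨n, hn⟩ := P.isPGroup' g
        have h3 : (g : G) ^ r ^ n = 1 := congrArg Subtype.val hn
        rw [e, (com k hk l hl).mul_pow] at h3
        have h4 : l ^ r ^ n = 1 := by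
          refine la.ctr _ (pow_mem hl _) ?_
          rw [eq_inv_of_mul_eq_one_right h3]
          exact inv_mem (pow_mem hk _)
        have h5 : k ^ r ^ n = 1 := by rwa [h4, mul_one] at h3
        show (g : G) ∈ R ⊔ U
        rw [e]
        exact mul_mem (mem_sup_left (syl_mem hr hR hk hkN h5))
          (mem_sup_right (syl_mem hr hU hl hlN h4)))
    exact subgroupOf_eq_top.mp hnc
  have hPe : (P : Subgroup G) = R ⊔ U := le_antisymm hPQ hP
  have cRR : ∀ x ∈ R, ∀ y ∈ R, Commute x y := fun x hx y hy =>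
    congrArg Subtype.val (hRc.isMulCommutative.is_comm.comm (⟨x, hx⟩ : R) ⟨y, hy⟩)
  have cUU : ∀ x ∈ U, ∀ y ∈ U, Commute x y := fun x hx y hy =>
    congrArg Subtype.val (hUc.isMulCommutative.is_comm.comm (⟨x, hx⟩ : U) ⟨y, hy⟩)
  have c1 : R ⊔ U ≤ centralizer ((R ⊔ U : Subgroup G) : Set G) := by
    have cR : R ⊔ U ≤ centralizer (R : Set G) :=
      sup_le (fun x hx y hy => (cRR y hy x hx).eq)
        (fun x hx y hy => (com y (hR.1 hy) x (hU.1 hx)).eq)
    have cU : R ⊔ U ≤ centralizer (U : Set G) :=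
      sup_le (fun x hx y hy => (com x (hR.1 hx) y (hU.1 hy)).symm.eq)
        (fun x hx y hy => (cUU y hy x hx).eq)
    exact sup_le (le_centralizer_iff.mp cR) (le_centralizer_iff.mp cU)
  haveI : IsMulCommutative (P : Subgroup G) :=
    ⟨⟨fun x y => Subtype.ext (c1 (hPQ y.2) x (hPQ x.2))⟩⟩
  haveI := h.ne.simple
  apply hR1
  rw [eq_bot_iff]
  intro x hx
  rw [mem_bot]
  refine transfer_kill h.ne.nc hr P (hP (mem_sup_left hx)) fun n hn => ?_
  have hn' : n ∈ Nm (R ⊔ U) := by rw [← hPe]; exact hn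
  obtain ⟨k, hk, l, hl, e, hkN, -⟩ := dec n hn'
  rw [e]
  exact Commute.mul_left ((hRN k hk hkN) x hx).symm (com x (hR.1 hx) l hl).symm

end Cfsg.Agent.H19.ElN3T
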