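import Cfsg.Agent.H73.GagDefs

/-!
# Project GAG, piece ARITH
-/

set_option autoImplicit false

namespace Cfsg.Agent.H19.GagArith

open Cfsg.Agent.H73.Gag

theorem pow_le {p d f c e k S : ℕ} (hp : 3 ≤ p) (hf : 1 ≤ f) (hd : 1 ≤ d) (hc : e * c ≤ p ^ f - 1)
    (h : (p ^ (d * f) - 1) * p ^ k = e * c * S) : p ^ (f * (d - 1) + k) ≤ S := by
  obtain ⟨d, rfl⟩ := Nat.exists_eq_add_of_le' hd
  have h1 : 3 ≤ p ^ f := hp.trans (Nat.le_self_pow (by omega) p)
  have h2 : 1 ≤ p ^ (f * d) := Nat.one_le_pow _ _ (by omega)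
  have h3 : (p ^ f - 1) * p ^ (f * d) ≤ p ^ ((d + 1) * f) - 1 := by
    have e1 : (d + 1) * f = f + f * d := by ring
    have e2 : (p ^ f - 1) * p ^ (f * d) = p ^ ((d + 1) * f) - p ^ (f * d) := by
      rw [e1, pow_add, Nat.sub_mul, one_mul]
    omega
  refine Nat.le_of_mul_le_mul_left ?_ (show 0 < p ^ f - 1 by omega)
  rw [Nat.add_sub_cancel, pow_add, ← mul_assoc]
  exact ((Nat.mul_le_mul_right _ h3).trans h.le).trans (Nat.mul_le_mul_right _ hc)

theorem three_pow (d : ℕ) (h : 8 ≤ d) : (2 * d + 1) ^ 3 < 3 ^ d := by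
  induction d, h using Nat.le_induction with
  | base => norm_num
  | succ d hd ih =>
    have h1 : (2 * (d + 1) + 1) ^ 3 ≤ 3 * (2 * d + 1) ^ 3 := by nlinarith [sq_nonneg d]
    rw [pow_succ 3 d]
    omega

theorem eq_of_dvd {p q i j : ℕ} (hp : p.Prime) (hq : q.Prime) (h2 : q ≠ 2) (h : q ∣ 2 ^ i * p ^ j) :
    p = q :=
  ((Nat.Prime.dvd_mul hq).1 h).elim
    (fun h => absurd ((Nat.prime_dvd_prime_iff_eq hq Nat.prime_two).1 (hq.dvd_of_dvd_pow h)) h2)
    fun h => ((Nat.prime_dvd_prime_iff_eq hq hp).1 (hq.dvd_of_dvd_pow h)).symm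

/-- **GAG-ARITH** -/
theorem arith : ArithStmt := by
  intro p s d f c e i j k hp hs p2 ps s5 hf sd hs1 hc hcd he hk h
  have p3 : 3 ≤ p := by have := hp.two_le; omega
  have h0 : 3 ≤ p ^ f := p3.trans (Nat.le_self_pow (by omega) p)
  have h1 : 2 * c ≤ p ^ f - 1 := Nat.le_of_dvd (by omega) hcd
  have h2 := pow_le p3 hf (by omega) (show e * c ≤ p ^ f - 1 by rcases he with rfl | rfl <;> omega) h
  have h3 : d - 1 ≤ f * (d - 1) := Nat.le_mul_of_pos_left _ hf
  have h4 : d ≤ 7 := by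
    by_contra! h4
    have h5 := three_pow d h4
    have h6 : 3 ^ d ≤ p ^ (f * (d - 1) + k) :=
      (Nat.pow_le_pow_right (by norm_num) (by omega)).trans (Nat.pow_le_pow_left p3 _)
    have h7 : s * (s ^ 2 - 1) ≤ (2 * d + 1) ^ 3 :=
      calc s * (s ^ 2 - 1) ≤ s * s ^ 2 := Nat.mul_le_mul_left _ (Nat.sub_le _ _)
        _ = s ^ 3 := by ring
        _ ≤ _ := Nat.pow_le_pow_left sd 3
    omega
  have pc : ¬ p ∣ c := fun k => by
    have h5 : p ∣ p ^ f - 1 := (k.mul_left 2).trans hcd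
    have h6 : p ∣ p ^ f := dvd_pow_self p (by omega)
    have := (Nat.dvd_sub_iff_right (by omega) h6).1 h5
    exact hp.one_lt.ne' (Nat.dvd_one.1 this)
  have lt : ∀ {q n m S : ℕ}, 1 < q → q ^ n ≤ S → S < q ^ m → n < m := fun h1 h2 h3 =>
    (Nat.pow_lt_pow_iff_right h1).1 (h2.trans_lt h3)
  rw [Nat.odd_iff] at hc
  have s15 : s ≤ 15 := by omega
  interval_cases s
  · obtain rfl : p = 3 := by
      have h5 : p ∣ e * c * (5 * (5 ^ 2 - 1)) := h ▸ (dvd_pow_self p (by omega)).mul_left _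
      have h6 : p ∣ 2 ^ 4 * (3 * 5) := by
        refine ((Nat.Prime.dvd_mul hp).1 (h5.trans (show _ ∣ c * (2 ^ 4 * (3 * 5)) from ?_))).resolve_left pc
        rcases he with rfl | rfl
        · exact ⟨2, by norm_num; ring⟩
        · exact ⟨1, by norm_num; ring⟩
      rcases (Nat.Prime.dvd_mul hp).1 h6 with h7 | h7
      · exact absurd ((Nat.prime_dvd_prime_iff_eq hp Nat.prime_two).1 (hp.dvd_of_dvd_pow h7)) p2
      rcases (Nat.Prime.dvd_mul hp).1 h7 with h7 | h7
      · exact (Nat.prime_dvd_prime_iff_eq hp Nat.prime_three).1 h7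
      · exact absurd ((Nat.prime_dvd_prime_iff_eq hp Nat.prime_five).1 h7) ps
    have h5 := lt (m := 5) (by norm_num) h2 (by norm_num)
    have h6 : f ≤ f * (d - 1) := Nat.le_mul_of_pos_right _ (by omega)
    have h7 : f ≤ 3 := by omega
    have h8 : k ≤ 3 := by omega
    have h9 : 2 ≤ d := by omega
    rcases he with rfl | rfl <;> interval_cases d <;> interval_cases f <;> interval_cases k <;> omega
  · exact absurd hs (by norm_num)
  · obtain rfl : p = 3 := eq_of_dvd (i := i) (j := j) hp Nat.prime_three (by norm_num) (by rw [← hs1]; norm_num)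
    have h5 := lt (m := 6) (by norm_num) h2 (by norm_num)
    have h6 : f * 2 ≤ f * (d - 1) := Nat.mul_le_mul_left _ (by omega)
    have h7 : f ≤ 2 := by omega
    have h8 : k ≤ 3 := by omega
    have h9 : 3 ≤ d := by omega
    rcases he with rfl | rfl <;> interval_cases d <;> interval_cases f <;> interval_cases k <;> omega
  · exact absurd hs (by norm_num)
  · exact absurd hs (by norm_num)
  · exact absurd hs (by norm_num)
  · obtain rfl : p = 5 := eq_of_dvd (i := i) (j := j) hp Nat.prime_five (by norm_num) (by rw [← hs1]; norm_num)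
    have h5 := lt (m := 5) (by norm_num) h2 (by norm_num)
    omega
  · exact absurd hs (by norm_num)
  · obtain rfl : p = 3 := eq_of_dvd (i := i) (j := j) hp Nat.prime_three (by norm_num) (by rw [← hs1]; norm_num)
    have h5 := lt (m := 7) (by norm_num) h2 (by norm_num)
    have h6 : f * 5 ≤ f * (d - 1) := Nat.mul_le_mul_left _ (by omega)
    obtain rfl : f = 1 := by omega
    obtain rfl : k = 1 := by omega
    obtain rfl : d = 6 := by omega
    rcases he with rfl | rfl <;> omega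
  · exact absurd hs (by norm_num)
  · exact absurd hs (by norm_num)

end Cfsg.Agent.H19.GagArith
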