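import Cfsg.Agent.H98.GbL

/-! Project GB (S4536): the piece FIX. -/

set_option autoImplicit false
open Cfsg Finset

namespace Cfsg.Agent.H19.GbFix

open Cfsg.Agent.H98.GB

universe u

/-- same size and same core -/
def Rr (e : ℕ) (S T : Finset ℕ) : Prop := wtS S = wtS T ∧ cnt e S = cnt e T

/-- the class of `S` -/
def XX (N e : ℕ) (S : Finset ℕ) : Finset (Finset ℕ) := XS N (wtS S) (cnt e S)

theorem mem_XX {N e : ℕ} {S T : Finset ℕ} : T ∈ XX N e S ↔ #T = N ∧ Rr e S T := by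
  rw [XX, mem_XS, mem_Lam', Rr, and_assoc, eq_comm (a := wtS T), eq_comm (a := cnt e T)]

theorem Rr.xx {N e : ℕ} {S T : Finset ℕ} (h : Rr e S T) : XX N e T = XX N e S := by
  rw [XX, XX, h.1, h.2]

theorem Rr.wgt {e : ℕ} {S T : Finset ℕ} (h : Rr e S T) (he : 0 < e) : wgt e T = wgt e S := by
  have h1 := sum_eq_baseS he S
  have h2 := sum_eq_baseS he T
  have h3 : #S = #T := by rw [← sum_cnt he, ← sum_cnt he, h.2]
  rw [sum_eq_wtS, h.1, h.2, h3, ← sum_eq_wtS, h2, add_right_inj] at h1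
  exact Nat.eq_of_mul_eq_mul_left he h1

theorem card_XX {N e : ℕ} {S : Finset ℕ} (he : 0 < e) (hS : #S = N) (h : 2 * wtS S ≤ N) :
    #(XX N e S) = bk e (wgt e S) := by
  have h1 : S ∈ Lam N (wtS S) := mem_Lam'.2 ⟨hS, rfl⟩
  obtain ⟨f, h2, h3, h4⟩ := exists_core he h1
  have := card_XS he h3 h4 (le_cnt h1 (k := wgt e S) (by omega))
  rwa [← h2] at this

variable {F : Type u} [Field F] [Fintype F] [DecidableEq F] {C : Ctx F} (hL : C.Lab)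
  {Λ0 Λ Λ' Λ'' : C.Lb} {c : C.L}

theorem cl_symm (h : C.Cl Λ Λ') : C.Cl Λ' Λ := fun Γ hΓ => ⟨(h Γ hΓ).1.symm, (h Γ hΓ).2.symm⟩

theorem cl_trans (h : C.Cl Λ Λ') (h' : C.Cl Λ' Λ'') : C.Cl Λ Λ'' := fun Γ hΓ =>
  ⟨(h Γ hΓ).1.trans (h' Γ hΓ).1, (h Γ hΓ).2.trans (h' Γ hΓ).2⟩

theorem mem_A' : c ∈ C.A' Λ0 ↔ C.qL * c = c ∧ C.uu * c = c ∧ C.Cl Λ0 (C.twL c Λ0) := by
  simp [Ctx.A']

include hL

theorem cl_iff (h : C.Bas Λ) (h' : C.Bas Λ') :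
    C.Cl Λ Λ' ↔ ∀ Γ, C.Reg Γ → Rr (C.eG Γ) (Λ Γ) (Λ' Γ) :=
  forall_congr' fun Γ => forall_congr' fun hΓ => by
    rw [hL.sm_bas Λ Γ h hΓ, hL.sm_bas Λ' Γ h' hΓ, Nat.mul_right_inj (hL.dg_pos Γ).ne', Rr]

theorem twL_zero (Λ : C.Lb) : C.twL 0 Λ = Λ := funext fun φ => by
  rw [Ctx.twL, neg_zero, hL.tw_zero]

/-- the stabiliser of the class -/
def BB (Λ0 : C.Lb) : AddSubgroup C.L where
  carrier := {c | c ∈ C.A' Λ0}
  zero_mem' := mem_A'.2 ⟨mul_zero _, mul_zero _, by rw [twL_zero hL]; exact fun _ _ => ⟨rfl, rfl⟩⟩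
  add_mem' {a b} ha hb := by
    obtain ⟨a1, a2, a3⟩ := mem_A'.1 ha
    obtain ⟨b1, b2, b3⟩ := mem_A'.1 hb
    refine mem_A'.2 ⟨by rw [mul_add, a1, b1], by rw [mul_add, a2, b2], cl_trans a3 ?_⟩
    rw [← hL.twL_twL a b Λ0 a1 b1]
    exact hL.cl_tw a _ _ a1 a2 b3
  neg_mem' {a} ha := by
    obtain ⟨a1, a2, a3⟩ := mem_A'.1 ha
    have b1 : C.qL * -a = -a := by rw [mul_neg, a1]
    have b2 : C.uu * -a = -a := by rw [mul_neg, a2]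
    have := hL.cl_tw (-a) _ _ b1 b2 a3
    rw [hL.twL_twL _ _ _ b1 a1, neg_add_cancel, twL_zero hL] at this
    exact mem_A'.2 ⟨b1, b2, cl_symm this⟩

theorem mem_BB : c ∈ BB hL Λ0 ↔ C.qL * c = c ∧ C.uu * c = c ∧ C.Cl Λ0 (C.twL c Λ0) := mem_A'

theorem eG_tw (hc : C.qL * c = c) (φ : C.Φ) : C.eG (C.tw c φ) = C.eG φ := by
  rw [Ctx.eG, Ctx.eG, hL.dg_tw c φ hc]

theorem rr_tw (h0 : C.Bas Λ0) (hc : c ∈ BB hL Λ0) {Γ : C.Φ} (hΓ : C.Reg Γ) :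
    Rr (C.eG Γ) (Λ0 Γ) (Λ0 (C.tw c Γ)) := by
  obtain ⟨a1, a2, a3⟩ := (mem_BB hL).1 (neg_mem hc)
  have := (cl_iff hL h0 (hL.bas_tw _ _ a1 a2 h0)).1 a3 Γ hΓ
  rwa [Ctx.twL, neg_neg] at this

theorem ii_tw (h0 : C.Bas Λ0) (hc : c ∈ BB hL Λ0) {Γ : C.Φ} (hΓ : C.II Λ0 Γ) :
    C.II Λ0 (C.tw c Γ) := by
  obtain ⟨a1, a2, -⟩ := (mem_BB hL).1 hc
  refine ⟨?_, ?_⟩
  · rw [Ctx.Reg, hL.lp_tw c Γ a1, a2, show C.lp Γ = Γ from hΓ.1]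
  · rw [eG_tw hL a1, (rr_tw hL h0 hc hΓ.1).wgt (hL.eG_pos Γ)]
    exact hΓ.2

theorem tw_neg (hc : C.qL * c = c) (φ : C.Φ) : C.tw c (C.tw (-c) φ) = φ := by
  rw [hL.tw_tw c (-c) φ hc (by rw [mul_neg, hc]), add_neg_cancel, hL.tw_zero]

theorem neg_tw (hc : C.qL * c = c) (φ : C.Φ) : C.tw (-c) (C.tw c φ) = φ := by
  rw [hL.tw_tw (-c) c φ (by rw [mul_neg, hc]) hc, neg_add_cancel, hL.tw_zero]

theorem off (n0 : ∀ φ, #(Λ0 φ) = C.N) (n1 : ∀ φ, #(Λ φ) = C.N) (h0 : C.Bas Λ0) (h : C.Bas Λ)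
    (hc : C.Cl Λ0 Λ) {φ : C.Φ} (hφ : ¬ C.II Λ0 φ) : Λ φ = Λ0 φ := by
  by_cases e : C.Reg φ
  · exact hL.out_eq Λ0 Λ n0 n1 h0 hc φ (by rwa [show C.lp φ = φ from e])
  · rw [h φ e, h0 φ e]

/-- the action on the support -/
@[reducible] noncomputable def act (h0 : C.Bas Λ0) :
    MulAction (Multiplicative (BB hL Λ0)) {Γ // C.II Λ0 Γ} where
  smul g i := ⟨C.tw (Multiplicative.toAdd g).1 i.1, ii_tw hL h0 (Multiplicative.toAdd g).2 i.2⟩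
  one_smul i := Subtype.ext (hL.tw_zero i.1)
  mul_smul g g' i := Subtype.ext (hL.tw_tw _ _ i.1 ((mem_BB hL).1 (Multiplicative.toAdd g).2).1
    ((mem_BB hL).1 (Multiplicative.toAdd g').2).1).symm

omit hL in
theorem fix (hL : LABStmt.{u}) : FIXStmt.{u} := fun F _ _ _ C n hn Λ0 hl h0 => by
  classical
  have hL : C.Lab := hL F C
  letI := act hL h0
  have hs : ∀ (g : Multiplicative (BB hL Λ0)) (i : {Γ // C.II Λ0 Γ}),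
      (g • i).1 = C.tw (Multiplicative.toAdd g).1 i.1 := fun _ _ => rfl
  refine ⟨BB hL Λ0, act hL h0, fun i => XX C.N (C.eG i.1) (Λ0 i.1), fun _ => Iff.rfl,
    fun g i => ?_, fun i => ?_, fun g => ?_⟩
  · have hc := (Multiplicative.toAdd g).2
    have h1 := rr_tw hL h0 hc i.2.1
    have h2 := eG_tw hL ((mem_BB hL).1 hc).1 i.1
    refine ⟨rfl, ?_, h2, mem_XX.2 ⟨hl.1 _, rfl, rfl⟩, h1.wgt (hL.eG_pos _)⟩
    simp only [hs, h2]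
    exact h1.xx
  · refine card_XX (hL.eG_pos _) (hl.1 _) ?_
    have h1 : C.dg i.1 * wtS (Λ0 i.1) ≤ n := hl.2 ▸ single_le_sum
      (f := fun φ => C.dg φ * wtS (Λ0 φ)) (fun _ _ => Nat.zero_le _) (mem_univ i.1)
    have h2 := Nat.le_mul_of_pos_left (wtS (Λ0 i.1)) (hL.dg_pos i.1)
    exact Nat.mul_le_mul (by have := C.hp.two_le; omega) (h2.trans (h1.trans hn))
  have hc := (Multiplicative.toAdd g).2
  obtain ⟨a1, a2, a3⟩ := (mem_BB hL).1 hc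
  refine (Set.ncard_congr (fun Λ _ i => Λ i.1) ?_ ?_ ?_).symm
  · rintro Λ ⟨b1, b2, b3, b4⟩
    refine ⟨fun i => mem_XX.2 ⟨b1.1 _, (cl_iff hL h0 b2).1 b3 _ i.2.1⟩, fun i => ?_⟩
    have := congrFun b4 (g • i).1
    rw [Ctx.twL, hs, neg_tw hL a1] at this
    exact this.symm
  · rintro Λ Λ' ⟨b1, b2, b3, -⟩ ⟨c1, c2, c3, -⟩ e
    funext φ
    by_cases hφ : C.II Λ0 φ
    · exact congrFun e ⟨φ, hφ⟩
    · rw [off hL hl.1 b1.1 h0 b2 b3 hφ, off hL hl.1 c1.1 h0 c2 c3 hφ]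
  · rintro f ⟨f1, f2⟩
    let Λ : C.Lb := fun φ => if h : C.II Λ0 φ then f ⟨φ, h⟩ else Λ0 φ
    have k1 : ∀ φ, #(Λ φ) = C.N ∧ Rr (C.eG φ) (Λ0 φ) (Λ φ) := fun φ => by
      by_cases hφ : C.II Λ0 φ
      · rw [show Λ φ = f ⟨φ, hφ⟩ from dif_pos hφ]
        exact mem_XX.1 (f1 ⟨φ, hφ⟩)
      · rw [show Λ φ = Λ0 φ from dif_neg hφ]
        exact ⟨hl.1 φ, rfl, rfl⟩
    have k2 : C.Bas Λ := fun φ hφ => (dif_neg fun e => hφ e.1).trans (h0 φ hφ)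
    refine ⟨Λ, ⟨⟨fun φ => (k1 φ).1, ?_⟩, k2, (cl_iff hL h0 k2).2 fun Γ _ => (k1 Γ).2,
      funext fun φ => ?_⟩, funext fun i => dif_pos i.2⟩
    · rw [← hl.2]
      exact sum_congr rfl fun φ _ => by rw [(k1 φ).2.1]
    by_cases hφ : C.II Λ0 φ
    · have h1 := ii_tw hL h0 (neg_mem hc) hφ
      have h2 := f2 ⟨_, h1⟩
      rw [show g • (⟨_, h1⟩ : {Γ // C.II Λ0 Γ}) = ⟨φ, hφ⟩ from Subtype.ext (tw_neg hL a1 φ)] at h2
      exact (dif_pos h1).trans (h2.symm.trans (show Λ φ = _ from dif_pos hφ).symm)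
    · have h1 : ¬ C.II Λ0 (C.tw (-(Multiplicative.toAdd g).1) φ) := fun e =>
        hφ (tw_neg hL a1 φ ▸ ii_tw hL h0 hc e)
      exact (dif_neg h1).trans ((off hL hl.1 (hL.lab_tw _ n _ a1 hl).1 h0
        (hL.bas_tw _ _ a1 a2 h0) a3 hφ).trans (show Λ φ = _ from dif_neg hφ).symm)

omit hL in
theorem eqns_gbFix : True := by
  have := @Rr.eq_1
  have := @XX.eq_1
  have := @BB.eq_1.{0}
  have := @act.eq_1.{0}
  trivial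

end Cfsg.Agent.H19.GbFix
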