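import Cfsg.Agent.H45.GdDefs

/-! Project CY, chapter IV: an element of order four between a point and a maximal subspace. -/

set_option autoImplicit false

namespace Cfsg.Agent.H19.GdD

open Subgroup MulAction Cfsg.Agent.H11.Cy Cfsg.Agent.H45.Iv Cfsg.Agent.H45.Gd
open scoped commutatorElement

theorem comm_of_sq {G : Type} [Group G] {a b : G} (ha : a * a = 1) (hb : b * b = 1)
    (hab : a * b * (a * b) = 1) : a * b = b * a := by
  calc a * b = (a * b)⁻¹ := (inv_eq_of_mul_eq_one_right hab).symm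
    _ = b * a := by
      rw [mul_inv_rev, inv_eq_of_mul_eq_one_right ha, inv_eq_of_mul_eq_one_right hb]

theorem d : DStmt := by
  intro G _ _ Ω _ _ p A h k fpf gc Ψ mx hE x hx b hb hb1
  by_contra hcon
  push Not at hcon
  have hRF : ∀ u v, u ≠ v → Rl A u v ≤ Fl A u v := fun u v e => (h.ls u v e).1.sup ▸ le_sup_left
  have hxy : ∀ y ∈ Ψ, x ≠ y := fun y hy e => hx (e ▸ hy)
  have h1 : ∀ y ∈ Ψ, ∃ a ∈ A y, b * a⁻¹ ∈ Rl A x y := fun y hy => by
    obtain ⟨r, hr, a, ha, e⟩ := (h.ls y x (hxy y hy).symm).1.dec b (mem_sup_right hb)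
    refine ⟨a, ha, ?_⟩
    rw [e, mul_inv_cancel_right,
      ← (h.sk.sp x y (hxy y hy) y (h.sk.ln x y).2 x (h.sk.ln x y).1 (hxy y hy).symm).1]
    exact hr
  choose! a ha hτ using h1
  have hsq : ∀ y ∈ Ψ, b * (a y)⁻¹ * (b * (a y)⁻¹) = 1 := fun y hy => hcon y hy _ (ha y hy) (hτ y hy)
  have hinv : ∀ y ∈ Ψ, b * (a y)⁻¹ = a y * b⁻¹ := fun y hy => by
    rw [← inv_eq_of_mul_eq_one_right (hsq y hy), mul_inv_rev, inv_inv]
  have hZ : ∀ y ∈ Ψ, b * (a y)⁻¹ ∉ Zl A x y := fun y hy hz => by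
    have e := (h.ep.kfix x y (hxy y hy) _).1 hz.2 y (h.sk.ln x y).2
    rw [mul_smul, h.bs.fix y _ (inv_mem (ha y hy))] at e
    exact (h.bs.semi x y b hb e).elim hb1 (hxy y hy).symm
  have ha1 : ∀ y ∈ Ψ, a y ≠ 1 := fun y hy e => by
    have := hτ y hy
    rw [e, inv_one, mul_one] at this
    exact hb1 ((h.ls x y (hxy y hy)).1.disj x b hb this)
  have hcj : ∀ y ∈ Ψ, ∀ y' ∈ Ψ,
      a y * (a y')⁻¹ * (b * (a y)⁻¹) = b * (a y)⁻¹ * (a y * (a y')⁻¹)⁻¹ := fun y hy y' hy' => by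
    calc _ = (a y * b⁻¹) * (b * (a y')⁻¹) * (b * (a y)⁻¹) := by group
      _ = (b * (a y)⁻¹) * (a y' * b⁻¹) * (b * (a y)⁻¹) := by rw [← hinv y hy, ← hinv y' hy']
      _ = _ := by group
  have hR : ∀ y ∈ Ψ, ∀ y' ∈ Ψ, y ≠ y' → a y * (a y')⁻¹ ∈ Rl A y y' := fun y hy y' hy' e => by
    by_contra hn
    obtain ⟨c, -, hc, -⟩ := (h.ls y y' e).1.out _
      (mul_mem (mem_sup_left (ha y hy)) (inv_mem (mem_sup_right (ha y' hy')))) hn
    refine fpf x y (hxy y hy) _ (hτ y hy) (hZ y hy) c ((hc _).1 ?_)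
    rw [← mul_smul, hcj y hy y' hy', mul_smul, inv_smul_eq_iff.2 ((hc c).2 rfl).symm]
  have h2 : ∀ y ∈ Ψ, ∀ y' ∈ Ψ, a y * (a y')⁻¹ * (a y * (a y')⁻¹) = 1 := fun y hy y' hy' => by
    by_cases e : y = y'
    · rw [e, mul_inv_cancel, one_mul]
    have hz := (h.ls y y' e).2.1.sq _ (hR y hy y' hy' e)
    have hzz := (h.ls y y' e).2.2.1.zsq _ hz
    have c1 := hz.2 _ (mem_sup_left (ha y hy) : a y ∈ Fl A y y')
    have c2 := hcj y hy y' hy'
    by_contra hne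
    refine hx ((k.fx Ψ mx _ (k.ze Ψ mx y hy y' hy' e hz) hne x).1 ?_)
    generalize a y * (a y')⁻¹ = g at hzz c1 c2
    have c3 : g * g * (b * (a y)⁻¹) = b * (a y)⁻¹ * (g * g) := by
      calc _ = g * (g * (b * (a y)⁻¹)) := mul_assoc _ _ _
        _ = g * (b * (a y)⁻¹ * g⁻¹) := by rw [c2]
        _ = g * (b * (a y)⁻¹) * g⁻¹ := (mul_assoc _ _ _).symm
        _ = b * (a y)⁻¹ * (g * g)⁻¹ := by rw [c2]; group
        _ = _ := by rw [inv_eq_of_mul_eq_one_right hzz]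
    have c4 : b * (g * g) = g * g * b := by
      calc _ = b * (a y)⁻¹ * (a y * (g * g)) := by group
        _ = b * (a y)⁻¹ * (g * g) * a y := by rw [c1]; group
        _ = _ := by rw [← c3]; group
    refine (h.bs.semi x _ b hb ?_).resolve_left hb1
    rw [← mul_smul, c4, mul_smul, h.bs.fix x b hb]
  obtain ⟨d, hd⟩ := k.ne Ψ mx
  have h3 : ∀ y ∈ Ψ, ∀ y' ∈ Ψ,
      a d * (a y)⁻¹ * (a d * (a y')⁻¹) = a d * (a y')⁻¹ * (a d * (a y)⁻¹) := fun y hy y' hy' => by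
    refine comm_of_sq (h2 d hd y hy) (h2 d hd y' hy') ?_
    have e : a d * (a y)⁻¹ * (a d * (a y')⁻¹) = a y * (a y')⁻¹ := by
      rw [← inv_eq_of_mul_eq_one_right (h2 d hd y hy)]; group
    rw [e, h2 y hy y' hy']
  have h4 : ∀ y ∈ Ψ, d ≠ y → ∀ s ∈ Rl A d y, ∃ y' ∈ Ψ, ⁅a d, s⁆ = a d * (a y')⁻¹ := by
    intro y hy e s hs
    have hsF := hRF d y e hs
    have hL : s • d ∈ Ln A d y := fun c hc => by
      have c1 := h.bs.eqv s⁻¹ _ c hc
      rw [inv_smul_smul] at c1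
      have c2 := mul_mem (mul_mem hsF (mem_sup_left c1 : _ ∈ Fl A d y)) (inv_mem hsF)
      convert c2 using 1; group
    have hΨ : s • d ∈ Ψ := mx.1 d hd y hy e hL
    by_cases e' : s • d = d
    · have hz := (h.ls d y e).2.1.stab s hs d (h.sk.ln d y).1 e'
      have c1 := hz.2 _ (mem_sup_left (ha d hd) : a d ∈ Fl A d y)
      exact ⟨d, hd, by rw [commutatorElement_def, c1]; group⟩
    refine ⟨_, hΨ, ?_⟩
    have c1 := hR d hd _ hΨ (Ne.symm e')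
    rw [(h.sk.sp d y e d (h.sk.ln d y).1 _ hL (Ne.symm e')).1] at c1
    have c2 : ⁅a d, s⁆ ∈ Rl A d y := commutator_mem_commutator (mem_sup_left (ha d hd)) hsF
    have c3 := (h.ls d y e).1.disj (s • d) (a (s • d) * (s * a d * s⁻¹)⁻¹)
      (mul_mem (ha _ hΨ) (inv_mem (h.bs.eqv s d _ (ha d hd)))) (by
        have := mul_mem (inv_mem c1) c2
        rw [commutatorElement_def] at this
        convert this using 1; group)
    rw [mul_inv_eq_one.1 c3, commutatorElement_def]; group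
  have h5 : ∀ y ∈ Ψ, d ≠ y → ∀ r ∈ Rl A d y, ∃ y' ∈ Ψ, r = a d * (a y')⁻¹ := by
    intro y hy e
    have c1 : ∀ r ∈ Rl A d y, ∃ y' ∈ Ψ, r⁻¹ * (a d * (a y')⁻¹) ∈ Zl A d y := fun r hr => by
      obtain ⟨s, hs, hz⟩ := (h.ls d y e).2.2.1.surj _ (ha d hd) (ha1 d hd) r hr
      obtain ⟨y', hy', e'⟩ := h4 y hy e s hs
      exact ⟨y', hy', e' ▸ hz⟩
    have c2 : Zl A d y ≤ ⊥ := (h.ls d y e).2.2.1.zd.trans (commutator_le.2 fun r hr s hs => by
      obtain ⟨u, hu, z1⟩ := c1 r hr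
      obtain ⟨v, hv, z2⟩ := c1 s hs
      have f1 := h3 u hu v hv
      have f2 := z1.2 s (hRF d y e hs)
      have f3 := z2.2 r (hRF d y e hr)
      have f4 := z1.2 _ z2.1
      have f5 : a d * (a u)⁻¹ = r * (r⁻¹ * (a d * (a u)⁻¹)) := by group
      have f6 : a d * (a v)⁻¹ = s * (s⁻¹ * (a d * (a v)⁻¹)) := by group
      generalize r⁻¹ * (a d * (a u)⁻¹) = z at f2 f4 f5
      generalize s⁻¹ * (a d * (a v)⁻¹) = w at f3 f4 f6
      rw [f5, f6] at f1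
      rw [mem_bot, commutatorElement_eq_one_iff_mul_comm]
      refine mul_right_cancel (b := z * w) ?_
      calc r * s * (z * w) = r * (s * z) * w := by group
        _ = r * z * (s * w) := by rw [f2]; group
        _ = s * (w * r) * z := by rw [f1]; group
        _ = s * r * (w * z) := by rw [← f3]; group
        _ = _ := by rw [f4])
    intro r hr
    obtain ⟨y', hy', hz⟩ := c1 r hr
    exact ⟨y', hy', inv_mul_eq_one.1 (mem_bot.1 (c2 hz))⟩
  have hT := ((k.gd Ψ mx).2.2 d hd).teq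
  have h6 : ∀ y ∈ Ψ, ∀ t ∈ Ts A Ψ, a d * (a y)⁻¹ * t = t * (a d * (a y)⁻¹) := fun y hy t ht => by
    have : Ts A Ψ ≤ centralizer {a d * (a y)⁻¹} := by
      rw [hT]
      refine iSup₂_le fun y₀ hy₀ r hr => ?_
      obtain ⟨y', hy', rfl⟩ := h5 y₀ hy₀.1 (Ne.symm hy₀.2) r hr
      exact mem_centralizer_singleton_iff.2 (h3 y' hy' y hy)
    exact (mem_centralizer_singleton_iff.1 (this ht)).symm
  have h7 : Ts A Ψ ≤ centralizer (Ts A Ψ : Set G) := by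
    nth_rewrite 1 [hT]
    refine iSup₂_le fun y₀ hy₀ r hr t ht => ?_
    obtain ⟨y', hy', rfl⟩ := h5 y₀ hy₀.1 (Ne.symm hy₀.2) r hr
    exact (h6 y' hy' t ht).symm
  exact hE (eq_bot_iff.2 ((gc Ψ mx).trans (commutator_eq_bot_iff_le_centralizer.2 h7).le))

end Cfsg.Agent.H19.GdD
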