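import Cfsg.Agent.H45.IvDefs

/-! Project CY, chapter IV: the three cases. -/

set_option autoImplicit false

namespace Cfsg.Agent.H19.IvTri

open Subgroup MulAction Cfsg.Agent.H11.Cy Cfsg.Agent.H45.Iv

variable {G : Type} [Group G] {Ω : Type} [MulAction G Ω] {A : Ω → Subgroup G}

theorem zl_bot (ep : Eps A) (k : SK A) (ls : LS A) {x y : Ω} (hxy : x ≠ y) (hn : ¬ Ani A x y) :
    Zl A x y = ⊥ := by
  obtain ⟨la, lb, lc, -⟩ := ls x y hxy
  unfold Ani at hn
  push Not at hn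
  obtain ⟨r, hr, hrz, hrr⟩ := hn
  have hRF : Rl A x y ≤ Fl A x y := la.sup ▸ le_sup_left
  have hx := (k.ln x y).1
  have hy := (k.ln x y).2
  have hL : ∀ s ∈ Rl A x y, s • x ∈ Ln A x y := fun s hs =>
    (ep.nrm x y hxy s).1 (le_normalizer (hRF hs)) x hx
  have sq : ∀ s ∈ Rl A x y, s * s = 1 := by
    intro s hs
    by_cases hz : s ∈ Zl A x y
    · exact lc.zsq s hz
    obtain ⟨g, hg, e1, e2⟩ := ep.tr x y hxy x hx (r • x) (hL r hr) x hx (s • x) (hL s hs)
      (fun e => hrz (lb.stab r hr x hx e.symm)) (fun e => hz (lb.stab s hs x hx e.symm))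
    have hgy := (ep.nrm x y hxy g).1 hg y hy
    have h1 : g * r * g⁻¹ ∈ Rl A x y := by
      have := (k.cj g x y r).2.1 hr
      rwa [e1, (k.sp x y hxy x hx _ hgy fun e => hxy (MulAction.injective g (e1.trans e))).1] at this
    have e3 : g⁻¹ • x = x := inv_smul_eq_iff.2 e1.symm
    have h2 : (g * r * g⁻¹)⁻¹ * s ∈ Zl A x y := lb.stab _ (mul_mem (inv_mem h1) hs) x hx (by
      rw [mul_smul, inv_smul_eq_iff, mul_smul, mul_smul, e3, e2])
    have h3 := lc.zsq _ h2
    have h4 := h2.2 _ (hRF h1)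
    have h6 : g * r * g⁻¹ * (g * r * g⁻¹) = 1 := by
      calc _ = g * (r * r) * g⁻¹ := by group
        _ = 1 := by rw [hrr]; group
    have h7 : s = g * r * g⁻¹ * ((g * r * g⁻¹)⁻¹ * s) := by group
    generalize (g * r * g⁻¹)⁻¹ * s = z at h3 h4 h7
    generalize g * r * g⁻¹ = u at h4 h6 h7
    calc s * s = u * (z * u) * z := by rw [h7]; simp only [mul_assoc]
      _ = u * u * (z * z) := by rw [← h4]; simp only [mul_assoc]
      _ = 1 := by rw [h6, h3, one_mul]
  refine eq_bot_iff.2 (lc.zd.trans (commutator_le.2 fun a ha b hb => mem_bot.2 ?_))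
  have h5 := sq _ (mul_mem ha hb)
  rw [commutatorElement_def, inv_eq_of_mul_eq_one_right (sq a ha),
    inv_eq_of_mul_eq_one_right (sq b hb), ← h5]
  simp only [mul_assoc]

theorem zl_back (k : SK A) (g : G) (x y : Ω) {z : G} (hz : g * z * g⁻¹ ∈ Zl A (g • x) (g • y)) :
    z ∈ Zl A x y := by
  have := (k.cj g⁻¹ _ _ _).2.2 hz
  rw [inv_smul_smul, inv_smul_smul] at this
  convert this using 1; group

theorem big_tr (k : SK A) (g : G) {x y : Ω} (h : Big A x y) : Big A (g • x) (g • y) := by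
  intro r hr hz
  have h1 : g⁻¹ * r * g⁻¹⁻¹ ∈ Rl A x y := by
    have := (k.cj g⁻¹ _ _ _).2.1 hr
    rwa [inv_smul_smul, inv_smul_smul] at this
  obtain ⟨s, hs, e, h2, h3⟩ := h _ h1 fun hh => hz (by
    have := (k.cj g _ _ _).2.2 hh
    convert this using 1; group)
  refine ⟨g * s * g⁻¹, (k.cj g _ _ _).2.1 hs, ?_, fun hh => h2 (zl_back k g x y hh),
    fun hh => h3 (zl_back k g x y (by convert hh using 1; group))⟩
  calc _ = g * (g⁻¹ * r * g⁻¹⁻¹ * s) * g⁻¹ := by group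
    _ = _ := by rw [e]; group

theorem tri : TriStmt := by
  intro G _ _ Ω _ _ p A h ep k ls
  by_cases hA : ∀ x y, x ≠ y → Ani A x y
  · by_cases hB : ∃ x y, x ≠ y ∧ Big A x y
    · obtain ⟨x, y, hxy, hb⟩ := hB
      refine Or.inr (Or.inl fun x' y' hxy' => ⟨hA x' y' hxy', ?_⟩)
      obtain ⟨g, -, rfl, rfl⟩ := h.two x trivial y trivial x' trivial y' trivial hxy hxy'
      exact big_tr k g hb
    · exact Or.inr (Or.inr fun x y hxy => ⟨hA x y hxy, fun hb => hB ⟨x, y, hxy, hb⟩⟩)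
  · push Not at hA
    obtain ⟨x, y, hxy, hn⟩ := hA
    have h0 := zl_bot ep k ls hxy hn
    refine Or.inl fun x' y' hxy' => eq_bot_iff.2 fun z hz => ?_
    obtain ⟨g, -, rfl, rfl⟩ := h.two x' trivial y' trivial x trivial y trivial hxy' hxy
    have := (k.cj g _ _ _).2.2 hz
    rw [h0, mem_bot, conj_eq_one_iff] at this
    exact mem_bot.2 this

end Cfsg.Agent.H19.IvTri
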