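import Mathlib
import Cfsg.Agent.H50.L81Defs
import Cfsg.Agent.H95.FvNact2

/-! Elements inverting the torus element of the case `E` normalise the four copies of `sl₂`. -/

set_option autoImplicit false

namespace Cfsg.Agent.H19.L81Ne

open Equiv Cfsg.Lie H37 H40 H34 H29 Module Finset H50.E83 H50.L81
open H42.Fv (al act_mul al_neg nact2)

theorem hr_ng (r : Rt) : hr (ng r) = -hr r := by
  funext j
  rcases j with i | s
  · show ((co chevE8 (C8.R.neg r) i : ℤ) : K) = -((co chevE8 r i : ℤ) : K)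
    rw [← C8.co_eq, ← C8.co_eq, C8.R.co_neg, Pi.neg_apply, Int.cast_neg]
  · exact neg_zero.symm

theorem p_one : (∀ h, Zc h → Zc (act 1 h)) ∧ ∀ i x, ∃ y, act 1 (sv i x) = sv i y :=
  ⟨fun h hh => by rw [map_one]; exact hh, fun i x => ⟨x, by rw [map_one]; rfl⟩⟩

theorem p_mul {a b : GK}
    (ha : (∀ h, Zc h → Zc (act a h)) ∧ ∀ i x, ∃ y, act a (sv i x) = sv i y)
    (hb : (∀ h, Zc h → Zc (act b h)) ∧ ∀ i x, ∃ y, act b (sv i x) = sv i y) :
    (∀ h, Zc h → Zc (act (a * b) h)) ∧ ∀ i x, ∃ y, act (a * b) (sv i x) = sv i y := by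
  refine ⟨fun h hh => by rw [act_mul]; exact ha.1 _ (hb.1 h hh), fun i x => ?_⟩
  obtain ⟨y, hy⟩ := hb.2 i x
  obtain ⟨z, hz⟩ := ha.2 i y
  exact ⟨z, by rw [act_mul, hy, hz]⟩

theorem p_gw (hG : GwaStmt) (i : Fin 4) (L : List (Bool × K)) :
    (∀ h, Zc h → Zc (act (gw i L) h)) ∧ ∀ j x, ∃ y, act (gw i L) (sv j x) = sv j y := by
  obtain ⟨h1, h2, h3, -⟩ := hG.1 i L
  refine ⟨fun h hh => by rw [h3 h hh]; exact hh, fun j x => ?_⟩
  by_cases e : j = i
  · subst e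
    exact ⟨_, h1 x⟩
  · exact ⟨x, h2 j x e⟩

theorem p_xx (hD : DateStmt) (hG : GwaStmt) (r : Rt) (hr : (ff 4 r : ZMod 40) = 0) (s : K) :
    (∀ h, Zc h → Zc (act (xx r s) h)) ∧ ∀ j x, ∃ y, act (xx r s) (sv j x) = sv j y := by
  obtain ⟨i, rfl | rfl⟩ := (hD.1 r).1 hr
  · have e : xx (aa i) s = gw i [(true, s)] := (mul_one _).symm
    rw [e]; exact p_gw hG i _
  · have e : xx (ng (aa i)) s = gw i [(false, s)] := (mul_one _).symm
    rw [e]; exact p_gw hG i _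

theorem p_up (hD : DateStmt) (hG : GwaStmt) {ζ : Kˣ} {t : GK} (hζ : IsPrimitiveRoot ζ 40)
    (hl : Lab C8 ζ t (ff 4)) (v : GK) (hv : v ∈ P8.Up) (e : t * v * t⁻¹ = v) :
    (∀ h, Zc h → Zc (act v h)) ∧ ∀ j x, ∃ y, act v (sv j x) = sv j y := by
  classical
  let L := (univ.filter C8.S.pos).toList
  obtain ⟨y, hy, rfl⟩ := P8.exists_prod C8.S.cl_pos (L := L) (nodup_toList _)
    (fun r => by rw [mem_toList, mem_filter]; simp) hv
  choose c hc using fun r => Cert.mem_X.1 (hy r)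
  have h3 := P8.prod_inj (L := L) (nodup_toList _) (fun r hr => (mem_filter.1 (mem_toList.1 hr)).2)
    (y := fun r => t * y r * t⁻¹) (fun r _ => by rw [← hc, hl.conj_xg]; exact C8.xg_mem_X _ _)
    (fun r _ => hy r) (by
      rw [← e]
      exact ((map_list_prod (MulAut.conj t) _).trans (by rw [List.map_map]; rfl)).symm)
  refine List.prod_induction
    (fun g : GK => (∀ h, Zc h → Zc (act g h)) ∧ ∀ j x, ∃ y, act g (sv j x) = sv j y)
    (fun a b ha hb => p_mul ha hb) p_one fun _ hz => ?_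
  obtain ⟨r, hr, rfl⟩ := List.mem_map.1 hz
  have h4 := h3 r hr
  simp only [← hc, hl.conj_xg] at h4
  rw [← hc]
  by_cases h5 : c r = 0
  · rw [h5, C8.xg_zero]; exact p_one
  have h6 : ζ ^ ff 4 r = ζ ^ (0 : ℤ) :=
    Units.ext (by simpa using (mul_eq_right₀ h5).1 (Cert.xg_injective r.2 h4))
  exact p_xx hD hG r (by simpa using (zpow_eq_iff hζ).1 h6) _

set_option maxRecDepth 100000 in
theorem p_n {n : GK} (hn : n ∈ P8.N)
    (h : ∀ i, P8.ν n (aa i) = aa i ∨ P8.ν n (aa i) = ng (aa i)) :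
    (∀ h, Zc h → Zc (act n h)) ∧ ∀ j x, ∃ y, act n (sv j x) = sv j y := by
  have hW := P8.ν_mem n hn
  have hng : ∀ r, P8.ν n (ng r) = ng (P8.ν n r) := fun r => C8.R.W_neg hW r
  refine ⟨fun v hv => ?_, fun j x => ?_⟩
  · obtain ⟨c, hc⟩ := nact2 n hn
    obtain ⟨h1, h2, -⟩ := hc v
    refine ⟨fun r => ?_, fun i => ?_⟩
    · obtain ⟨s, rfl⟩ := (P8.ν n).surjective r
      rw [h1, hv.1 s, mul_zero]
    · have h3 := h2 (aa i)
      rw [hv.2 i] at h3
      rcases h i with e | e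
      · rwa [e] at h3
      · rwa [e, al_neg, neg_eq_zero] at h3
  · obtain ⟨⟨c, h1⟩, h2⟩ := nact n hn
    have e0 : act n (sv j x) = (x.1 * c (aa j)) • ee (P8.ν n (aa j)) +
        (x.2.1 * c (ng (aa j))) • ee (ng (P8.ν n (aa j))) + x.2.2 • hr (P8.ν n (aa j)) := by
      unfold H50.L81.sv
      rw [map_add, map_add, map_smul, map_smul, map_smul, h1, h1, h2, hng, smul_smul, smul_smul]
    rcases h j with e | e
    · exact ⟨(x.1 * c (aa j), x.2.1 * c (ng (aa j)), x.2.2), by rw [e0, e]; rfl⟩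
    · refine ⟨(x.2.1 * c (ng (aa j)), x.1 * c (aa j), -x.2.2), ?_⟩
      rw [e0, e, hr_ng, show ng (ng (aa j)) = aa j from C8.R.neg_neg _, smul_neg, ← neg_smul,
        add_comm (_ • ee (ng (aa j)))]
      rfl

theorem ne (hD : DateStmt) (hG : GwaStmt) : NeStmt := by
  intro ζ t hζ hl b hb
  obtain ⟨a, ha, n, hn, u, hu, rfl⟩ := P8.bruhat b
  have hs := hl.mem_H
  have hN := Split.H_le_N hs
  have e1 : P8.ν (t * n * t) = P8.ν n := by
    rw [P8.ν_mul _ (mul_mem hN hn) _ hN, P8.ν_mul _ hN _ hn, Split.ν_H hs, one_mul, mul_one]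
  obtain ⟨e2, e3, e4⟩ := Split.bruhat_unique (Split.conj_U_H hs ha) (mul_mem (mul_mem hN hn) hN)
    (e1.symm ▸ Split.conj_U_H' hs hu) ha hn hu (by
      calc _ = t * (a * n * u * t * (a * n * u)⁻¹) * (a * n * u) := by group
        _ = _ := by rw [hb, mul_inv_cancel, one_mul])
  have e5 : t * u * t⁻¹ = u := by
    calc _ = t * (t⁻¹ * u * t) * t⁻¹ := by rw [e4]
      _ = _ := by group
  have e6 : n * t * n⁻¹ = t ^ 39 := by
    have h40 : t * t ^ 39 = 1 := by rw [← pow_succ']; exact hl.pow_eq_one hζ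
    calc _ = t⁻¹ * (t * n * t) * n⁻¹ := by group
      _ = t⁻¹ := by rw [e3, mul_inv_cancel_right]
      _ = _ := (eq_inv_of_mul_eq_one_right h40).symm
  have h7 : ∀ r, (ff 4 (P8.ν n r) : ZMod 40) = -ff 4 r := fun r => by
    have h8 := hl.rel_N hζ hn (e6 ▸ hl.pow 39) r
    have h9 : ((39 : ℕ) : ZMod 40) = -1 := by decide
    simp only [Int.cast_mul, Int.cast_natCast, h9] at h8
    rw [← h8]; ring
  exact p_mul (p_mul (p_up hD hG hζ hl a ha e2) (p_n hn (hD.2.2.2 _ (P8.ν_mem n hn) h7)))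
    (p_up hD hG hζ hl u (Split.Uinv_le_Up hu) e5)

end Cfsg.Agent.H19.L81Ne
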