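import Mathlib
import Cfsg.Agent.H91.LinDefs
import Cfsg.Agent.H7.Rank
import Cfsg.Agent.H36.DicksonRing
import Cfsg.Agent.H53.FF2
import Cfsg.Agent.H61.RegLin3
import Cfsg.Agent.H85.Basic
import Cfsg.Agent.S0262
import Cfsg.Agent.S0205

/-! A minimal extension of `SL₂(p)` by a group of odd order splits off under a condition on the
elements of order three. -/

set_option autoImplicit false

namespace Cfsg.Agent.H19.Lin6

open Subgroup Cfsg.Agent.H91.LIN Cfsg.Agent.H85
open scoped commutatorElement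

/-- no subgroup `C_r × C_r` -/
def CC (r : ℕ) (G : Type*) [Group G] : Prop :=
  ∀ a b : G, Commute a b → a ^ r = 1 → b ^ r = 1 → b ≠ 1 → a ∈ zpowers b

/-- at most one involution -/
def UI (G : Type*) [Group G] : Prop :=
  ∀ t t' : G, t ^ 2 = 1 → t' ^ 2 = 1 → t ≠ 1 → t' ≠ 1 → t = t'

/-- elements of order three do not permute three commuting conjugates -/
def RR (G : Type*) [Group G] : Prop :=
  ∀ x y : G, x ^ 3 = 1 → x ≠ 1 → Commute y (x * y * x⁻¹) → Commute y (x⁻¹ * y * x) →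
    x * y * x⁻¹ = y

variable {G K : Type*} [Group G] [Group K] {r : ℕ}

theorem CC.of_inj (h : CC r G) (f : K →* G) (hf : Function.Injective f) : CC r K := by
  intro a b c ha hb b1
  obtain ⟨n, e⟩ := h (f a) (f b) (c.map f) (by rw [← map_pow, ha, map_one])
    (by rw [← map_pow, hb, map_one]) fun e => b1 (hf (e.trans f.map_one.symm))
  exact ⟨n, hf (by rw [map_zpow]; exact e)⟩

theorem UI.of_inj (h : UI G) (f : K →* G) (hf : Function.Injective f) : UI K :=
  fun a b ha hb a1 b1 => hf (h _ _ (by rw [← map_pow, ha, map_one]) (by rw [← map_pow, hb, map_one])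
    (fun e => a1 (hf (e.trans f.map_one.symm))) fun e => b1 (hf (e.trans f.map_one.symm)))

theorem RR.of_inj (h : RR G) (f : K →* G) (hf : Function.Injective f) : RR K := by
  intro x y hx x1 c1 c2
  have := h (f x) (f y) (by rw [← map_pow, hx, map_one]) (fun e => x1 (hf (e.trans f.map_one.symm)))
    (by simpa only [map_mul, map_inv] using c1.map f) (by simpa only [map_mul, map_inv] using c2.map f)
  exact hf (by simpa only [map_mul, map_inv] using this)

theorem pg_zp {a : G} (h : a ^ r = 1) : IsPGroup r (zpowers a) := by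
  rintro ⟨_, n, rfl⟩
  refine ⟨1, Subtype.ext ?_⟩
  show (a ^ n) ^ r ^ 1 = 1
  rw [pow_one, ← zpow_natCast, ← zpow_mul, mul_comm, zpow_mul, zpow_natCast, h, one_zpow]

theorem CC.cyc [Finite G] [hr : Fact r.Prime] (h2 : r ≠ 2) (h : CC r G) {P : Subgroup G}
    (hP : IsPGroup r P) : IsCyclic P := by
  by_contra hn
  obtain ⟨A, -, hA, hc⟩ := H7.exists_normal_sq hP h2 hn
  have h1 := hr.out.one_lt
  have : Nontrivial A := Finite.one_lt_card_iff_nontrivial.1 (hc ▸ Nat.one_lt_pow two_ne_zero h1)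
  obtain ⟨b, hb⟩ := exists_ne (1 : A)
  have b1 : b.1 ≠ 1 := fun e => hb (Subtype.ext e)
  have := card_le_of_le (show A ≤ zpowers b.1 from fun a ha => h.of_inj P.subtype
    P.subtype_injective a b (congrArg Subtype.val (hA.1.is_comm.comm ⟨a, ha⟩ b)) (hA.2 a ha)
    (hA.2 _ b.2) b1)
  rw [hc, Nat.card_zpowers, orderOf_eq_prime (hA.2 _ b.2) b1] at this
  nlinarith

theorem mem_zp_of_cyc [Finite G] [IsCyclic G] [hr : Fact r.Prime] {a b : G} (ha : a ^ r = 1)
    (hb : b ^ r = 1) (b1 : b ≠ 1) : a ∈ zpowers b := by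
  classical
  by_contra hn
  have := Fintype.ofFinite G
  have h1 := IsCyclic.card_pow_eq_one_le (α := G) hr.out.pos
  have h2 : insert a (Finset.univ.filter (· ∈ zpowers b)) ⊆ Finset.univ.filter (· ^ r = 1) := by
    intro x hx
    rcases Finset.mem_insert.1 hx with rfl | hx
    · simpa using ha
    · obtain ⟨n, rfl⟩ := (Finset.mem_filter.1 hx).2
      simp only [Finset.mem_filter, Finset.mem_univ, true_and]
      rw [← zpow_natCast, ← zpow_mul, mul_comm, zpow_mul, zpow_natCast, hb, one_zpow]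
  have h3 := Finset.card_le_card h2
  rw [Finset.card_insert_of_notMem (by simpa using hn), ← Fintype.card_subtype,
    ← Nat.card_eq_fintype_card, Nat.card_zpowers, orderOf_eq_prime hb b1] at h3
  omega

theorem CC.of_surj [Finite G] [hr : Fact r.Prime] (h2 : r ≠ 2) (h : CC r G) (f : G →* K)
    (hf : Function.Surjective f) : CC r K := by
  intro a b c ha hb b1
  have : Finite K := Finite.of_surjective f hf
  have hQ : IsPGroup r (zpowers a ⊔ zpowers b : Subgroup K) :=
    IsPGroup.to_sup_of_normal_right' (pg_zp ha) (pg_zp hb) (zpowers_le_of_mem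
      (centralizer_le_normalizer _ (by rintro _ ⟨n, rfl⟩; exact (c.symm.zpow_left n).eq)))
  obtain ⟨S, hS⟩ := hQ.exists_le_sylow
  obtain ⟨P, rfl⟩ := Sylow.mapSurjective_surjective hf r S
  rw [Sylow.coe_mapSurjective] at hS
  have := h.cyc h2 P.isPGroup'
  have : IsCyclic ((P : Subgroup G).map f) :=
    isCyclic_of_surjective _ (f.subgroupMap_surjective (P : Subgroup G))
  obtain ⟨n, e⟩ := mem_zp_of_cyc (r := r) (G := (P : Subgroup G).map f)
    (a := ⟨a, hS (mem_sup_left (mem_zpowers a))⟩) (b := ⟨b, hS (mem_sup_right (mem_zpowers b))⟩)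
    (Subtype.ext ha) (Subtype.ext hb) fun e => b1 (congrArg Subtype.val e)
  exact ⟨n, by simpa using congrArg Subtype.val e⟩

open scoped IsMulCommutative in
/-- the transfer into an abelian Sylow subgroup of a perfect group -/
theorem lemT [Finite G] [hr : Fact r.Prime] (hp : commutator G = ⊤) (P : Sylow r G)
    [IsMulCommutative (P : Subgroup G)] {x : G} (hx : x ∈ P)
    (h : ∀ n ∈ normalizer (P : Set G), n⁻¹ * x * n = x) : x = 1 := by
  have key : ∀ (k : ℕ) (g : G), g⁻¹ * x ^ k * g ∈ (P : Subgroup G) → g⁻¹ * x ^ k * g = x ^ k := by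
    intro k g hg
    obtain ⟨n, hn, e⟩ := P.conj_eq_normalizer_conj_of_mem (x ^ k) g (pow_mem hx k) hg
    rw [e]
    nth_rw 2 [← h n hn]
    simpa using (conj_pow (a := n⁻¹) (b := x) (i := k)).symm
  have h1 := MonoidHom.transfer_eq_pow (MonoidHom.id (P : Subgroup G)) x key
  have h2 : MonoidHom.transfer (MonoidHom.id (P : Subgroup G)) x = 1 :=
    Abelianization.commutator_subset_ker _ (hp ▸ mem_top x)
  have h3 : x ^ (P : Subgroup G).index = 1 := congrArg Subtype.val (h1.symm.trans h2)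
  obtain ⟨k, hk⟩ := P.isPGroup' ⟨x, hx⟩
  have h4 : x ^ r ^ k = 1 := congrArg Subtype.val hk
  exact orderOf_eq_one_iff.1 (Nat.eq_one_of_dvd_coprimes
    (Nat.Coprime.pow_left k ((Nat.Prime.coprime_iff_not_dvd hr.out).2 P.not_dvd_index))
    (orderOf_dvd_of_pow_eq_one h4) (orderOf_dvd_of_pow_eq_one h3))

theorem cent_cyc (hp : commutator G = ⊤) (Q : Subgroup G) [Q.Normal] [IsCyclic Q] (g : G) {x : G}
    (hx : x ∈ Q) : g * x * g⁻¹ = x := by
  have : commutator G ≤ (MulAut.conjNormal : G →* MulAut Q).ker := commutator_le.2 fun a _ b _ => by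
    rw [MonoidHom.mem_ker, map_commutatorElement, commutatorElement_eq_one_iff_mul_comm]
    exact H61.mulAut_comm_of_isCyclic _ _
  have h := MonoidHom.mem_ker.1 (this (hp ▸ mem_top g))
  simpa using congrArg Subtype.val (MulEquiv.congr_fun h ⟨x, hx⟩)

theorem sl2_four {F : Type*} [Field F] {A X : Matrix.SpecialLinearGroup (Fin 2) F}
    (h1 : Commute (A * A) X) (h2 : ¬ Commute A X) : A ^ 4 = 1 := by
  have d := A.det_coe
  rw [Matrix.det_fin_two] at d
  have ch : (A.1 * A.1 : Matrix (Fin 2) (Fin 2) F) = (A.1 0 0 + A.1 1 1) • A.1 - 1 := by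
    ext i j
    fin_cases i <;> fin_cases j <;> simp [Matrix.mul_apply, Fin.sum_univ_two] <;>
      first | linear_combination (-1 : F) * d | ring
  have t0 : A.1 0 0 + A.1 1 1 = 0 := by
    by_contra ht
    apply h2
    have e : (A.1 * A.1) * X.1 = X.1 * (A.1 * A.1) := congrArg Subtype.val h1.eq
    rw [ch, sub_mul, mul_sub, one_mul, mul_one, sub_left_inj, smul_mul_assoc, mul_smul_comm] at e
    exact Subtype.ext (smul_right_injective _ ht e)
  rw [t0, zero_smul, zero_sub] at ch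
  apply Subtype.ext
  show (A.1 : Matrix (Fin 2) (Fin 2) F) ^ 4 = 1
  rw [show (4 : ℕ) = 2 * 2 from rfl, pow_mul, pow_two A.1, ch, neg_one_sq]

theorem eq_one_of_odd [Finite G] {O : Subgroup G} (ho : Odd (Nat.card O)) {x : G} (hx : x ∈ O)
    {k : ℕ} (h : x ^ 2 ^ k = 1) : x = 1 :=
  orderOf_eq_one_iff.1 (Nat.eq_one_of_dvd_coprimes
    (Nat.Coprime.pow_left k (Nat.coprime_two_left.2 ho)) (orderOf_dvd_of_pow_eq_one h)
    (O.orderOf_dvd_natCard hx))

/-- an element of order three inverted by `t` centralises a class two `⟨x, t⟩`-invariant group of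
odd order centralised by `t²` -/
theorem cent_x [Finite G] (hR : RR G) {D : Subgroup G} [hD : D.Normal] (ho : Odd (Nat.card D))
    (hc : ∀ g : G, ∀ c ∈ ⁅D, D⁆, g * c * g⁻¹ = c) {x t : G} (x3 : x ^ 3 = 1) (x1 : x ≠ 1)
    (tx : t * x * t⁻¹ = x⁻¹) (t2 : ∀ g : G, g * (t * t) = t * t * g) {d : G} (hd : d ∈ D) :
    x * d * x⁻¹ = d := by
  have key : ∀ y ∈ D, t * y * t⁻¹ = y ∨ t * y * t⁻¹ = y⁻¹ → x * y * x⁻¹ = y := fun y hy ht => by
    have h1 : x * y * x⁻¹ ∈ D := hD.conj_mem y hy x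
    have h2 : x⁻¹ * y * x ∈ D := hD.conj_mem' y hy x
    have m := commutator_mem_commutator hy h1
    have m2 := commutator_mem_commutator hy h2
    have e1 : ⁅x⁻¹ * y * x, y⁆ = ⁅y, x * y * x⁻¹⁆ := by
      rw [← hc x⁻¹ _ m]; simp only [commutatorElement_def]; group
    have e2 : ⁅y, x⁻¹ * y * x⁆ = ⁅y, x * y * x⁻¹⁆ := by
      have a : t * ⁅y, x * y * x⁻¹⁆ * t⁻¹ =
          ⁅t * y * t⁻¹, (t * x * t⁻¹) * (t * y * t⁻¹) * (t * x * t⁻¹)⁻¹⁆ := by
        simp only [commutatorElement_def]; group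
      rw [hc t _ m, tx] at a
      rcases ht with ht | ht <;> rw [ht] at a
      · rw [a, inv_inv]
      · rw [a, ← hc ((x⁻¹ * y * x)⁻¹ * y⁻¹) _ m2]
        simp only [commutatorElement_def]; group
    have e3 : ⁅y, x * y * x⁻¹⁆ = 1 := eq_one_of_odd ho (commutator_le_left D D m) (k := 1) (by
      rw [pow_one, pow_two]
      nth_rw 1 [← e1]
      rw [← e2, ← commutatorElement_inv, inv_mul_cancel])
    exact hR x y x3 x1 (commutatorElement_eq_one_iff_commute.1 e3)
      (commutatorElement_eq_one_iff_commute.1 (e2.trans e3))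
  obtain ⟨k, hk⟩ := ho
  have hu : d⁻¹ * (t * d * t⁻¹) ∈ D := mul_mem (inv_mem hd) (hD.conj_mem d hd t)
  generalize eu : d⁻¹ * (t * d * t⁻¹) = u at hu
  have tu : t * u * t⁻¹ = u⁻¹ := by
    have : t * t * d = d * (t * t) := (t2 d).symm
    calc t * u * t⁻¹ = t * d⁻¹ * t⁻¹ * (t * t * d) * t⁻¹ * t⁻¹ := by rw [← eu]; group
      _ = u⁻¹ := by rw [this, ← eu]; group
  have u1 : u ^ (2 * k + 1) = 1 := by
    rw [← hk]; exact congrArg Subtype.val (pow_card_eq_one' (x := (⟨u, hu⟩ : D)))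
  have te : t * u ^ (k + 1) * t⁻¹ = (u ^ (k + 1))⁻¹ := by rw [← conj_pow, tu, inv_pow]
  have he := pow_mem hu (k + 1)
  have a := key _ he (Or.inr te)
  have b := key _ (mul_mem hd he) (Or.inl (by
    calc t * (d * u ^ (k + 1)) * t⁻¹ = d * (d⁻¹ * (t * d * t⁻¹)) * (t * u ^ (k + 1) * t⁻¹) := by group
      _ = d * u ^ (k + 1) * (u ^ (2 * k + 1))⁻¹ := by rw [eu, te]; group
      _ = _ := by rw [u1, inv_one, mul_one]))
  calc x * d * x⁻¹ = x * (d * u ^ (k + 1)) * x⁻¹ * (x * u ^ (k + 1) * x⁻¹)⁻¹ := by group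
    _ = d := by rw [a, b, mul_inv_cancel_right]

theorem inv_of_zp {x y : G} (x3 : x ^ 3 = 1) (hy : y ∈ zpowers x) (y1 : y ≠ 1) (yx : y ≠ x) :
    y = x⁻¹ := by
  obtain ⟨n, rfl⟩ := hy
  have h3 : ∀ j : ℤ, x ^ (3 * j) = 1 := fun j => by rw [zpow_mul, zpow_ofNat, x3, one_zpow]
  have : ∃ j : ℤ, n = 3 * j ∨ n = 3 * j + 1 ∨ n = 3 * j - 1 :=
    ⟨(n + 1) / 3, by omega⟩
  obtain ⟨j, rfl | rfl | rfl⟩ := this
  · exact absurd (h3 j) y1
  · exact absurd (by simp only [zpow_add, h3, one_mul, zpow_one]) yx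
  · simp only [zpow_sub, h3, one_mul, zpow_one]

theorem comm_sq {t x : G} (h : t * x * t⁻¹ = x⁻¹) : Commute (t * t) x := by
  have h' : t * x⁻¹ * t⁻¹ = x := by
    rw [show t * x⁻¹ * t⁻¹ = (t * x * t⁻¹)⁻¹ by group, h, inv_inv]
  calc t * t * x = t * (t * x * t⁻¹) * t⁻¹ * (t * t) := by group
    _ = x * (t * t) := by rw [h, h']

theorem ne_inv {x : G} (x3 : x ^ 3 = 1) (x1 : x ≠ 1) : x⁻¹ ≠ x := fun e => x1 (by
  rw [pow_succ, pow_two] at x3
  nth_rw 1 [← e] at x3
  rwa [inv_mul_cancel, one_mul] at x3)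

theorem three_dvd (p : ℕ) : 3 ∣ p * (p ^ 2 - 1) := by
  rcases p with _ | q
  · simp
  · rw [show (q + 1) ^ 2 - 1 = q * (q + 2) from Nat.sub_eq_of_eq_add (by ring)]
    have : q % 3 = 0 ∨ (q + 1) % 3 = 0 ∨ (q + 2) % 3 = 0 := by omega
    rcases this with h | h | h
    · exact ((Nat.dvd_of_mod_eq_zero h).mul_right _).mul_left _
    · exact (Nat.dvd_of_mod_eq_zero h).mul_right _
    · exact ((Nat.dvd_of_mod_eq_zero h).mul_left _).mul_left _

theorem cyc_S2 {p : ℕ} [hp : Fact p.Prime] [hr : Fact r.Prime] (h2 : r ≠ 2) {R : Subgroup (S2 p)}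
    (hR : IsPGroup r R) : IsCyclic R := by
  by_cases e : r = p
  · subst e
    obtain ⟨k, hk⟩ := hR.exists_card_eq
    have h1 := R.card_subgroup_dvd_card
    rw [hk, H53.card_SL2_zmod] at h1
    have h3 : r.Coprime (r ^ 2 - 1) := by
      have : r ^ 2 - 1 + 1 = r * r := by
        rw [Nat.sub_add_cancel (Nat.one_le_pow _ _ hr.out.pos), pow_two]
      refine (Nat.Prime.coprime_iff_not_dvd hr.out).2 fun h => hr.out.one_lt.ne' ?_
      exact Nat.dvd_one.1 ((Nat.dvd_add_right h).1 (this ▸ dvd_mul_right r r))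
    exact isCyclic_of_card_dvd_prime (p := r)
      (hk ▸ (Nat.Coprime.pow_left k h3).dvd_of_dvd_mul_right h1)
  · obtain ⟨S, hS⟩ := hR.exists_le_sylow
    have := Cfsg.Agent.S0262.result p r h2 e S
    exact isCyclic_of_le hS

theorem core [Finite G] {p : ℕ} [hp : Fact p.Prime] (p7 : 7 ≤ p) (φ : G →* S2 p)
    (hs : Function.Surjective φ) (ho : Odd (Nat.card φ.ker))
    (min : ∀ M : Subgroup G, M.map φ = ⊤ → M = ⊤) (hU : UI G) (hC : CC 3 G) (hR : RR G) :
    Function.Injective φ := by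
  have : Fact (Nat.Prime 3) := ⟨Nat.prime_three⟩
  have nd : ∀ n : ℕ, 0 < n → n < 7 → (n : ZMod p) ≠ 0 := fun n a b e => by
    have := Nat.le_of_dvd a ((ZMod.natCast_eq_zero_iff n p).1 e); omega
  have c1 : (2 : ZMod p) ≠ 0 := by exact_mod_cast nd 2 (by norm_num) (by norm_num)
  have c2 : (2 : ZMod p) ^ 2 ≠ 1 := fun e => nd 3 (by norm_num) (by norm_num) (by
    push_cast; linear_combination e)
  have perf : commutator G = ⊤ := min _ (by
    rw [commutator_def, map_commutator, map_top_of_surjective φ hs, ← commutator_def]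
    exact H26.sl_commutator_eq_top (Or.inr ⟨2, c1, c2⟩))
  have sup : ∀ M : Subgroup G, φ.ker ⊔ M = ⊤ → M = ⊤ := fun M e => min M (by
    rw [← map_top_of_surjective φ hs, ← e, Subgroup.map_sup, (map_eq_bot_iff (f := φ) φ.ker).2 le_rfl,
      bot_sup_eq])
  obtain ⟨x, hx⟩ := exists_prime_orderOf_dvd_card' (G := G) 3
    (Dvd.dvd.trans (by rw [H53.card_SL2_zmod]; exact three_dvd p) (card_dvd_of_surjective φ hs))
  have x3 : x ^ 3 = 1 := hx ▸ pow_orderOf_eq_one x
  have x1 : x ≠ 1 := by rintro rfl; simp at hx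
  have xi : x⁻¹ ≠ x := ne_inv x3 x1
  obtain ⟨P, hP⟩ := (pg_zp x3).exists_le_sylow
  have xP : x ∈ P := hP (mem_zpowers x)
  have := hC.cyc (by norm_num) P.isPGroup'
  have : IsMulCommutative (P : Subgroup G) := IsCyclic.isMulCommutative
  obtain ⟨n, hn, ne⟩ : ∃ n ∈ normalizer (P : Set G), n⁻¹ * x * n ≠ x := by
    by_contra hh
    push Not at hh
    exact x1 (lemT perf P xP hh)
  have nx : n⁻¹ * x * n = x⁻¹ := by
    have m : n⁻¹ * x * n ∈ (P : Subgroup G) := by simpa using (mem_normalizer_iff.1 (inv_mem hn) x).1 xP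
    refine inv_of_zp x3 (hC _ _ (congrArg Subtype.val (this.is_comm.comm ⟨_, m⟩ ⟨_, xP⟩)) ?_ x3 x1)
      (fun e => x1 (by rw [← mul_right_inj n⁻¹, ← mul_left_inj n, e]; simp)) ne
    simpa [x3] using conj_pow (a := n⁻¹) (b := x) (i := 3)
  obtain ⟨k, m, hm, e⟩ := Nat.exists_eq_two_pow_mul_odd (orderOf_pos n).ne'
  obtain ⟨t, tx, tk⟩ : ∃ t : G, t * x * t⁻¹ = x⁻¹ ∧ t ^ 2 ^ k = 1 := by
    refine ⟨n⁻¹ ^ m, ?_, by rw [← pow_mul, mul_comm, ← e, inv_pow, pow_orderOf_eq_one, inv_one]⟩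
    obtain ⟨j, rfl⟩ := hm
    have c : Commute (n⁻¹ * n⁻¹) x := comm_sq (by rw [inv_inv, nx])
    rw [pow_succ', pow_mul, pow_two, mul_inv_rev, mul_assoc n⁻¹, (c.pow_left j).eq, ← nx]
    group
  have φx : φ x ≠ 1 := fun e => by
    obtain ⟨Q, hQ, l⟩ := exists_isSyl_ge (H := φ.ker) (pg_zp x3) (zpowers_le_of_mem e)
    have hN := sup _ (hQ.frattini le_top le_normalizer_of_normal)
    rw [top_inf_eq] at hN
    have : Q.Normal := normalizer_eq_top_iff.1 hN
    have := hC.cyc (by norm_num) hQ.isPGroup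
    exact xi (tx.symm.trans (cent_cyc perf Q t (l (mem_zpowers x))))
  have nc : ¬ Commute (φ t) (φ x) := fun c => ne_inv (by rw [← map_pow, x3, map_one]) φx (by
    rw [← map_inv, ← tx, map_mul, map_mul, c.eq, map_inv, mul_inv_cancel_right])
  have ttx : Commute (t * t) x := comm_sq tx
  have t4 : t ^ 4 = 1 := eq_one_of_odd ho (k := k)
    (by rw [MonoidHom.mem_ker, map_pow]; exact sl2_four (by simpa using ttx.map φ) nc)
    (by rw [← pow_mul, mul_comm, pow_mul, tk, one_pow])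
  have t2 : ∀ g : G, g * (t * t) = t * t * g := fun g => by
    by_cases e : t * t = 1
    · rw [e, mul_one, one_mul]
    have s : (t * t) ^ 2 = 1 := by rw [← t4, ← pow_two, ← pow_mul]
    rw [← mul_inv_eq_iff_eq_mul]
    exact hU _ _ (by rw [conj_pow, s, mul_one, mul_inv_cancel]) s (by simpa using e) e
  have cen : ∀ D : Subgroup G, D.Normal → D ≤ φ.ker → ∀ g : G, ∀ d ∈ D, g * d * g⁻¹ = d := by
    intro D
    induction D using WellFoundedLT.induction with
    | ind D ih =>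
      intro hD l g d hd
      by_cases e : D = ⊥
      · rw [e, mem_bot] at hd; simp [hd]
      have oD : Odd (Nat.card D) := ho.of_dvd_nat (card_dvd_of_le l)
      have lt : ⁅D, D⁆ < D := (commutator_le_left D D).lt_of_ne fun k => by
        have := Subgroup.isPerfect_iff.2 k
        have := (nontrivial_iff_ne_bot D).2 e
        exact Group.IsPerfect.not_isSolvable (G := D) (Cfsg.Agent.S0205.result oD)
      have hc := ih _ lt inferInstance (lt.le.trans l)
      have xC : x ∈ centralizer (D : Set G) := fun y hy =>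
        (mul_inv_eq_iff_eq_mul.1 (cent_x hR oD hc x3 x1 tx t2 hy)).symm
      have : ((centralizer (D : Set G)).map φ).Normal := Normal.map inferInstance φ hs
      rcases H36.sl2_normal c1 c2 ((centralizer (D : Set G)).map φ) with a | a
      · have : g ∈ centralizer (D : Set G) := min _ a ▸ mem_top g
        rw [← this d hd, mul_inv_cancel_right]
      · exact absurd (mem_center_iff.1 (a (mem_map_of_mem φ xC)) _) nc
  rw [← MonoidHom.ker_eq_bot_iff]
  by_contra hk
  obtain ⟨r, hr, hd⟩ := Nat.exists_prime_and_dvd (mt card_eq_one.1 hk)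
  have := Fact.mk hr
  have r2 : r ≠ 2 := by rintro rfl; exact ho.not_two_dvd_nat hd
  obtain ⟨y, hy⟩ := exists_prime_orderOf_dvd_card' (G := φ.ker) r hd
  have yr : y.1 ^ r = 1 := congrArg Subtype.val (hy ▸ pow_orderOf_eq_one y)
  obtain ⟨S, hS⟩ := (pg_zp yr).exists_le_sylow
  have := cyc_S2 r2 (S.isPGroup'.map φ)
  have : IsMulCommutative (S : Subgroup G) :=
    (φ.subgroupMap S).isMulCommutative_of_isCyclic_of_ker_le_center fun s hs =>
      mem_center_iff.2 fun g => Subtype.ext (mul_inv_eq_iff_eq_mul.1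
        (cen _ inferInstance le_rfl g s (congrArg Subtype.val hs)))
  have := lemT perf S (hS (mem_zpowers _)) fun n _ => by
    simpa using cen _ inferInstance le_rfl n⁻¹ y y.2
  rw [show y = 1 from Subtype.ext this, orderOf_one] at hy
  exact hr.one_lt.ne hy

theorem eqns_Lin6A : True := by
  have := @CC.eq_1.{0}
  have := @UI.eq_1.{0}
  have := @RR.eq_1.{0}
  trivial

end Cfsg.Agent.H19.Lin6
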