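import Cfsg.Agent.H42.N7Defs
import Cfsg.Agent.H60.LTKitA
import Cfsg.Agent.H24.LTTr

/-! The case `T = ⟨t⟩ × D₈`: the standard facts, and an involution moving `t` to `t z`. -/

set_option autoImplicit false
set_option linter.unusedSectionVars false

namespace Cfsg.Agent.H19.N7

open Subgroup Cfsg.Agent.H85 Cfsg.Agent.H42.N7
open H60.LT (bp bp_xor bp_comm bp_mem cn_mul exists_sq_mem)

universe u

/-- `t ^ i * z ^ m * a ^ k * b ^ l` -/
structure M where
  i : Bool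
  m : Bool
  k : Bool
  l : Bool
  deriving DecidableEq, Fintype

instance : Mul M := ⟨fun x y => ⟨x.i ^^ y.i, (x.m ^^ y.m) ^^ (x.l && y.k), x.k ^^ y.k, x.l ^^ y.l⟩⟩
instance : One M := ⟨⟨false, false, false, false⟩⟩
instance : Inv M := ⟨fun x => ⟨x.i, x.m ^^ (x.l && x.k), x.k, x.l⟩⟩
instance : Group M := Group.ofLeftAxioms (by decide +kernel) (by decide) (by decide)

namespace M

def t : M := ⟨true, false, false, false⟩
def z : M := ⟨false, true, false, false⟩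
def a : M := ⟨false, false, true, false⟩
def b : M := ⟨false, false, false, true⟩

end M

variable {G : Type u} [Group G]

section Base

variable (h : Base G)

theorem mem_or (g : G) : g ∈ h.X ∨ g * h.t ∈ h.X := by
  have := h.Xn
  obtain ⟨x, hx, y, ⟨n, rfl⟩, rfl⟩ := mem_sup_of_normal_left.1 (h.XG.ge (mem_top g))
  rcases Int.even_or_odd' n with ⟨k, rfl | rfl⟩
  · exact Or.inl (by simpa [zpow_mul, sq, h.tt] using hx)
  · exact Or.inr (by simpa [zpow_add, zpow_mul, sq, h.tt, mul_assoc] using hx)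

theorem muX (x y : G) (hx : x ∉ h.X) (hy : y ∉ h.X) : x * y ∈ h.X := by
  have h1 := mul_mem ((mem_or h x).resolve_left hx)
    (h.Xn.conj_mem _ ((mem_or h y).resolve_left hy) h.t)
  rwa [mul_assoc h.t, mul_inv_cancel_right, ← mul_assoc, mul_assoc x, h.tt, mul_one] at h1

theorem cmX (x y : G) : x⁻¹ * y⁻¹ * x * y ∈ h.X := by
  by_cases e : x ∈ h.X
  · convert mul_mem (inv_mem e) (h.Xn.conj_mem' _ e y) using 1; group
  · convert muX h x⁻¹ (y⁻¹ * x * y) (by simpa using e) fun e' =>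
      e (by simpa [mul_assoc] using h.Xn.conj_mem _ e' y) using 1
    group

theorem X_le {N : Subgroup G} (hN : ∀ x ∈ h.X, ∀ y ∈ h.X, x⁻¹ * y⁻¹ * x * y ∈ N) : h.X ≤ N := by
  have := h.Xs
  have h1 : commutator h.X = ⊤ :=
    (inferInstance : (commutator h.X).Normal).eq_bot_or_eq_top.resolve_left
      fun e => h.Xa ((commutator_eq_bot_iff _).1 e)
  rw [← h.X.range_subtype, MonoidHom.range_eq_map, ← h1, map_subtype_commutator, commutator_le]
  exact fun x hx y hy => by simpa [commutatorElement_def] using hN _ (inv_mem hx) _ (inv_mem hy)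

end Base

theorem cn_eq {x g : G} (h : Commute x g) : cn x g = x := by
  rw [cn, mul_assoc, h.eq, inv_mul_cancel_left]

theorem comm_of_cn {x g : G} (h : cn x g = x) : Commute x g := by
  have := congrArg (g * ·) h
  simpa [cn, mul_assoc, Commute, SemiconjBy] using this

theorem cn_cn (x g k : G) : cn x (g * k) = cn (cn x g) k := by simp [cn, mul_assoc]

theorem isConj_cn (x g : G) : IsConj x (cn x g) := isConj_iff.2 ⟨g⁻¹, by simp [cn]⟩

theorem cc_eq {p q r p' q' r' g : G} (h1 : cn p g = p' * q') (h2 : cn q g = q')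
    (h3 : cn r g = r' ∨ cn r g = r' * q') : cc {p, q, r} = cc {p', q', r'} := by
  rw [cc, cc, ← card_cj g⁻¹ (centralizer {p, q, r})]
  congr 2
  ext c
  have k : ∀ u : G, u * (g⁻¹⁻¹ * c * g⁻¹) = g⁻¹⁻¹ * c * g⁻¹ * u ↔ Commute (cn u g) c := fun u =>
    ⟨fun e => by
      simpa [Commute, SemiconjBy, cn, mul_assoc] using congrArg (fun w => g⁻¹ * w * g) e,
    fun e => by simpa [cn, mul_assoc] using congrArg (fun w => g * w * g⁻¹) e.eq⟩
  have k' : ∀ u : G, Commute q' c → (Commute (u * q') c ↔ Commute u c) := fun u e =>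
    ⟨fun e' => by simpa only [mul_inv_cancel_right] using e'.mul_left e.inv_left,
      fun e' => e'.mul_left e⟩
  simp only [mem_cj, mem_centralizer_iff, Set.mem_insert_iff, Set.mem_singleton_iff,
    forall_eq_or_imp, forall_eq, k, h1, h2]
  rcases h3 with h3 | h3 <;> rw [h3]
  · exact ⟨fun e => ⟨(k' _ e.2.1).1 e.1, e.2⟩, fun e => ⟨(k' _ e.2.1).2 e.1, e.2⟩⟩
  · exact ⟨fun e => ⟨(k' _ e.2.1).1 e.1, e.2.1, (k' _ e.2.1).1 e.2.2⟩,
      fun e => ⟨(k' _ e.2.1).2 e.1, e.2.1, (k' _ e.2.1).2 e.2.2⟩⟩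

variable (h : C1 G)

theorem zab : h.z = h.a⁻¹ * h.b⁻¹ * h.a * h.b := by
  rw [mul_assoc, mul_assoc, ← mul_assoc h.b⁻¹, show h.b⁻¹ * h.a * h.b = _ from h.ab]
  group

theorem aL : h.a ∈ h.L := (h.LiT.ge (subset_closure (by simp))).1
theorem bL : h.b ∈ h.L := (h.LiT.ge (subset_closure (by simp))).1
theorem zL : h.z ∈ h.L :=
  zab h ▸ mul_mem (mul_mem (mul_mem (inv_mem (aL h)) (inv_mem (bL h))) (aL h)) (bL h)

theorem tz : Commute h.t h.z :=
  zab h ▸ ((h.ta.inv_right.mul_right h.tb.inv_right).mul_right h.ta).mul_right h.tb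

theorem ba : h.b * h.a = h.z * (h.a * h.b) := by
  rw [← mul_assoc, h.za.eq, ← h.ab, cn, inv_eq_of_mul_eq_one_right h.bb, mul_assoc _ h.b, h.bb,
    mul_one]

/-- the model of `T` -/
def φ : M →* G := MonoidHom.mk'
  (fun x => bp x.i h.t * bp x.m h.z * (bp x.k h.a * bp x.l h.b)) fun x y => by
    have c : ∀ i m k l, Commute (bp i h.t * bp m h.z) (bp k h.a * bp l h.b) :=
      fun i m k l => ((bp_comm h.ta _ _).mul_right (bp_comm h.tb _ _)).mul_left
        ((bp_comm h.za _ _).mul_right (bp_comm h.zb _ _))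
    have d : bp x.l h.b * bp y.k h.a = bp (x.l && y.k) h.z * (bp y.k h.a * bp x.l h.b) := by
      cases x.l <;> cases y.k <;> simp [bp, ba]
    change bp (x.i ^^ y.i) h.t * bp ((x.m ^^ y.m) ^^ (x.l && y.k)) h.z *
      (bp (x.k ^^ y.k) h.a * bp (x.l ^^ y.l) h.b) = _
    rw [(c _ _ _ _).symm.mul_mul_mul_comm, (bp_comm (tz h) _ _).symm.mul_mul_mul_comm,
      bp_xor h.tt, bp_xor h.zz, bp_xor h.zz, bp_xor h.aa, bp_xor h.bb,
      mul_assoc (bp x.k h.a) (bp x.l h.b), ← mul_assoc (bp x.l h.b) (bp y.k h.a), d]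
    simp only [mul_assoc]
    rw [(bp_comm h.za _ _).left_comm]

theorem φ_apply (x : M) : φ h x = bp x.i h.t * bp x.m h.z * (bp x.k h.a * bp x.l h.b) := rfl

theorem φ_t : φ h M.t = h.t := by simp [φ_apply, bp, M.t]
theorem φ_z : φ h M.z = h.z := by simp [φ_apply, bp, M.z]
theorem φ_a : φ h M.a = h.a := by simp [φ_apply, bp, M.a]
theorem φ_b : φ h M.b = h.b := by simp [φ_apply, bp, M.b]

theorem φ_mem_L {x : M} : φ h x ∈ h.L ↔ x.i = false := by
  rw [φ_apply, mul_assoc, mul_mem_cancel_right (mul_mem (bp_mem (zL h) _)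
    (mul_mem (bp_mem (aL h) _) (bp_mem (bL h) _)))]
  cases x.i <;> simp [bp, h.tL]

theorem φ_inj : Function.Injective (φ h) := (injective_iff_map_eq_one _).2 fun x hx => by
  have k : ∀ x : M, x.i = false → x = 1 ∨ x = M.z ∨ ∃ y, x⁻¹ * y⁻¹ * x * y = M.z := by
    decide
  rcases k x ((φ_mem_L h).1 (hx ▸ h.L.one_mem)) with e | rfl | ⟨y, e⟩
  · exact e
  · exact absurd (φ_z h ▸ hx) h.z1
  · exact absurd (by simpa [hx, φ_z] using (congrArg (φ h) e).symm) h.z1

theorem tT : h.t ∈ h.T := h.hT ▸ subset_closure (by simp)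
theorem aT : h.a ∈ h.T := h.hT ▸ subset_closure (by simp)
theorem bT : h.b ∈ h.T := h.hT ▸ subset_closure (by simp)
theorem zT : h.z ∈ h.T :=
  zab h ▸ mul_mem (mul_mem (mul_mem (inv_mem (aT h)) (inv_mem (bT h))) (aT h)) (bT h)

theorem range_φ : (φ h).range = h.T := by
  refine le_antisymm ?_ (h.hT ▸ (closure_le _).2 ?_)
  · rintro _ ⟨x, rfl⟩
    exact mul_mem (mul_mem (bp_mem (tT h) _) (bp_mem (zT h) _))
      (mul_mem (bp_mem (aT h) _) (bp_mem (bT h) _))
  · rintro _ (rfl | rfl | rfl)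
    exacts [⟨_, φ_t h⟩, ⟨_, φ_a h⟩, ⟨_, φ_b h⟩]

theorem mem_T {u : G} : u ∈ h.T ↔ ∃ x, φ h x = u := by rw [← range_φ]; rfl

theorem mem_E1 {u : G} : u ∈ h.E1 ↔ ∃ x : M, x.l = false ∧ φ h x = u := by
  constructor
  · intro hu
    induction hu using closure_induction with
    | mem x hx =>
      rcases hx with rfl | rfl | rfl
      exacts [⟨_, rfl, φ_t h⟩, ⟨_, rfl, φ_z h⟩, ⟨_, rfl, φ_a h⟩]
    | one => exact ⟨1, rfl, map_one _⟩
    | mul x y _ _ hx hy =>
      obtain ⟨x, hx, rfl⟩ := hx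
      obtain ⟨y, hy, rfl⟩ := hy
      exact ⟨x * y, by change (x.l ^^ y.l) = false; rw [hx, hy]; rfl, map_mul _ _ _⟩
    | inv x _ hx =>
      obtain ⟨x, hx, rfl⟩ := hx
      exact ⟨x⁻¹, hx, map_inv _ _⟩
  · rintro ⟨x, hx, rfl⟩
    rw [φ_apply, hx]
    exact mul_mem (mul_mem (bp_mem (subset_closure (by simp)) _)
      (bp_mem (subset_closure (by simp)) _)) (mul_mem (bp_mem (subset_closure (by simp)) _) (one_mem _))

theorem card_T : Nat.card h.T = 16 := by
  rw [← range_φ, ← Nat.card_congr (MonoidHom.ofInjective (φ_inj h)).toEquiv,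
    Nat.card_eq_fintype_card]
  rfl

theorem comm_T {x y : G} (hx : x ∈ h.T) (hy : y ∈ h.T) :
    x⁻¹ * y⁻¹ * x * y = 1 ∨ x⁻¹ * y⁻¹ * x * y = h.z := by
  obtain ⟨x, rfl⟩ := (mem_T h).1 hx
  obtain ⟨y, rfl⟩ := (mem_T h).1 hy
  rw [← φ_z, ← map_one (φ h)]
  simp only [← map_inv, ← map_mul]
  exact ((by decide : ∀ x y : M, x⁻¹ * y⁻¹ * x * y = 1 ∨ x⁻¹ * y⁻¹ * x * y = M.z) x y).imp
    (congrArg _) (congrArg _)

theorem z_cn {g : G} (ha : cn h.a g ∈ h.T) (hb : cn h.b g ∈ h.T) : cn h.z g = h.z := by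
  have e : cn h.z g = (cn h.a g)⁻¹ * (cn h.b g)⁻¹ * cn h.a g * cn h.b g := by
    rw [zab h]; simp [cn, mul_assoc]
  refine e ▸ (comm_T h ha hb).resolve_left fun e' => h.z1 ?_
  rw [← e] at e'
  simpa [cn, mul_assoc] using congrArg (fun w => g * w * g⁻¹) e'

theorem zr2 : cn h.z (h.r * h.r) = h.a * h.z := by rw [cn_cn, h.zr, h.ar]

theorem azr : cn (h.a * h.z) h.r = h.z := by
  rw [cn_mul, h.ar, h.zr, mul_assoc, h.za.eq, ← mul_assoc, h.aa, one_mul]

variable [Finite G]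

theorem into (u : G) (R : Subgroup G) (hu : IsConj h.t u) (hR : IsPGroup 2 R)
    (hc : R ≤ centralizer {u}) : ∃ g : G, cn u g = h.t ∧ ∀ x ∈ R, cn x g ∈ h.T := by
  obtain ⟨k, rfl⟩ := isConj_iff.1 hu
  obtain ⟨c, hc1, hc2⟩ := h.syl.exists_cj_le (isPGroup_cj k⁻¹ hR) (fun x hx => by
    have := mem_centralizer_singleton_iff.1 (hc (mem_cj.1 hx))
    rw [mem_centralizer_singleton_iff]
    simpa [mul_assoc] using congrArg (· * k) this)
  refine ⟨k * c⁻¹, ?_, fun x hx => ?_⟩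
  · simp [cn, mul_assoc, ← mul_assoc c, mem_centralizer_singleton_iff.1 hc1]
  · simpa [cn, mul_assoc] using hc2 (conj_mem_cj (conj_mem_cj hx))

theorem zD (h1 : IsConj h.t h.z) : False := by
  obtain ⟨g, hg, hg'⟩ := into h h.z (closure {h.a, h.b}) h1
    (h.syl.isPGroup.to_le (h.LiT.ge.trans inf_le_right)) ((closure_le _).2 (by
      rintro _ (rfl | rfl)
      exacts [mem_centralizer_singleton_iff.2 h.za.symm, mem_centralizer_singleton_iff.2 h.zb.symm]))
  rw [z_cn h (hg' h.a (subset_closure (by simp))) (hg' h.b (subset_closure (by simp)))] at hg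
  exact h.tL (hg ▸ zL h)

theorem aut1 (c : G) (hc : c ∈ centralizer ({h.t} : Set G)) (hn : c ∈ normalizer (h.E1 : Set G)) :
    ∃ w ∈ closure ({h.b, h.r} : Set G), ∀ x ∈ h.E1, cn x c = cn x w := by
  have k : ∀ u ∈ h.E1, u ∈ h.L → u ≠ 1 → cn u c = h.z ∨ cn u c = h.a ∨ cn u c = h.a * h.z := by
    intro u h1 h2 h3
    obtain ⟨x, hx, e⟩ := (mem_E1 h).1 ((mem_normalizer_iff''.1 hn _).1 h1)
    have h4 : φ h x ∈ h.L := e ▸ (mem_normalizer_iff''.1 (h.Ln hc) _).1 h2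
    rw [show cn u c = φ h x from e.symm, ← φ_z, ← φ_a, ← map_mul]
    rcases (by decide : ∀ x : M, x.l = false → x.i = false →
      x = 1 ∨ x = M.z ∨ x = M.a ∨ x = M.a * M.z) x hx ((φ_mem_L h).1 h4) with rfl | rfl | rfl | rfl
    · exact absurd (by simpa [mul_assoc] using congrArg (fun w => c * w * c⁻¹) e.symm) h3
    all_goals simp
  have a1 : h.a ≠ 1 := fun e => h.z1 (by simpa [cn, e] using h.ab.symm)
  have az : h.a ≠ h.z := fun e => a1 (by
    have := h.ab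
    rwa [e, cn_eq h.zb, h.zz, ← e] at this)
  have ne : cn h.z c ≠ cn h.a c := fun e => az (by simpa [cn] using e.symm)
  have hb : h.b ∈ closure ({h.b, h.r} : Set G) := subset_closure (by simp)
  have hr : h.r ∈ closure ({h.b, h.r} : Set G) := subset_closure (by simp)
  have zb : cn h.z h.b = h.z := cn_eq h.zb
  suffices ∃ w ∈ closure ({h.b, h.r} : Set G), cn h.z c = cn h.z w ∧ cn h.a c = cn h.a w by
    obtain ⟨w, hw, e1, e2⟩ := this
    have hw' : w ∈ centralizer ({h.t} : Set G) := (closure_le _).2 (by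
      rintro _ (rfl | rfl)
      exacts [mem_centralizer_singleton_iff.2 h.tb.symm, mem_centralizer_singleton_iff.2 h.rt]) hw
    have e0 : cn h.t c = cn h.t w := by
      rw [cn_eq (mem_centralizer_singleton_iff.1 hc).symm,
        cn_eq (mem_centralizer_singleton_iff.1 hw').symm]
    refine ⟨w, hw, fun x hx => ?_⟩
    obtain ⟨x, hx', rfl⟩ := (mem_E1 h).1 hx
    simp only [φ_apply, cn_mul, H60.LT.bp_cn, e0, e1, e2, hx']
    simp [bp]
  rcases k h.z (subset_closure (by simp)) (zL h) h.z1 with e | e | e <;>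
    rcases k h.a (subset_closure (by simp)) (aL h) a1 with e' | e' | e' <;>
    first
      | exact absurd (e.trans e'.symm) ne
      | rw [e, e']
  · exact ⟨1, one_mem _, by simp [cn], by simp [cn]⟩
  · exact ⟨h.b, hb, zb.symm, h.ab.symm⟩
  · exact ⟨h.b * h.r, mul_mem hb hr, by rw [cn_cn, zb, h.zr], by rw [cn_cn, h.ab, azr]⟩
  · exact ⟨h.r, hr, h.zr.symm, h.ar.symm⟩
  · exact ⟨h.r * h.r, mul_mem hr hr, (zr2 h).symm, by rw [cn_cn, h.ar, azr]⟩
  · exact ⟨h.b * (h.r * h.r), mul_mem hb (mul_mem hr hr), by rw [cn_cn, zb, zr2],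
      by rw [cn_cn, h.ab, cn_cn, azr, h.zr]⟩

theorem sylE1 : IsSyl 2 h.E1 (centralizer (h.E1 : Set G)) := by
  have ht : h.t ∈ h.E1 := subset_closure (by simp)
  have h1 : h.T ≤ normalizer (h.E1 : Set G) := fun g hg => mem_normalizer_of_cj_le (by
    rintro _ ⟨u, hu, rfl⟩
    obtain ⟨x, hx, rfl⟩ := (mem_E1 h).1 hu
    obtain ⟨y, rfl⟩ := (mem_T h).1 hg
    exact (mem_E1 h).2 ⟨y * x * y⁻¹, (by decide : ∀ x y : M, x.l = false →
      (y * x * y⁻¹).l = false) x y hx, by simp⟩)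
  have h2 := (h.syl.of_le (le_inf h.syl.le h1) inf_le_left).inf_of_le_normalizer
    (N := centralizer (h.E1 : Set G)) (le_inf (centralizer_le (Set.singleton_subset_iff.2 ht))
      (centralizer_le_normalizer _)) (inf_le_right.trans fun g hg => mem_normalizer_of_cj_le (by
        rintro _ ⟨u, hu, rfl⟩ v hv
        have := hu _ ((mem_normalizer_iff''.1 hg v).1 hv)
        simpa [mul_assoc] using congrArg (fun w => g * w * g⁻¹) this))
  convert h2 using 1
  refine le_antisymm (fun u hu => ?_) fun u hu => ?_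
  · obtain ⟨x, hx, rfl⟩ := (mem_E1 h).1 hu
    refine ⟨(mem_T h).2 ⟨x, rfl⟩, fun v hv => ?_⟩
    obtain ⟨y, hy, rfl⟩ := (mem_E1 h).1 hv
    rw [← map_mul, ← map_mul, (by decide : ∀ x y : M, x.l = false → y.l = false →
      y * x = x * y) x y hx hy]
  · obtain ⟨x, rfl⟩ := (mem_T h).1 hu.1
    have := hu.2 h.a (subset_closure (by simp))
    rw [← φ_a, ← map_mul, ← map_mul] at this
    exact (mem_E1 h).2 ⟨x, (by decide : ∀ x : M, M.a * x = x * M.a → x.l = false) x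
      (φ_inj h this), rfl⟩

omit [Finite G] in
theorem two_zp {c : G} {n : ℕ} (hc : c ^ 2 ^ n = 1) : IsPGroup 2 (zpowers c) := by
  rintro ⟨_, k, rfl⟩
  exact ⟨n, Subtype.ext (by
    show (c ^ k) ^ 2 ^ n = 1
    rw [← zpow_natCast, ← zpow_mul, mul_comm, zpow_mul, zpow_natCast, hc, one_zpow])⟩

theorem cenT (c : G) (n : ℕ) (hc : c ^ 2 ^ n = 1) (h1 : Commute c h.t) (h2 : Commute c h.a)
    (h3 : Commute c h.b) : c = 1 ∨ c = h.z ∨ c = h.t ∨ c = h.t * h.z := by
  have h4 : c ∈ centralizer (h.T : Set G) := by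
    rw [h.hT, centralizer_closure]
    rintro _ (rfl | rfl | rfl)
    exacts [h1.symm, h2.symm, h3.symm]
  obtain ⟨x, rfl⟩ := (mem_T h).1 (h.syl.ge_of_le_normalizer' (two_zp hc)
    (zpowers_le.2 (mem_centralizer_singleton_iff.2 h1))
    (zpowers_le.2 (centralizer_le_normalizer _ h4)) (mem_zpowers c))
  rw [← φ_a, Commute, SemiconjBy, ← map_mul, ← map_mul] at h2
  rw [← φ_b, Commute, SemiconjBy, ← map_mul, ← map_mul] at h3
  rw [← φ_z, ← φ_t, ← map_mul, ← map_one (φ h)]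
  rcases (by decide : ∀ x : M, x * M.a = M.a * x → x * M.b = M.b * x →
    x = 1 ∨ x = M.z ∨ x = M.t ∨ x = M.t * M.z) x (φ_inj h h2) (φ_inj h h3) with e | e | e | e <;>
    simp [e]

omit h [Finite G] in
/-- **KIT1** -/
theorem kit1 : Kit1Stmt.{u} := by
  intro G _ _ h
  have hz : h.z ∈ h.X := zab h ▸ cmX h.toBase _ _
  have a1 : h.a ≠ 1 := fun e => h.z1 (by simpa [cn, e] using h.ab.symm)
  refine ⟨⟨h.zr ▸ h.Xn.conj_mem' _ hz _, h.zs ▸ h.Xn.conj_mem' _ hz _, hz⟩, cmX h.toBase, tz h,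
    ⟨a1, fun e => a1 ?_, fun e => h.tL (h.LiT.ge e).1⟩, card_T h, zD h, into h,
    fun E hE h2 => ?_, aut1 h, sylE1 h, cenT h, fun Q S hS ht hQ hC => ?_,
    fun S N hS hN h2 h3 => ?_, fun S hS =>
      hS.inf_of_le_normalizer le_top (normalizer_eq_top_iff.2 h.Xn).ge⟩
  · have := h.ab
    rwa [e, cn_eq h.zb, h.zz, ← e] at this
  · have h1 := card_dvd_of_le hE
    rw [card_T] at h1
    obtain ⟨k, hk, e⟩ := (Nat.dvd_prime_pow Nat.prime_two (m := 4)).1 h1
    have : k ≠ 4 := fun e' => by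
      have h3 := h2 _ ((eq_of_le_of_card_ge hE (by rw [card_T, e, e']; norm_num)).ge
        (mul_mem (aT h) (bT h)))
      rw [← φ_a, ← φ_b, ← map_mul, ← map_mul, ← map_one (φ h)] at h3
      exact absurd (φ_inj h h3) (by decide)
    rw [e]
    interval_cases k <;> simp_all
  · obtain ⟨g, hg, hg'⟩ := SetLike.exists_of_lt (lt_inf_normalizer_of_lt hS hQ)
    obtain ⟨n, hn⟩ := hS ⟨g, hg.1⟩
    obtain ⟨k, hk, hk'⟩ := exists_sq_mem hg' (show g ^ 2 ^ n ∈ Q by
      rw [show g ^ 2 ^ n = 1 from congrArg Subtype.val hn]; exact one_mem _)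
    refine ⟨g ^ k, pow_mem hg.1 k, hk, pow_mem hg.2 k, hk', fun q hq e => hk ?_⟩
    refine (mul_mem_cancel_right (inv_mem hq)).1 (hC ⟨S.mul_mem (S.pow_mem hg.1 k)
      (S.inv_mem (hQ.le hq)), mem_centralizer_singleton_iff.2 ?_⟩)
    calc g ^ k * q⁻¹ * h.t = g ^ k * cn h.t q * q⁻¹ := by simp [cn, mul_assoc]
      _ = _ := by rw [← e]; simp [cn, mul_assoc]
  · have mu : ∀ x ∈ S, ∀ y ∈ S, x * y ∈ N ↔ (x ∈ N ↔ y ∈ N) := fun x hx y hy =>
      mul_mem_iff_of_index_two (H := N.subgroupOf S) h2 (a := ⟨x, hx⟩) (b := ⟨y, hy⟩)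
    obtain ⟨K, -, hK, hK'⟩ := H24.LT.trStmt G ⊤ S N hS hN fun x hx y hy => by
      rw [mu _ (mul_mem (mul_mem (inv_mem hx) (inv_mem hy)) hx) _ hy,
        mu _ (mul_mem (inv_mem hx) (inv_mem hy)) _ hx, mu _ (inv_mem hx) _ (inv_mem hy),
        inv_mem_iff, inv_mem_iff]
      tauto
    have hX := X_le h.toBase fun x _ y _ => hK x trivial y trivial
    obtain ⟨c, hc, hc'⟩ : ∃ c ∈ S, c ∉ N := by
      by_contra H
      push Not at H
      rw [relIndex_eq_one.2 H] at h2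
      omega
    exact fun e => hc' ((hK' h.t c h.T h.tt (tT h) le_top h.syl.isPGroup h.syl.le hc
      fun g _ hg => (mu _ (inv_mem hc) _ (hg _ (tT h))).2 (by simp [hc', h3 g])).1 (hX e))

/-- the involutions of `T` -/
theorem inv_T {u : G} (hu : u ∈ h.T) (h2 : u * u = 1) (h1 : u ≠ 1) (ht : u ≠ h.t) :
    (u = h.z ∨ (u = h.a ∨ u = h.a * h.z) ∨ u = h.b ∨ u = h.b * h.z) ∨ IsConj (h.t * h.z) u := by
  obtain ⟨x, rfl⟩ := (mem_T h).1 hu
  rw [← map_mul, ← map_one (φ h)] at h2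
  have k : ∀ {w d : G}, Commute w h.t → cn h.z w = d → IsConj (h.t * h.z) (h.t * d) :=
    fun {w d} e e' => by
      have := isConj_cn (h.t * h.z) w
      rwa [cn_mul, cn_eq e.symm, e'] at this
  rcases (by decide : ∀ x : M, x * x = 1 → x = 1 ∨ x = M.t ∨ x = M.z ∨ x = M.a ∨ x = M.a * M.z ∨
    x = M.b ∨ x = M.b * M.z ∨ x = M.t * M.z ∨ x = M.t * M.a ∨ x = M.t * (M.a * M.z) ∨
    x = M.t * M.b ∨ x = M.t * (M.b * M.z)) x (φ_inj h h2) with
    e | e | e | e | e | e | e | e | e | e | e | e <;>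
    simp only [e, map_mul, map_one, φ_t, φ_z, φ_a, φ_b] at h1 ht ⊢
  · exact absurd rfl h1
  · exact absurd rfl ht
  · simp
  · simp
  · simp
  · simp
  · simp
  · exact Or.inr (IsConj.refl _)
  · exact Or.inr (k h.rt h.zr)
  · exact Or.inr (k (h.rt.mul_left h.rt) (zr2 h))
  · exact Or.inr (k h.st h.zs)
  · exact Or.inr (k (h.st.mul_left h.st) (zr2 h.mir))

omit h [Finite G] in
/-- **CX** -/
theorem cx (zs : ZsStmt.{u}) (n1 : N1Stmt.{u}) : CXStmt.{u} := by
  intro G _ _ h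
  have za : IsConj h.z h.a := h.zr ▸ isConj_cn _ _
  have zb : IsConj h.z h.b := h.zs ▸ isConj_cn _ _
  have h0 : IsConj h.t (h.t * h.z) := by
    obtain ⟨u, hu, ne, hc⟩ := zs G h.toBase h.T h.syl
    obtain ⟨k, rfl⟩ := isConj_iff.1 hc
    rcases inv_T h hu (by rw [conj_mul, h.tt]; simp) (by simpa using h.t1) ne with
      (e | (e | e) | e | e) | e
    · exact (zD h (e ▸ hc)).elim
    · exact (zD h ((e ▸ hc).trans za.symm)).elim
    · exact (zD h ((e ▸ hc).trans (zr2 h ▸ isConj_cn _ _).symm)).elim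
    · exact (zD h ((e ▸ hc).trans zb.symm)).elim
    · exact (zD h ((e ▸ hc).trans (show IsConj h.z (h.b * h.z) from
        zr2 h.mir ▸ isConj_cn _ _).symm)).elim
    · exact hc.trans e.symm
  obtain ⟨g, hg, hg'⟩ := into h _ h.T h0 h.syl.isPGroup (by
    rw [h.hT, closure_le]
    rintro _ (rfl | rfl | rfl)
    exacts [mem_centralizer_singleton_iff.2 ((Commute.refl _).mul_right (tz h)),
      mem_centralizer_singleton_iff.2 (h.ta.symm.mul_right h.za.symm),
      mem_centralizer_singleton_iff.2 (h.tb.symm.mul_right h.zb.symm)])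
  have gN : g ∈ normalizer (h.T : Set G) := inv_mem_iff.1 (mem_normalizer_of_cj_le (by
    rintro _ ⟨u, hu, rfl⟩
    simpa [cn] using hg' u hu))
  have zn : ∀ n ∈ normalizer (h.T : Set G), cn h.z n = h.z := fun n hn =>
    z_cn h ((mem_normalizer_iff''.1 hn _).1 (aT h)) ((mem_normalizer_iff''.1 hn _).1 (bT h))
  have tg : cn h.t g = h.t * h.z := by
    rw [cn_mul, zn g gN] at hg
    rw [eq_mul_inv_of_mul_eq hg, inv_eq_of_mul_eq_one_right h.zz]
  obtain ⟨n, m, ⟨j, rfl⟩, e⟩ := Nat.exists_eq_two_pow_mul_odd (orderOf_pos g).ne'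
  have yN := pow_mem gN (2 * j + 1)
  have y2 : (g ^ (2 * j + 1)) ^ 2 ^ n = 1 := by
    rw [← pow_mul, mul_comm, ← e, pow_orderOf_eq_one]
  have ty : cn h.t (g ^ (2 * j + 1)) = h.t * h.z := by
    rw [pow_succ, pow_mul, cn_cn, cn_eq (Commute.pow_right (comm_of_cn (by
      rw [sq, cn_cn, tg, hg])) j), tg]
  generalize g ^ (2 * j + 1) = y at yN y2 ty
  have P2 : IsPGroup 2 (h.T ⊔ zpowers y : Subgroup G) :=
    h.syl.isPGroup.to_sup_of_normal_left' (two_zp y2) (zpowers_le.2 yN)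
  have k : ∀ u ∈ h.T, u * u = 1 → IsConj h.z u → u ≠ h.z → (cn u y = h.a ∨ cn u y = h.a * h.z) ∨
      cn u y = h.b ∨ cn u y = h.b * h.z := fun u hu u2 hc ne => by
    have c1 := hc.trans (isConj_cn u y)
    rcases inv_T h ((mem_normalizer_iff''.1 yN _).1 hu) (by rw [← cn_mul, u2]; simp [cn])
      (fun e => h.z1 (isConj_one_left.1 (e ▸ c1))) (fun e => zD h ((show cn u y = h.t from e) ▸ c1).symm) with (e | e) | e
    · exact absurd (by simpa [cn] using e.trans (zn y yN).symm) ne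
    · exact e
    · exact (zD h ((h0.trans e).trans c1.symm)).elim
  have ha : cn h.a y = h.a ∨ cn h.a y = h.a * h.z := (k h.a (aT h) h.aa za (kit1 G h).ne.2.1).resolve_right
    fun e => n1 G h (cc_eq ty (zn y yN) e)
  have hb : cn h.b y = h.b ∨ cn h.b y = h.b * h.z :=
    (k h.b (bT h) h.bb zb (kit1 G h.mir).ne.2.1).resolve_left fun e =>
      n1 G h (cc_eq ty (zn y yN) e).symm
  have ab : cn (h.a * h.z) h.b = h.a := by rw [cn_mul, h.ab, cn_eq h.zb, mul_assoc, h.zz, mul_one]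
  have ba : cn (h.b * h.z) h.a = h.b := by
    rw [cn_mul, show cn h.b h.a = h.b * h.z from h.mir.ab, cn_eq h.za, mul_assoc, h.zz, mul_one]
  obtain ⟨w, hw, wa, wb⟩ : ∃ w ∈ h.T, cn h.a (y * w) = h.a ∧ cn h.b (y * w) = h.b := by
    rcases ha with ha | ha <;> rcases hb with hb | hb
    · exact ⟨1, one_mem _, by simpa using ha, by simpa using hb⟩
    · exact ⟨h.a, aT h, by rw [cn_cn, ha, cn_eq (Commute.refl _)], by rw [cn_cn, hb, ba]⟩
    · exact ⟨h.b, bT h, by rw [cn_cn, ha, ab], by rw [cn_cn, hb, cn_eq (Commute.refl _)]⟩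
    · exact ⟨h.b * h.a, mul_mem (bT h) (aT h), by rw [cn_cn, ha, cn_cn, ab, cn_eq (Commute.refl _)],
        by rw [cn_cn, hb, cn_cn, cn_eq ((Commute.refl _).mul_left h.zb), ba]⟩
  have xN := mul_mem yN (le_normalizer hw)
  have tx : cn h.t (y * w) = h.t * h.z := by
    rw [cn_cn, ty, cn_mul, zn w (le_normalizer hw),
      cn_eq (mem_centralizer_singleton_iff.1 (h.syl.le hw)).symm]
  obtain ⟨n', hn'⟩ := P2 ⟨y * w, mul_mem (mem_sup_right (mem_zpowers y)) (mem_sup_left hw)⟩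
  replace hn' : (y * w) ^ 2 ^ n' = 1 := congrArg Subtype.val hn'
  generalize y * w = x at xN tx hn' wa wb
  have xa := (comm_of_cn wa).symm
  have xb := (comm_of_cn wb).symm
  have tzx : cn (h.t * h.z) x = h.t := by rw [cn_mul, tx, zn x xN, mul_assoc, h.zz, mul_one]
  have nt : h.t * h.z ≠ h.t := by simpa using h.z1
  rcases cenT h (x * x) n' (by rw [← sq, ← pow_mul, mul_comm, pow_mul, hn', one_pow])
    (comm_of_cn (by rw [cn_cn, tx, tzx])).symm (xa.mul_left xa) (xb.mul_left xb) with e | e | e | e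
  · exact ⟨⟨h, x, tx, e, xa, xb⟩⟩
  · refine ⟨⟨h, x * h.t, ?_, ?_, xa.mul_left h.ta, xb.mul_left h.tb⟩⟩
    · rw [cn_cn, tx, cn_eq ((Commute.refl _).mul_left (tz h).symm)]
    · calc x * h.t * (x * h.t) = x * x * cn h.t x * h.t := by simp [cn, mul_assoc]
        _ = 1 := by
          rw [e, tx, mul_assoc, mul_assoc, ← (tz h).eq, ← mul_assoc h.t, h.tt, one_mul, h.zz]
  · exact absurd (tx.symm.trans (cn_eq (e ▸ (Commute.refl x).mul_left (Commute.refl x)))) nt
  · exact absurd ((cn_eq (e ▸ (Commute.refl x).mul_left (Commute.refl x))).symm.trans tzx) nt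

omit h [Finite G] in
theorem eqns_kit : True := by
  have := @M.t.eq_1
  have := @M.z.eq_1
  have := @M.a.eq_1
  have := @M.b.eq_1
  have := @φ.eq_1.{0}
  trivial

end Cfsg.Agent.H19.N7
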