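import Cfsg.Agent.H79.R3Defs
import Cfsg.Agent.H11.Irr

/-! The piece `ONE` of the project on rank three actions. -/

set_option autoImplicit false

namespace Cfsg.Agent.H19.R3O
open Cfsg Cfsg.Agent.H79.R3 Cfsg.Agent.H11

universe w

theorem decomp {G : Type w} [Group G] [Fintype G] {θ : G → ℂ} (hθ : IsCharacter G θ)
    (h3 : classInner θ θ = 3) (h1 : classInner θ 1 = 1) :
    ∃ χ ψ : G → ℂ, IsIrrCharacter G χ ∧ χ ≠ 1 ∧ IsIrrCharacter G ψ ∧ ψ ≠ 1 ∧ θ = 1 + χ + ψ := by
  have i1 : IsIrrCharacter G (1 : G → ℂ) := isIrrCharacter_one'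
  have c : ∀ {a b : G → ℂ}, IsCharacter G a → IsCharacter G b → classInner a b = classInner b a :=
    fun ha hb => classInner_comm_of_isGen (isGen_of_isCharacter ha) (isGen_of_isCharacter hb)
  have hη := isCharacter_sub_irr hθ i1 (by rw [h1]; exact one_ne_zero)
  have e1 : classInner (θ - 1) 1 = 0 := by
    rw [classInner_sub_left, h1, classInner_irr_self i1, sub_self]
  have e2 : classInner (θ - 1) (θ - 1) = 2 := by
    rw [classInner_sub_left, c hθ hη, c isCharacter_one' hη, e1, classInner_sub_left, h3,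
      c isCharacter_one' hθ, h1]
    norm_num
  generalize hη' : θ - 1 = η at hη e1 e2
  obtain ⟨χ, hχ, hm⟩ := exists_irr_constituent hη fun h => by
    rw [h, classInner_zero_left] at e2; norm_num at e2
  have hψ := isCharacter_sub_irr hη hχ hm
  obtain ⟨m, em⟩ := exists_nat_classInner hη (isCharacter_of_irr hχ)
  obtain ⟨k, ek⟩ := exists_nat_classInner hψ hψ
  have e3 : classInner (η - χ) (η - χ) = 3 - 2 * m := by
    rw [classInner_sub_left, c hη hψ, c (isCharacter_of_irr hχ) hψ, classInner_sub_left,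
      classInner_sub_left, e2, c (isCharacter_of_irr hχ) hη, em, classInner_irr_self hχ]
    ring
  have m1 : m = 1 := by
    have h0 : m ≠ 0 := fun h => hm (by rw [em, h, Nat.cast_zero])
    have : ((k + 2 * m : ℕ) : ℂ) = (3 : ℕ) := by push_cast; rw [← ek, e3]; ring
    have := Nat.cast_injective this
    omega
  have χ1 : χ ≠ 1 := fun h => hm (h ▸ e1)
  refine ⟨χ, η - χ, hχ, χ1, isIrrCharacter_of_classInner_self hψ (by rw [e3, m1]; norm_num),
    fun h => ?_, by rw [← hη']; abel⟩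
  have := classInner_irr_self i1
  nth_rewrite 1 [← h] at this
  rw [classInner_sub_left, e1, classInner_irr_of_ne hχ i1 χ1] at this
  norm_num at this

theorem one (uni : UniStmt.{w}) : OneStmt.{w} := by
  intro G _ _ n p π fam hp θ k hθ h3 h1 hd
  obtain ⟨χ, ψ, hχ, χ1, hψ, ψ1, rfl⟩ := decomp hθ h3 h1
  have o : ∀ α : Fin n → ℕ, ∑ i, α i = n → classInner 1 (π α) = 1 := fun α h => by
    rw [classInner_comm_of_isGen (isGen_of_isCharacter isCharacter_one')
      (isGen_of_isCharacter (fam.ch α)), fam.one α h]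
  by_cases a : ∀ α : Fin n → ℕ, ∑ i, α i = n → classInner ψ (π α) = 0
  · exact ⟨χ, Or.inr ⟨hχ, χ1⟩, fun α h => by
      rw [classInner_add_left, classInner_add_left, o α h, a α h, add_zero]⟩
  by_cases b : ∀ α : Fin n → ℕ, ∑ i, α i = n → classInner χ (π α) = 0
  · exact ⟨ψ, Or.inr ⟨hψ, ψ1⟩, fun α h => by
      rw [classInner_add_left, classInner_add_left, o α h, b α h, add_zero]⟩
  push Not at a b
  obtain ⟨α, h, a⟩ := a
  obtain ⟨β, h', b⟩ := b
  obtain ⟨k1, e1⟩ := uni G n p π fam ψ α hψ ψ1 h a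
  obtain ⟨k2, e2⟩ := uni G n p π fam χ β hχ χ1 h' b
  rw [Pi.add_apply, Pi.add_apply, e1, e2, Pi.one_apply] at hd
  have e : 1 + k2 * p + k1 * p = k * p := by exact_mod_cast hd
  have : p ∣ 1 := (Nat.dvd_add_left (Dvd.intro_left k2 rfl)).1
    ((Nat.dvd_add_left (Dvd.intro_left k1 rfl)).1 (e ▸ Dvd.intro_left k rfl))
  have := Nat.le_of_dvd one_pos this
  omega

end Cfsg.Agent.H19.R3O
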