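import Mathlib
import Cfsg.Agent.H72.PF1
import Cfsg.Agent.H70.CharApi3
import Cfsg.Agent.H67.Hall
import Cfsg.Agent.H23.Over
import Cfsg.Agent.H12.Central
import Cfsg.Agent.H21.Basic

/-!
Odd-degree (real) irreducible characters of solvable groups and the normalizer of a Sylow
2-subgroup, in the ambient character language of `H70`.
-/

set_option autoImplicit false
set_option linter.unusedSectionVars false

namespace Cfsg.Agent.H19

open Cfsg Cfsg.Agent.H63 Cfsg.Agent.H67 Cfsg.Agent.H70 Cfsg.Agent.H72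
open scoped ComplexConjugate

universe u

theorem card_eq_sum_classes {γ δ : Type*} (Θ : Finset γ) (cl : γ → Finset γ)
    (hne : ∀ c, c ∈ cl c) (hcl : ∀ c, ∀ c' ∈ cl c, cl c' = cl c)
    (D : Finset δ) (R : δ → γ → Prop) [∀ a, DecidablePred (R a)]
    [∀ c, DecidablePred (fun a => R a c)] (hD : ∀ a ∈ D, ∃ c, Θ.filter (R a) = cl c) :
    (D.card : ℚ) = ∑ c ∈ Θ, ((D.filter (fun a => R a c)).card : ℚ) / (cl c).card := by
  have h1 : ∀ a ∈ D, (1 : ℚ) = ∑ c ∈ Θ, if R a c then (1 : ℚ) / (cl c).card else 0 := by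
    intro a ha
    obtain ⟨c0, hc0⟩ := hD a ha
    rw [← Finset.sum_filter, hc0, Finset.sum_congr rfl (fun c hc => by rw [hcl c0 c hc]),
      Finset.sum_const, nsmul_eq_mul]
    have : ((cl c0).card : ℚ) ≠ 0 := by
      exact_mod_cast (Finset.card_pos.2 ⟨c0, hne c0⟩).ne'
    field_simp
  rw [Finset.card_eq_sum_ones, Nat.cast_sum, Finset.sum_congr rfl
    (fun a ha => by rw [Nat.cast_one, h1 a ha]), Finset.sum_comm]
  refine Finset.sum_congr rfl fun c _ => ?_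
  rw [← Finset.sum_filter, Finset.sum_const, nsmul_eq_mul, mul_one_div]

/-- Double counting along the classes of an equivalence relation. -/
theorem card_eq_of_classes {α β γ : Type*} (A : Finset α) (B : Finset β) (Θ : Finset γ)
    (RA : α → γ → Prop) (RB : β → γ → Prop) (cl : γ → Finset γ)
    [∀ a, DecidablePred (RA a)] [∀ b, DecidablePred (RB b)]
    [∀ c, DecidablePred (fun a => RA a c)] [∀ c, DecidablePred (fun b => RB b c)]
    (hne : ∀ c, c ∈ cl c) (hcl : ∀ c, ∀ c' ∈ cl c, cl c' = cl c)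
    (hA : ∀ a ∈ A, ∃ c, Θ.filter (RA a) = cl c) (hB : ∀ b ∈ B, ∃ c, Θ.filter (RB b) = cl c)
    (h : ∀ c ∈ Θ, (A.filter (fun a => RA a c)).card = (B.filter (fun b => RB b c)).card) :
    A.card = B.card := by
  have h1 := card_eq_sum_classes Θ cl hne hcl A RA hA
  have h2 := card_eq_sum_classes Θ cl hne hcl B RB hB
  rw [Finset.sum_congr rfl fun c hc => by rw [h c hc], ← h2] at h1
  exact_mod_cast h1

theorem exists_fixed_of_odd_card {α : Type*} (s : Finset α) (f : α → α) (hs : Odd s.card)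
    (hm : ∀ a ∈ s, f a ∈ s) (hf : ∀ a, f (f a) = a) : ∃ a ∈ s, f a = a := by
  by_contra h
  push Not at h
  have := Finset.sum_involution (s := s) (f := fun _ => (1 : ZMod 2)) (fun a _ => f a)
    (fun _ _ => by decide) (fun a ha _ => h a ha) (fun a ha => hm a ha) (fun a _ => hf a)
  rw [Finset.sum_const, nsmul_eq_mul, mul_one, ZMod.natCast_eq_zero_iff_even] at this
  exact (Nat.not_even_iff_odd.2 hs) this

variable {G : Type u} [Group G] [Finite G] {X Y H K L P T : Subgroup G} {χ φ ψ θ μ : G → ℂ}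

theorem exists_nat_cfdot_res (hχ : IsChar X χ) (h : K ≤ X) (hφ : IsChar K φ) :
    ∃ n : ℕ, cfdot K χ φ = n := by
  rw [← cfdot_cfRes_left le_rfl]; exact (hχ.cfRes h).exists_nat_cfdot hφ

theorem over_trans (hχ : IsChar X χ) (hKX : K ≤ X) (hLK : L ≤ K) (hφ : IsIrr K φ)
    (hθ : IsChar L θ) (h1 : cfdot K χ φ ≠ 0) (h2 : cfdot L φ θ ≠ 0) : cfdot L χ θ ≠ 0 := by
  have h3 : IsChar K (cfRes K χ - φ) :=
    (hχ.cfRes hKX).sub_irr hφ (by rwa [cfdot_cfRes_left le_rfl])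
  have h4 := IsChar.cfdot_add_ne_zero (hφ.isChar.cfRes hLK) (h3.cfRes hLK) hθ
    (by rwa [cfdot_cfRes_left le_rfl])
  rwa [← map_add, add_sub_cancel, cfdot_cfRes_left le_rfl, cfdot_cfRes_left hLK] at h4

theorem exists_between (hχ : χ ∈ CFun X) (hKX : K ≤ X) (hLK : L ≤ K)
    (h : cfdot L χ θ ≠ 0) : ∃ φ, IsIrr K φ ∧ cfdot K χ φ ≠ 0 ∧ cfdot L φ θ ≠ 0 := by
  have h1 := cfRes_mem_CFun hχ hKX
  rw [← cfdot_cfRes_left hLK, ← cfdot_cfInd_right hLK h1] at h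
  obtain ⟨ξ, hξ, h2, h3⟩ := exists_common_constituent h1 h
  refine ⟨ξ, hξ, by rwa [cfdot_cfRes_left le_rfl] at h2, ?_⟩
  rw [cfdot_cfInd_left hLK _ hξ.cfun] at h3
  exact fun h' => h3 (cfdot_symm_zero h')

theorem cfdot_conjFun_ne_zero (h : cfdot K χ φ ≠ 0) : cfdot K (conjFun χ) (conjFun φ) ≠ 0 := by
  rw [cfdot_conjFun]; exact fun h' => h (cfdot_symm_zero h')

theorem cfdot_cfConj_of_inv {y : G} (hy : y ∈ inertia L θ) (φ : G → ℂ) :
    cfdot L (cfConj y φ) θ = cfdot L φ θ := by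
  conv_lhs => rw [← cfConj_of_mem_inertia hy]
  exact cfdot_cfConj_norm hy.1 _ _

/-- `χ` has odd degree. -/
def OddDeg (χ : G → ℂ) : Prop := ∃ n : ℕ, Odd n ∧ χ 1 = n

/-- `χ` has odd degree, and is real if `r` holds. -/
def GoodCh (r : Prop) (χ : G → ℂ) : Prop := OddDeg χ ∧ (r → conjFun χ = χ)

open scoped Classical in
/-- The good irreducible characters of `X` over `θ`. -/
noncomputable def oddOver (r : Prop) (X L : Subgroup G) (θ : G → ℂ) : Finset (G → ℂ) :=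
  (irrOver X L θ).filter (GoodCh r)

theorem mem_oddOver {r : Prop} :
    χ ∈ oddOver r X L θ ↔ IsIrr X χ ∧ cfdot L χ θ ≠ 0 ∧ GoodCh r χ := by
  classical
  rw [oddOver, Finset.mem_filter, mem_irrOver, and_assoc]

theorem odd_of_under (hK : K ⊴ X) (hχ : IsIrr X χ) (hφ : IsIrr K φ) (h : cfdot K χ φ ≠ 0)
    (ho : OddDeg χ) : Odd ((X ⊓ inertia K φ).relIndex X) ∧ OddDeg φ := by
  obtain ⟨n, hn, h1⟩ := ho
  obtain ⟨e, he⟩ := exists_nat_cfdot_res hχ.isChar hK.le hφ.isChar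
  obtain ⟨d, -, hd⟩ := hφ.exists_pos
  have := clifford_degree hK hφ hχ h
  rw [h1, he, hd] at this
  have h2 : n = e * (X ⊓ inertia K φ).relIndex X * d := by exact_mod_cast this
  rw [h2, Nat.odd_mul, Nat.odd_mul] at hn
  exact ⟨hn.1.2, d, hn.2, hd⟩

theorem piNat_compl_two {n : ℕ} : PiNat ({2}ᶜ : Set ℕ) n ↔ Odd n := by
  rw [piNat_compl_singleton_iff Nat.prime_two, ← Nat.not_even_iff_odd, even_iff_two_dvd]

theorem odd_relIndex_of_syl (hP : IsSyl 2 P X) (hPT : P ≤ T) (hT : T ≤ X) :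
    Odd (T.relIndex X) := by
  have h1 := piNat_compl_two.1 (hall_relIndex hP)
  rw [← Subgroup.relIndex_mul_relIndex P T X hPT hT, Nat.odd_mul] at h1
  exact h1.2

theorem exists_cj_le_of_odd (hP : IsSyl 2 P X) (hT : T ≤ X) (ho : Odd (T.relIndex X)) :
    ∃ g ∈ X, cj g P ≤ T := by
  haveI : Fact (Nat.Prime 2) := ⟨Nat.prime_two⟩
  obtain ⟨Q, hQ⟩ := exists_syl 2 T
  obtain ⟨g, hg, e⟩ := syl_conj hP (hall_of_relIndex hQ hT (piNat_compl_two.2 ho))
  exact ⟨g, hg, e ▸ hall_le hQ⟩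

theorem inertia_cfConj_norm {y : G} (hy : y ∈ N[K]) (φ : G → ℂ) :
    inertia K (cfConj y φ) = cj y (inertia K φ) := by
  rw [← inertia_cfConj, cj_eq_self hy]

theorem exists_inv_conj (hP : IsSyl 2 P X) (hK : K ⊴ X) (hχ : IsIrr X χ) (hφ : IsIrr K φ)
    (h : cfdot K χ φ ≠ 0) (ho : OddDeg χ) : ∃ y ∈ X, P ≤ inertia K (cfConj y φ) := by
  obtain ⟨g, hg, h1⟩ := exists_cj_le_of_odd hP inf_le_left (odd_of_under hK hχ hφ h ho).1
  refine ⟨g⁻¹, X.inv_mem hg, ?_⟩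
  rw [inertia_cfConj_norm (hK.norm (X.inv_mem hg)), ← cj_le_iff_le_cj_inv]
  exact h1.trans inf_le_right

theorem real_of_under (hK : K ⊴ X) (hχ : IsIrr X χ) (hφ : IsIrr K φ) (h : cfdot K χ φ ≠ 0)
    (ho : OddDeg χ) (hr : conjFun χ = χ) : conjFun φ = φ := by
  have h1 : Odd (cfclass X φ).card := by
    rw [card_cfclass hK.norm]; exact (odd_of_under hK hχ hφ h ho).1
  have h2 : conjFun φ ∈ cfclass X φ := by
    have h3 := cfdot_conjFun_ne_zero h
    rw [hr] at h3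
    exact mem_cfclass.2 (hχ.conj_of_under hK hφ.conjFun hφ h3 h)
  obtain ⟨ξ, hξ, e⟩ := exists_fixed_of_odd_card _ conjFun h1 (fun ξ hξ => by
    obtain ⟨y, hy, rfl⟩ := mem_cfclass.1 hξ
    rw [← cfConj_conjFun]
    exact cfclass_trans h2 (cfConj_mem_cfclass hy)) conjFun_conjFun
  obtain ⟨y, hy, rfl⟩ := mem_cfclass.1 hξ
  rw [← cfConj_conjFun] at e
  exact cfConj_injective y e

theorem mem_cfclass_of_inv (hP : IsSyl 2 P X) (hK : K ⊴ X) (hχ : IsIrr X χ) (hφ : IsIrr K φ)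
    (hψ : IsIrr K ψ) (h1 : cfdot K χ φ ≠ 0) (h2 : cfdot K χ ψ ≠ 0) (i1 : P ≤ inertia K φ)
    (i2 : P ≤ inertia K ψ) : φ ∈ cfclass (X ⊓ N[P]) ψ := by
  haveI : Fact (Nat.Prime 2) := ⟨Nat.prime_two⟩
  obtain ⟨y, hy, e⟩ := hχ.conj_of_under hK hφ hψ h1 h2
  have a1 : IsSyl 2 P (X ⊓ inertia K φ) := hall_of_le hP (le_inf (hall_le hP) i1) inf_le_left
  have a2 : IsSyl 2 (cj y P) (X ⊓ inertia K φ) := by
    refine hall_of_le (hall_cj_of_mem hP hy) (le_inf (cj_le_of_mem hy (hall_le hP)) ?_) inf_le_left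
    rw [e, inertia_cfConj_norm (hK.norm hy)]
    exact cj_mono i2
  obtain ⟨t, ht, e2⟩ := syl_conj a1 a2
  refine mem_cfclass.2 ⟨t⁻¹ * y, ⟨X.mul_mem (X.inv_mem ht.1) hy, cj_eq_cj_iff.1 e2⟩, ?_⟩
  rw [cfConj_mul, ← e, cfConj_of_mem_inertia ((inertia K φ).inv_mem ht.2)]

theorem card_oddOver_inertia {r : Prop} (hK : K ⊴ X) (hφ : IsIrr K φ) (hr : r → conjFun φ = φ)
    (ho : Odd ((X ⊓ inertia K φ).relIndex X)) :
    (oddOver r X K φ).card = (oddOver r (X ⊓ inertia K φ) K φ).card := by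
  have hKT : K ≤ X ⊓ inertia K φ := le_inf hK.le (le_inertia hφ.cfun)
  symm
  refine Finset.card_bij (fun ψ _ => cfInd X (X ⊓ inertia K φ) ψ) ?_ ?_ ?_
  · intro ψ hψ
    obtain ⟨h1, h2, ⟨n, hn, h3⟩, h4⟩ := mem_oddOver.1 hψ
    refine mem_oddOver.2 ⟨clifford_isIrr hK hφ hKT inf_le_left le_rfl h1 h2, ?_,
      ⟨_, ho.mul hn, ?_⟩, fun h => ?_⟩
    · rwa [clifford_cfdot hK hφ hKT inf_le_left le_rfl h1 h2]
    · rw [cfInd_one, h3, Nat.cast_mul]
    · rw [← cfInd_conjFun, h4 h]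
  · intro ψ hψ ξ hξ e
    obtain ⟨h1, h2, -⟩ := mem_oddOver.1 hψ
    obtain ⟨h3, h4, -⟩ := mem_oddOver.1 hξ
    exact clifford_injective hK hφ hKT inf_le_left le_rfl h1 h2 h3 h4 e
  · intro χ hχ
    obtain ⟨h1, h2, ⟨n, hn, h3⟩, h4⟩ := mem_oddOver.1 hχ
    obtain ⟨ψ, a1, a2, a3⟩ := clifford_exists hK hφ hKT inf_le_left le_rfl h1 h2
    refine ⟨ψ, mem_oddOver.2 ⟨a1, a2, ?_, fun h => ?_⟩, a3⟩
    · obtain ⟨d, -, hd⟩ := a1.exists_pos
      rw [← a3, cfInd_one, hd] at h3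
      have : (X ⊓ inertia K φ).relIndex X * d = n := by exact_mod_cast h3
      rw [← this, Nat.odd_mul] at hn
      exact ⟨d, hn.2, hd⟩
    · have a4 := cfdot_conjFun_ne_zero a2
      rw [hr h] at a4
      refine clifford_injective hK hφ hKT inf_le_left le_rfl a1.conjFun a4 a1 a2 ?_
      rw [cfInd_conjFun, a3, h4 h]

/-- A `2`-section over `L` lies in `P L`. -/
theorem le_sup_of_two (hP : IsSyl 2 P X) (hL : L ⊴ X) (hK : K ⊴ X) (hLK : L ≤ K) {b : ℕ}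
    (hb : L.relIndex K = 2 ^ b) : K ≤ P ⊔ L := by
  have h1 : P ⊔ L ≤ X := sup_le (hall_le hP) hL.le
  have h2 : Odd ((P ⊔ L).relIndex X) := odd_relIndex_of_syl hP le_sup_left h1
  have h3 : (P ⊔ L).relIndex K ∣ (P ⊔ L).relIndex X :=
    relIndex_inf_dvd_of_le_normalizer hK.le h1 (Or.inl (h1.trans hK.norm))
  have h4 : (P ⊔ L).relIndex K ∣ 2 ^ b := by
    rw [← hb]; exact Subgroup.relIndex_dvd_of_le_left K le_sup_right
  have h5 : ((P ⊔ L).relIndex X).Coprime (2 ^ b) :=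
    Nat.Coprime.pow_right _ (Nat.coprime_two_right.2 h2)
  exact Subgroup.relIndex_eq_one.1 (Nat.eq_one_of_dvd_coprimes h5 h3 h4)

open scoped Classical in
/-- The `P`-invariant linear characters of `K` over `θ`. -/
noncomputable def invLin (r : Prop) (P K L : Subgroup G) (θ : G → ℂ) : Finset (G → ℂ) :=
  (irrOver K L θ).filter (fun φ => φ 1 = 1 ∧ P ≤ inertia K φ ∧ (r → conjFun φ = φ))

theorem mem_invLin {r : Prop} : φ ∈ invLin r P K L θ ↔
    IsIrr K φ ∧ cfdot L φ θ ≠ 0 ∧ φ 1 = 1 ∧ P ≤ inertia K φ ∧ (r → conjFun φ = φ) := by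
  classical
  rw [invLin, Finset.mem_filter, mem_irrOver, and_assoc]

theorem lin_of_odd_over (hL : L ⊴ K) (hab : ⁅K, K⁆ ≤ L) {b : ℕ} (hb : L.relIndex K = 2 ^ b)
    (hθ : IsLin L θ) (hinv : K ≤ inertia L θ) (hφ : IsIrr K φ) (h : cfdot L φ θ ≠ 0)
    (ho : OddDeg φ) : φ 1 = 1 := by
  have e : K ⊓ inertia L θ = K := inf_eq_left.2 hinv
  obtain ⟨e0, -, -, -, -, h1, h2⟩ := cfInd_central_Inertia hL hθ.isIrr (by rwa [e])
  have h3 := h2 φ (mem_irrOver.2 ⟨hφ, h⟩)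
  rw [e, Subgroup.relIndex_self, hθ.2] at h3
  rw [e, hb] at h1
  obtain ⟨n, hn, h4⟩ := ho
  have h5 : n = e0 := by
    rw [h4] at h3
    exact_mod_cast (by simpa using h3 : (n : ℂ) = e0)
  subst h5
  have h6 : n ∣ 2 ^ b := by
    rw [← h1, pow_two, mul_assoc]; exact dvd_mul_right _ _
  have h7 : n = 1 := Nat.eq_one_of_dvd_coprimes
    (Nat.Coprime.pow_right b (Nat.coprime_two_right.2 hn)) dvd_rfl h6
  rw [h4, h7, Nat.cast_one]

open scoped Classical in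
theorem two_step {r : Prop} (hP : IsSyl 2 P Y) (hL : L ⊴ Y) (hK : K ⊴ Y) (hLK : L ≤ K)
    (hab : ⁅K, K⁆ ≤ L) {b : ℕ} (hb : L.relIndex K = 2 ^ b) (hθ : IsLin L θ)
    (hinv : Y ≤ inertia L θ) (hχ : χ ∈ oddOver r Y L θ) :
    ∃ φ, (invLin r P K L θ).filter (fun φ => cfdot K χ φ ≠ 0) = cfclass (Y ⊓ N[P]) φ := by
  obtain ⟨h1, h2, h3, h4⟩ := mem_oddOver.1 hχ
  obtain ⟨φ, a1, a2, a3⟩ := exists_between h1.cfun hK.le hLK h2
  have key : ∀ y ∈ Y, P ≤ inertia K (cfConj y φ) →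
      cfConj y φ ∈ (invLin r P K L θ).filter (fun φ => cfdot K χ φ ≠ 0) := by
    intro y hy hi
    have b1 := a1.cfConj_norm (hK.norm hy)
    have b2 : cfdot K χ (cfConj y φ) ≠ 0 := by
      rwa [cfdot_cfConj_right_of_mem h1.cfun hy (hK.norm hy)]
    have b3 : cfdot L (cfConj y φ) θ ≠ 0 := by rwa [cfdot_cfConj_of_inv (hinv hy)]
    refine Finset.mem_filter.2 ⟨mem_invLin.2 ⟨b1, b3, ?_, hi, fun h => ?_⟩, b2⟩
    · exact lin_of_odd_over (hL.of_le hLK hK.le) hab hb hθ (hK.le.trans hinv) b1 b3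
        (odd_of_under hK h1 b1 b2 h3).2
    · exact real_of_under hK h1 b1 b2 h3 (h4 h)
  obtain ⟨y, hy, hi⟩ := exists_inv_conj hP hK h1 a1 a2 h3
  refine ⟨cfConj y φ, Finset.ext fun ψ => ⟨fun hψ => ?_, fun hψ => ?_⟩⟩
  · obtain ⟨c1, c2⟩ := Finset.mem_filter.1 hψ
    obtain ⟨c3, -, -, c4, -⟩ := mem_invLin.1 c1
    exact mem_cfclass_of_inv hP hK h1 c3 (a1.cfConj_norm (hK.norm hy)) c2
      (Finset.mem_filter.1 (key y hy hi)).2 c4 hi
  · obtain ⟨n, hn, rfl⟩ := mem_cfclass.1 hψ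
    rw [cfConj_cfConj]
    refine key _ (Y.mul_mem hn.1 hy) ?_
    rw [cfConj_mul, inertia_cfConj_norm (hK.norm hn.1), ← cj_eq_self hn.2]
    exact cj_mono hi

open scoped Classical in
theorem filter_oddOver {r : Prop} (hK : K ≤ Y) (hLK : L ≤ K) (hθ : IsChar L θ) (hφ : IsIrr K φ)
    (h : cfdot L φ θ ≠ 0) :
    (oddOver r Y L θ).filter (fun χ => cfdot K χ φ ≠ 0) = oddOver r Y K φ := by
  ext χ
  rw [Finset.mem_filter, mem_oddOver, mem_oddOver]
  exact ⟨fun h' => ⟨h'.1.1, h'.2, h'.1.2.2⟩, fun h' =>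
    ⟨⟨h'.1, over_trans h'.1.isChar hK hLK hφ hθ h'.2.1 h, h'.2.2⟩, h'.2.1⟩⟩

theorem lin_map_pow (h : IsLin K μ) {x : G} (hx : x ∈ K) (n : ℕ) : μ (x ^ n) = μ x ^ n := by
  induction n with
  | zero => rw [pow_zero, pow_zero, h.2]
  | succ n ih => rw [pow_succ, pow_succ, h.map_mul (K.pow_mem hx n) hx, ih]

theorem lin_pow_relIndex (h : IsLin K μ) (hL : K ≤ N[L]) (hk : L ≤ cfker K μ) {x : G}
    (hx : x ∈ K) : μ x ^ L.relIndex K = 1 := by
  rw [← lin_map_pow h hx]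
  exact h.mem_cfker_iff.1 (hk (H23.pow_relIndex_mem' hL hx))

theorem eq_one_of_pow_coprime {z : ℂ} {a b : ℕ} (ha : z ^ a = 1) (hb : z ^ b = 1)
    (h : a.Coprime b) : z = 1 := by
  have := (pow_gcd_eq_one (a := z) (m := a) (n := b)).2 ⟨ha, hb⟩
  rwa [h, pow_one] at this

/-- An element fixed by `P` modulo `L` lies in `N(P) L`. -/
theorem mem_sup_of_fixed_mod (hP : IsSyl 2 P Y) (hL : L ⊴ Y) {c : G} (hc : c ∈ Y)
    (h : ∀ x ∈ P, c * x * c⁻¹ * x⁻¹ ∈ L) : c ∈ (Y ⊓ N[P]) ⊔ L := by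
  haveI : Fact (Nat.Prime 2) := ⟨Nat.prime_two⟩
  have h1 : P ⊔ L ≤ Y := sup_le (hall_le hP) hL.le
  have a1 : IsSyl 2 P (P ⊔ L) := hall_of_le hP le_sup_left h1
  have a2 : IsSyl 2 (cj c P) (P ⊔ L) := by
    refine hall_of_le (hall_cj_of_mem hP hc) (cj_le_iff.2 fun x hx => ?_) h1
    have : c * x * c⁻¹ = (c * x * c⁻¹ * x⁻¹) * x := by group
    rw [this]
    exact Subgroup.mul_mem _ (Subgroup.mem_sup_right (h x hx)) (Subgroup.mem_sup_left hx)
  obtain ⟨t, ht, e⟩ := syl_conj a1 a2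
  have h2 : t⁻¹ * c ∈ Y ⊓ N[P] := ⟨Y.mul_mem (Y.inv_mem (h1 ht)) hc, cj_eq_cj_iff.1 e⟩
  have h3 : P ⊔ L ≤ (Y ⊓ N[P]) ⊔ L :=
    sup_le_sup_right (le_inf (hall_le hP) Subgroup.le_normalizer) _
  have : c = t * (t⁻¹ * c) := by group
  rw [this]
  exact Subgroup.mul_mem _ (h3 ht) (Subgroup.mem_sup_left h2)

theorem inf_le_of_odd (hP : IsPGroup 2 P) (hL : K ≤ N[L]) (ho : Odd (L.relIndex K)) :
    K ⊓ P ≤ L := by
  intro x hx
  obtain ⟨k, hk⟩ := hP ⟨x, hx.2⟩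
  have h1 : x ^ 2 ^ k = 1 := congrArg Subtype.val hk
  exact H23.mem_of_pow_mem_of_coprime (H23.pow_relIndex_mem' hL hx.1) (h1 ▸ L.one_mem)
    (Nat.Coprime.pow_right _ (Nat.coprime_two_right.2 ho))

/-- A `P`-invariant linear character of an odd abelian section is trivial when `P` is
self-normalizing. -/
theorem lin_eq_one_of_inv (hP : IsSyl 2 P Y) (hN : Y ⊓ N[P] ≤ P) (hL : L ⊴ Y) (hK : K ⊴ Y)
    (hLK : L ≤ K) (hab : ⁅K, K⁆ ≤ L) (ho : Odd (L.relIndex K)) {β : G → ℂ} (hβ : IsLin K β)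
    (hk : L ≤ cfker K β) (hinv : ∀ x ∈ P, ∀ k ∈ K, β (x * k * x⁻¹) = β k) {k : G} (hkK : k ∈ K) :
    β k = 1 := by
  haveI : Fact (Nat.Prime 2) := ⟨Nat.prime_two⟩
  have hKL : K ≤ N[L] := hK.le.trans hL.norm
  -- the subgroup `D = [K, P] L` is in the kernel
  haveI : (L.subgroupOf K).Normal := (hL.of_le hLK hK.le).normal_subgroupOf
  letI : CommGroup (K ⧸ L.subgroupOf K) :=
    { (inferInstance : Group (K ⧸ L.subgroupOf K)) with
      mul_comm := by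
        intro a b
        obtain ⟨a, rfl⟩ := QuotientGroup.mk_surjective a
        obtain ⟨b, rfl⟩ := QuotientGroup.mk_surjective b
        rw [← QuotientGroup.mk_mul, ← QuotientGroup.mk_mul, QuotientGroup.eq,
          Subgroup.mem_subgroupOf]
        have := hab (Subgroup.commutator_mem_commutator (K.inv_mem b.2) (K.inv_mem a.2))
        simpa [commutatorElement_def, mul_assoc] using this }
  let _ := Fintype.ofFinite P
  let π : K →* K ⧸ L.subgroupOf K := QuotientGroup.mk' _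
  let cjK : P → K → K := fun x k => ⟨x * k * (x : G)⁻¹, hK.conj_mem (hall_le hP x.2) k.2⟩
  -- choose `c` with `π c = ∏ π (k ^ x)`
  have hex : ∀ s : Finset P, ∃ c : K, β c = β k ^ s.card ∧
      ∀ y : P, π (cjK y c) = ∏ x ∈ s, π (cjK (y * x) ⟨k, hkK⟩) := by
    intro s
    classical
    induction s using Finset.induction_on with
    | empty => exact ⟨1, by simpa using hβ.2, fun y => by
        rw [Finset.prod_empty, ← π.map_one]; congr 1; ext; simp [cjK]⟩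
    | insert a s ha ih =>
      obtain ⟨c, c1, c2⟩ := ih
      refine ⟨cjK a ⟨k, hkK⟩ * c, ?_, fun y => ?_⟩
      · rw [Finset.card_insert_of_notMem ha, pow_succ', ← c1, Subgroup.coe_mul,
          hβ.map_mul (cjK a ⟨k, hkK⟩).2 c.2, hinv a a.2 k hkK]
      · rw [Finset.prod_insert ha, ← c2 y, ← π.map_mul]
        congr 1; ext; simp [cjK, mul_assoc]
  obtain ⟨c, c1, c2⟩ := hex Finset.univ
  have c3 : ∀ y : P, π (cjK y c) = π c := by
    intro y
    have e1 : cjK 1 c = c := by ext; simp [cjK]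
    rw [← e1, c2 1, e1, c2 y]
    exact Fintype.prod_equiv (Equiv.mulLeft y) _ _ fun x => by simp
  have c4 : (c : G) ∈ (Y ⊓ N[P]) ⊔ L := by
    refine mem_sup_of_fixed_mod hP hL (hK.le c.2) fun x hx => ?_
    have h1 := c3 ⟨x, hx⟩
    rw [QuotientGroup.mk'_apply, QuotientGroup.mk'_apply, QuotientGroup.eq,
      Subgroup.mem_subgroupOf] at h1
    have h2 := hL.conj_mem (hK.le c.2) h1
    simpa [cjK, mul_assoc] using h2
  have c5 : (c : G) ∈ L := by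
    have h1 : (c : G) ∈ K ⊓ (P ⊔ L) := ⟨c.2, sup_le_sup_right hN _ c4⟩
    rw [inf_sup_of_le_normalizer' (Or.inl ((hall_le hP).trans hL.norm)) hLK] at h1
    exact (sup_le (inf_le_of_odd (syl_isPGroup hP) hKL ho) le_rfl) h1
  have c6 : β k ^ Nat.card P = 1 := by
    rw [Nat.card_eq_fintype_card, ← Finset.card_univ, ← c1]
    exact hβ.mem_cfker_iff.1 (hk c5)
  refine eq_one_of_pow_coprime (lin_pow_relIndex hβ hKL hk hkK) c6 ?_
  rw [syl_card hP]
  exact Nat.Coprime.pow_right _ (Nat.coprime_two_right.2 ho)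

theorem le_inertia_cfRes_of_inv (hL : Y ≤ N[L]) (hinv : Y ≤ inertia K μ) :
    Y ≤ inertia L (cfRes L μ) := fun y hy =>
  ⟨hL hy, by rw [cfConj_cfRes_norm (hL hy), cfConj_of_mem_inertia (hinv hy)]⟩

theorem cfdot_lin_cfRes (hμ : IsLin K μ) (hLK : L ≤ K) : cfdot L μ (cfRes L μ) ≠ 0 := by
  rw [← cfdot_cfRes_left le_rfl, (hμ.cfRes hLK).isIrr.cfdot_self]; exact one_ne_zero

theorem apply_conj_of_mem_inertia {x : G} (hx : x ∈ inertia K φ) (k : G) :
    φ (x * k * x⁻¹) = φ k := by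
  conv_lhs => rw [← cfConj_of_mem_inertia hx]
  exact cfConj_conj_apply _ _ _

theorem oddOver_eq_of_odd {r : Prop} (hP : IsSyl 2 P Y) (hL : L ⊴ Y) (hK : K ⊴ Y) (hLK : L ≤ K)
    (hab : ⁅K, K⁆ ≤ L) (ho : Odd (L.relIndex K)) (hμ : IsLin K μ) (hinv : Y ≤ inertia K μ)
    (hr : r → conjFun μ = μ) (hnr : ¬ r → Y ⊓ N[P] ≤ P) :
    oddOver r Y L (cfRes L μ) = oddOver r Y K μ := by
  classical
  have hθ := hμ.cfRes hLK
  have hθi := le_inertia_cfRes_of_inv hL.norm hinv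
  rw [← filter_oddOver hK.le hLK hθ.isChar hμ.isIrr (cfdot_lin_cfRes hμ hLK)]
  refine (Finset.filter_eq_self.2 fun χ hχ => ?_).symm
  obtain ⟨h1, h2, h3, h4⟩ := mem_oddOver.1 hχ
  obtain ⟨φ, a1, a2, a3⟩ := exists_between h1.cfun hK.le hLK h2
  obtain ⟨y, hy, hi⟩ := exists_inv_conj hP hK h1 a1 a2 h3
  have b1 := a1.cfConj_norm (hK.norm hy)
  have b2 : cfdot K χ (cfConj y φ) ≠ 0 := by
    rwa [cfdot_cfConj_right_of_mem h1.cfun hy (hK.norm hy)]
  have b3 : cfdot L (cfConj y φ) (cfRes L μ) ≠ 0 := by rwa [cfdot_cfConj_of_inv (hθi hy)]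
  obtain ⟨β, c1, c2, c3⟩ := exists_lin_mul_of_over_invariant (hL.of_le hLK hK.le) hab hθ.isIrr
    (hK.le.trans hθi) hμ.isIrr b1 (cfdot_lin_cfRes hμ hLK) b3
  have c4 : ∀ k ∈ K, β k = 1 := by
    intro k hk
    by_cases h : r
    · have d1 := congrFun (real_of_under hK h1 b1 b2 h3 (h4 h)) k
      have d2 := congrFun (hr h) k
      rw [conjFun_apply] at d2
      rw [c3, conjFun_apply, Pi.mul_apply, map_mul, d2,
        mul_left_inj' (hμ.apply_ne_zero hk)] at d1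
      have d3 := c1.mul_conj hk
      rw [d1, ← pow_two] at d3
      exact eq_one_of_pow_coprime (lin_pow_relIndex c1 (hK.le.trans hL.norm) c2 hk) d3
        (Nat.coprime_two_right.2 ho)
    · refine lin_eq_one_of_inv hP (hnr h) hL hK hLK hab ho c1 c2 (fun x hx k hk => ?_) hk
      have d1 := apply_conj_of_mem_inertia (hi hx) k
      rwa [c3, Pi.mul_apply, Pi.mul_apply, apply_conj_of_mem_inertia (hinv (hall_le hP hx)),
        mul_left_inj' (hμ.apply_ne_zero hk)] at d1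
  have c5 : cfConj y φ = μ := cfun_eq b1.cfun hμ.cfun fun k hk => by
    rw [c3, Pi.mul_apply, c4 k hk, one_mul]
  rwa [c5] at b2

theorem cfdot_sup_ker (hH : H ≤ N[K]) (h0 : ∀ x, x ∉ K ⊔ H → χ x = 0)
    (h0' : ∀ x, x ∉ K ⊔ H → ψ x = 0) (h1 : K ≤ cfker (K ⊔ H) χ) (h2 : K ≤ cfker (K ⊔ H) ψ) :
    cfdot (K ⊔ H) χ ψ = cfdot H χ ψ := by
  have hY : K ⊔ H ≤ N[K] := sup_le Subgroup.le_normalizer hH
  rw [← cfMod_cfQuo h1 hY h0, ← cfMod_cfQuo h2 hY h0', cfdot_cfMod hY, cfdot_cfMod hH,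
    sup_quo_left hH]

theorem isIrr_cfRes_of_ker (hH : H ≤ N[K]) (hχ : IsIrr (K ⊔ H) χ) (h1 : K ≤ cfker (K ⊔ H) χ) :
    IsIrr H (cfRes H χ) :=
  (hχ.isChar.cfRes le_sup_right).isIrr (by
    rw [cfdot_cfRes_left le_rfl, cfdot_cfRes_right le_rfl, ← cfdot_sup_ker hH hχ.2 hχ.2 h1 h1,
      hχ.cfdot_self])

theorem eq_of_cfRes_eq_of_ker (hH : H ≤ N[K]) (hχ : IsIrr (K ⊔ H) χ) (hψ : IsIrr (K ⊔ H) ψ)
    (h1 : K ≤ cfker (K ⊔ H) χ) (h2 : K ≤ cfker (K ⊔ H) ψ) (e : cfRes H χ = cfRes H ψ) : χ = ψ := by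
  refine hχ.eq_of_cfdot_ne_zero hψ ?_
  rw [cfdot_sup_ker hH hχ.2 hψ.2 h1 h2, ← cfdot_cfRes_left le_rfl, ← cfdot_cfRes_right le_rfl, e,
    (isIrr_cfRes_of_ker hH hψ h2).cfdot_self]
  exact one_ne_zero

theorem exists_cfRes_eq_of_ker (hH : H ≤ N[K]) (hψ : IsIrr H ψ) (h : K ⊓ H ≤ cfker H ψ) :
    ∃ χ, IsIrr (K ⊔ H) χ ∧ K ≤ cfker (K ⊔ H) χ ∧ cfRes H χ = ψ := by
  have h1 : cfdot K (cfInd (K ⊔ H) H ψ) (cfOne K) ≠ 0 := by
    rw [← cfdot_cfRes_left le_rfl, cfRes_cfInd_of_isMul (isMul_sup (Or.inr hH)) hψ.cfun,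
      cfdot_cfInd_cfOne inf_le_left, cfdot_cfOne_of_le_cfker h]
    exact hψ.one_ne_zero
  obtain ⟨χ, a1, a2, a3⟩ := exists_between (cfInd_mem_CFun ψ) le_rfl le_sup_left h1
  have a4 := a1.le_cfker_of_cfdot_cfOne (normalIn_sup_left hH) a3
  refine ⟨χ, a1, a4, ((hψ.eq_of_cfdot_ne_zero (isIrr_cfRes_of_ker hH a1 a4)) ?_).symm⟩
  rwa [cfdot_cfRes_right le_rfl, ← cfdot_cfInd_left le_sup_right _ a1.cfun]

theorem card_oddOver_res {r : Prop} (hK : K ⊴ Y) (hμ : IsLin K μ) (hinv : Y ≤ inertia K μ)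
    (hY : cfker K μ ⊔ H = Y) :
    (oddOver r Y K μ).card = (oddOver r H (K ⊓ H) (cfRes (K ⊓ H) μ)).card := by
  have hHY : H ≤ Y := hY ▸ le_sup_right
  have hn : Y ≤ N[cfker K μ] := fun y hy => by
    rw [← cj_eq_self_iff, ← cfker_cfConj_norm (hK.norm hy), cfConj_of_mem_inertia (hinv hy)]
  have hH := hHY.trans hn
  have hker : ∀ χ ∈ oddOver r Y K μ, cfker K μ ≤ cfker Y χ := fun χ hχ => by
    obtain ⟨h1, h2, -⟩ := mem_oddOver.1 hχ
    exact (h1.le_cfker_iff_of_under hμ.isIrr hK.le h2 (cfker_le _ _) hn).1 le_rfl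
  have hμ1 : IsLin (K ⊓ H) (cfRes (K ⊓ H) μ) := hμ.cfRes inf_le_left
  subst hY
  refine Finset.card_bij (fun χ _ => cfRes H χ) ?_ ?_ ?_
  · intro χ hχ
    obtain ⟨h1, h2, h3, h4⟩ := mem_oddOver.1 hχ
    refine mem_oddOver.2 ⟨isIrr_cfRes_of_ker hH h1 (hker χ hχ), ?_, ?_, fun h => ?_⟩
    · rw [cfdot_cfRes_left inf_le_right]
      exact over_trans h1.isChar hK.le inf_le_left hμ.isIrr hμ1.isChar h2
        (cfdot_lin_cfRes hμ inf_le_left)
    · obtain ⟨n, hn, e⟩ := h3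
      exact ⟨n, hn, by rw [cfRes_apply_one, e]⟩
    · rw [← cfRes_conjFun, h4 h]
  · intro χ hχ ψ hψ e
    exact eq_of_cfRes_eq_of_ker hH (mem_oddOver.1 hχ).1 (mem_oddOver.1 hψ).1 (hker χ hχ)
      (hker ψ hψ) e
  · intro ψ hψ
    obtain ⟨h1, h2, h3, h4⟩ := mem_oddOver.1 hψ
    have a0 : cfker K μ ⊓ H ≤ K ⊓ H := inf_le_inf_right _ (cfker_le _ _)
    have a1 : cfker K μ ⊓ H ≤ cfker H ψ :=
      (h1.le_cfker_iff_of_under hμ1.isIrr inf_le_right h2 a0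
        (le_normalizer_inf hH Subgroup.le_normalizer)).1 (le_cfker_cfRes a0 inf_le_left)
    obtain ⟨χ, b1, b2, rfl⟩ := exists_cfRes_eq_of_ker hH h1 a1
    refine ⟨χ, mem_oddOver.2 ⟨b1, ?_, ?_, fun h => ?_⟩, rfl⟩
    · rw [cfdot_cfRes_left inf_le_right] at h2
      obtain ⟨φ, c1, c2, c3⟩ := exists_between b1.cfun hK.le inf_le_left h2
      have c4 : cfker K μ ≤ cfker K φ :=
        (b1.le_cfker_iff_of_under c1 hK.le c2 (cfker_le _ _) hn).2 b2
      have c5 : cfker K μ ⊔ (K ⊓ H) = K := by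
        rw [← inf_sup_of_le_normalizer (Or.inr hH) (cfker_le _ _), inf_eq_left.2 hK.le]
      have c6 : φ = μ := by
        refine c1.eq_of_cfdot_ne_zero hμ.isIrr ?_
        rw [cfdot_cfRes_right le_rfl] at c3
        have c7 := cfdot_sup_ker (K := cfker K μ) (H := K ⊓ H) (χ := φ) (ψ := μ)
          (inf_le_right.trans hH) (by rw [c5]; exact c1.2) (by rw [c5]; exact hμ.isIrr.2)
          (by rw [c5]; exact c4) (by rw [c5])
        rwa [← c7, c5] at c3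
      rwa [c6] at c2
    · obtain ⟨n, hn, e⟩ := h3
      exact ⟨n, hn, by rw [← e, cfRes_apply_one]⟩
    · refine eq_of_cfRes_eq_of_ker hH b1.conjFun b1 (by rwa [cfker_conjFun]) b2 ?_
      rw [cfRes_conjFun, h4 h]

theorem lin_ext_unique {ν : G → ℂ} (hL : L ⊴ K) (hμ : IsLin K μ) (hν : IsLin K ν)
    (e : cfRes L μ = cfRes L ν) {d : ℕ} (h1 : ∀ x ∈ K, μ x ^ d = 1) (h2 : ∀ x ∈ K, ν x ^ d = 1)
    (hc : (L.relIndex K).Coprime d) : μ = ν := by
  refine cfun_eq hμ.cfun hν.cfun fun x hx => ?_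
  have a1 := congrFun e (x ^ L.relIndex K)
  have a2 := H23.pow_relIndex_mem' hL.norm hx
  rw [cfRes_apply_of_mem _ a2, cfRes_apply_of_mem _ a2, lin_map_pow hμ hx, lin_map_pow hν hx] at a1
  have a3 := hν.apply_ne_zero hx
  have a4 : μ x / ν x = 1 := eq_one_of_pow_coprime
    (by rw [div_pow, a1, div_self (pow_ne_zero _ a3)]) (by rw [div_pow, h1 x hx, h2 x hx, div_one])
    hc
  exact (div_eq_one_iff_eq a3).1 a4

theorem exists_section [Group.IsSolvable G] (hL : L ⊴ X) (h : L < X) :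
    ∃ K, L < K ∧ K ⊴ X ∧ ⁅K, K⁆ ≤ L ∧ ((∃ b, L.relIndex K = 2 ^ b) ∨ Odd (L.relIndex K)) := by
  obtain ⟨p, Q, hp, hQ, h1, h2, h3⟩ := H23.exists_pgroup_normal_mod h hL.norm
    (H23.solvMod_of_isSolvable _ inferInstance)
  have h4 : L < Q ⊔ L := lt_of_le_of_ne le_sup_right fun e => h2 (e ▸ le_sup_left)
  have h5 : Q ⊔ L ≤ X := sup_le h1 hL.le
  obtain ⟨K, a1, a2, a3, a4⟩ := H23.exists_abelian_section h4 (h5.trans hL.norm)
    (H23.solvMod_of_isSolvable _ inferInstance)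
  refine ⟨K, a1, ⟨a2.trans h5, fun x hx => a4 x (h3 hx) (hL.norm hx)⟩,
    Subgroup.commutator_le.2 fun a ha b hb => a3 a ha b hb, ?_⟩
  haveI : Fact p.Prime := ⟨hp⟩
  obtain ⟨k, hk⟩ := IsPGroup.iff_card.1 hQ
  have b1 : L.relIndex K ∣ p ^ k := by
    refine (H23.relIndex_dvd_of_le a1.le a2).trans ?_
    rw [relIndex_sup_of_le_normalizer (h1.trans hL.norm), ← hk]
    exact Subgroup.relIndex_dvd_card L Q
  obtain ⟨j, -, hj⟩ := (Nat.dvd_prime_pow hp).1 b1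
  rcases hp.eq_two_or_odd' with rfl | h6
  · exact Or.inl ⟨j, hj⟩
  · exact Or.inr (hj ▸ h6.pow)

theorem relIndex_lt_of_lt_left (h : L < K) (hK : K ≤ X) (hT : T ≤ X) (hKT : K ≤ T) :
    K.relIndex T < L.relIndex X := by
  have h1 : K.relIndex T ≤ K.relIndex X :=
    Nat.le_of_dvd (Nat.pos_of_ne_zero (H67.relIndex_ne_zero' _ _)) (H23.relIndex_dvd_of_le hKT hT)
  have h2 := Subgroup.relIndex_mul_relIndex L K X h.le hK
  have h3 : L.relIndex K ≠ 1 := fun e => h.not_ge (Subgroup.relIndex_eq_one.1 e)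
  have h4 : L.relIndex K ≠ 0 := H67.relIndex_ne_zero' _ _
  have h5 : 0 < K.relIndex X := Nat.pos_of_ne_zero (H67.relIndex_ne_zero' _ _)
  have h6 : 2 ≤ L.relIndex K := by omega
  nlinarith

theorem card_oddOver_eq [Group.IsSolvable G] (r : Prop) (P : Subgroup G) (n : ℕ) :
    ∀ (X L : Subgroup G) (θ : G → ℂ), L.relIndex X = n → IsSyl 2 P X → L ⊴ X → IsLin L θ →
      X ≤ inertia L θ → (∃ a, ∀ x ∈ L, θ x ^ 2 ^ a = 1) → (r → conjFun θ = θ) →
      (¬ r → X ⊓ N[P] ≤ P) →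
      (oddOver r X L θ).card = (oddOver r ((X ⊓ N[P]) ⊔ L) L θ).card := by
  classical
  induction n using Nat.strong_induction_on with
  | _ n ih =>
  intro X L θ hn hP hL hθ hinv ⟨a, ha⟩ hr hnr
  rcases hL.le.eq_or_lt with rfl | hlt
  · rw [sup_eq_right.2 inf_le_left]
  obtain ⟨K, hLK, hK, hab, hcase⟩ := exists_section hL hlt
  have hPN : P ≤ X ⊓ N[P] := le_inf (hall_le hP) Subgroup.le_normalizer
  have hHX : (X ⊓ N[P]) ⊔ L ≤ X := sup_le inf_le_left hL.le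
  have hPH : IsSyl 2 P ((X ⊓ N[P]) ⊔ L) := hall_of_le hP (hPN.trans le_sup_left) hHX
  have hLH : L ⊴ (X ⊓ N[P]) ⊔ L := hL.of_le le_sup_right hHX
  have hNH : ((X ⊓ N[P]) ⊔ L) ⊓ N[P] = X ⊓ N[P] :=
    le_antisymm (inf_le_inf_right _ hHX) (le_inf le_sup_left inf_le_right)
  rcases hcase with ⟨b, hb⟩ | ho
  · have hKP := le_sup_of_two hP hL hK hLK.le hb
    have hKH : K ⊴ (X ⊓ N[P]) ⊔ L := hK.of_le (hKP.trans (sup_le_sup_right hPN _)) hHX
    refine card_eq_of_classes _ _ (invLin r P K L θ) (fun χ φ => cfdot K χ φ ≠ 0)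
      (fun χ φ => cfdot K χ φ ≠ 0) (cfclass (X ⊓ N[P])) (fun _ => cfclass_refl)
      (fun _ _ h => cfclass_eq_of_mem h) (fun χ hχ => two_step hP hL hK hLK.le hab hb hθ hinv hχ)
      (fun χ hχ => ?_) fun φ hφ => ?_
    · have := two_step hPH hLH hKH hLK.le hab hb hθ (hHX.trans hinv) hχ
      rwa [hNH] at this
    obtain ⟨h1, h2, h3, h4, h5⟩ := mem_invLin.1 hφ
    have hKI : K ≤ inertia K φ := le_inertia h1.cfun
    have hPT : P ≤ X ⊓ inertia K φ := le_inf (hall_le hP) h4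
    have hKT : K ≤ X ⊓ inertia K φ := le_inf hK.le hKI
    have hφl := h1.isLin h3
    have hres : cfRes L φ = θ := (hφl.cfRes hLK.le).isChar.eq_of_constituent hθ.isIrr
      (by rwa [cfdot_cfRes_left le_rfl]) (by rw [cfRes_apply_one, h3, hθ.2])
    rw [filter_oddOver hK.le hLK.le hθ.isChar h1 h2, filter_oddOver hKH.le hLK.le hθ.isChar h1 h2,
      card_oddOver_inertia hK h1 h5 (odd_relIndex_of_syl hP hPT inf_le_left),
      card_oddOver_inertia hKH h1 h5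
        (odd_relIndex_of_syl hPH (le_inf (hall_le hPH) h4) inf_le_left),
      ih _ (hn ▸ relIndex_lt_of_lt_left hLK hK.le inf_le_left hKT) _ K φ rfl
        (hall_of_le hP hPT inf_le_left) (hK.of_le hKT inf_le_left) hφl inf_le_right
        ⟨b + a, fun x hx => ?_⟩ h5 (fun h => (inf_le_inf_right _ inf_le_left).trans (hnr h))]
    · congr 2
      rw [inf_comm (_ ⊔ L) (inertia K φ), inf_sup_of_le_normalizer' (Or.inl (inf_le_left.trans hL.norm))
        (hLK.le.trans hKI), ← inf_assoc, inf_comm (inertia K φ) X]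
      exact le_antisymm (sup_le le_sup_left (hKP.trans (sup_le_sup_right
        (le_inf hPT Subgroup.le_normalizer) _))) (sup_le_sup_left hLK.le _)
    · have e1 := H23.pow_relIndex_mem' (hK.le.trans hL.norm) hx
      rw [pow_add, pow_mul, ← hb, ← lin_map_pow hφl hx, ← cfRes_apply_of_mem φ e1, hres]
      exact ha _ e1
  · have hLK' : L ⊴ K := hL.of_le hLK.le hK.le
    have hc : (L.relIndex K).Coprime (2 ^ a) := Nat.Coprime.pow_right _ (Nat.coprime_two_right.2 ho)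
    obtain ⟨μ, h1, h2, h3⟩ := extend_coprime_linear_char hLK' hθ (hK.le.trans hinv) ha hc
    have h4 : X ≤ inertia K μ := fun y hy => ⟨hK.norm hy, lin_ext_unique hLK'
      (h1.cfConj_norm (hK.norm hy)) h1
      (by rw [← cfConj_cfRes_norm (hL.norm hy), h2, cfConj_of_mem_inertia (hinv hy)])
      (fun x hx => h3 _ (conj_mem_of_mem_normalizer' (hK.norm hy) hx)) h3 hc⟩
    have h5 : r → conjFun μ = μ := fun h => lin_ext_unique hLK' h1.conjFun h1
      (by rw [cfRes_conjFun, h2, hr h])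
      (fun x hx => by rw [conjFun_apply, ← map_pow, h3 x hx, map_one]) h3 hc
    have hYX : (X ⊓ N[P]) ⊔ K ≤ X := sup_le inf_le_left hK.le
    have h6 : cfker K μ ⊔ ((X ⊓ N[P]) ⊔ L) = (X ⊓ N[P]) ⊔ K := by
      refine le_antisymm (sup_le ((cfker_le _ _).trans le_sup_right) (sup_le_sup_left hLK.le _))
        (sup_le (le_sup_left.trans le_sup_right) fun x hx => ?_)
      refine H23.mem_of_pow_mem_of_coprime (Subgroup.mem_sup_right (Subgroup.mem_sup_right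
        (H23.pow_relIndex_mem' hLK'.norm hx))) (Subgroup.mem_sup_left ?_) hc
      rw [h1.mem_cfker_iff, lin_map_pow h1 hx, h3 x hx]
    have hK1 : L ≤ K ⊓ ((X ⊓ N[P]) ⊔ L) := le_inf hLK.le le_sup_right
    have h7 := oddOver_eq_of_odd (r := r) hPH hLH (hK.inf_right hHX) hK1
      ((Subgroup.commutator_mono inf_le_left inf_le_left).trans hab)
      (Odd.of_dvd_nat ho (H23.relIndex_dvd_of_le hK1 inf_le_left)) (h1.cfRes inf_le_left)
      (le_inertia_cfRes_of_inv (hK.inf_right hHX).norm (hHX.trans h4))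
      (fun h => by rw [← cfRes_conjFun, h5 h]) (fun h => hNH.le.trans (hnr h))
    rw [cfRes_cfRes hK1, h2] at h7
    rw [h7, ← h2, oddOver_eq_of_odd hP hL hK hLK.le hab ho h1 h4 h5 hnr,
      ih _ (hn ▸ relIndex_lt_of_lt_left hLK hK.le le_rfl hK.le) X K μ rfl hP hK h1 h4 ⟨a, h3⟩ h5 hnr,
      card_oddOver_res (hK.of_le le_sup_right hYX) h1 (hYX.trans h4) h6]

open scoped Classical in
/-- The good irreducible characters of `X`. -/
noncomputable def goodF (r : Prop) (X : Subgroup G) : Finset (G → ℂ) := (irrF X).filter (GoodCh r)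

theorem mem_goodF {r : Prop} : χ ∈ goodF r X ↔ IsIrr X χ ∧ GoodCh r χ := by
  classical
  rw [goodF, Finset.mem_filter, mem_irrF]

theorem oddOver_bot (r : Prop) (X : Subgroup G) : oddOver r X ⊥ (cfOne ⊥) = goodF r X := by
  ext χ
  rw [mem_oddOver, mem_goodF]
  refine ⟨fun h => ⟨h.1, h.2.2⟩, fun h => ⟨h.1, ?_, h.2⟩⟩
  rw [cfdot_cfOne_of_le_cfker (L := X) bot_le]
  exact h.1.one_ne_zero

theorem card_goodF_eq [Group.IsSolvable G] (r : Prop) (hP : IsSyl 2 P X)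
    (h : ¬ r → X ⊓ N[P] ≤ P) : (goodF r X).card = (goodF r (X ⊓ N[P])).card := by
  have := card_oddOver_eq r P _ X ⊥ (cfOne ⊥) rfl hP (bot_normalIn X) isLin_cfOne
    (by rw [inertia_cfOne]; exact le_normalizer_bot X)
    ⟨0, fun x hx => by rw [cfOne_apply_of_mem hx, one_pow]⟩ (fun _ => conjFun_cfOne) h
  rwa [sup_bot_eq, oddOver_bot, oddOver_bot] at this

theorem exists_odd_constituent (hφ : IsChar X φ) (ho : OddDeg φ) :
    ∃ χ, IsIrr X χ ∧ cfdot X φ χ ≠ 0 ∧ OddDeg χ := by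
  by_contra h
  push Not at h
  obtain ⟨n, hn, e⟩ := ho
  have h1 : ∀ χ ∈ irrF X, ∃ m : ℕ, cfdot X φ χ * χ 1 = (2 * m : ℕ) := by
    intro χ hχ
    have hχ' := mem_irrF.1 hχ
    by_cases h0 : cfdot X φ χ = 0
    · exact ⟨0, by rw [h0]; simp⟩
    obtain ⟨c, hc⟩ := hφ.exists_nat_cfdot hχ'.isChar
    obtain ⟨d, -, hd⟩ := hχ'.exists_pos
    have h2 : Even d := Nat.not_odd_iff_even.1 fun h' => h χ hχ' h0 ⟨d, h', hd⟩
    obtain ⟨k, rfl⟩ := h2
    exact ⟨c * k, by rw [hc, hd]; push_cast; ring⟩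
  choose! m hm using h1
  rw [cfun_apply_eq_sum hφ.cfun, Finset.sum_congr rfl hm, ← Nat.cast_sum, Nat.cast_inj,
    ← Finset.mul_sum] at e
  exact (Nat.not_even_iff_odd.2 hn) (e ▸ even_two_mul _)

/-- If all odd-degree irreducible characters are real, Sylow `2`-subgroups are self-normalizing. -/
theorem norm_le_of_all_real [Group.IsSolvable G] (hP : IsSyl 2 P X)
    (h : ∀ χ, IsIrr X χ → OddDeg χ → conjFun χ = χ) (n : ℕ) :
    ∀ L : Subgroup G, L.relIndex X = n → L ⊴ X → X ⊓ N[P] ≤ P ⊔ L := by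
  haveI : Fact (Nat.Prime 2) := ⟨Nat.prime_two⟩
  induction n using Nat.strong_induction_on with
  | _ n ih =>
  intro L hn hL
  rcases hL.le.eq_or_lt with rfl | hlt
  · exact inf_le_left.trans le_sup_right
  obtain ⟨K, hLK, hK, hab, hcase⟩ := exists_section hL hlt
  have h1 := ih _ (hn ▸ relIndex_lt_of_lt_left hLK hK.le le_rfl hK.le) K rfl hK
  rcases hcase with ⟨b, hb⟩ | ho
  · exact h1.trans (sup_le le_sup_left (le_sup_of_two hP hL hK hLK.le hb))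
  intro y hy
  obtain ⟨x, hx, k, hk, rfl⟩ := (mem_sup_of_le_normalizer ((hall_le hP).trans hK.norm)).1 (h1 hy)
  refine Subgroup.mul_mem _ (Subgroup.mem_sup_left hx) (Subgroup.mem_sup_right ?_)
  by_contra hkL
  have hkN : k ∈ N[P] := (Subgroup.mul_mem_cancel_left _ (Subgroup.le_normalizer hx)).1 hy.2
  have hKL : K ≤ N[L] := hK.le.trans hL.norm
  have hfix : ∀ z ∈ P, k⁻¹ * (z⁻¹ * k * z) ∈ L := fun z hz => by
    refine inf_le_of_odd (syl_isPGroup hP) hKL ho ⟨K.mul_mem (K.inv_mem hk)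
      (conj_mem_of_mem_normalizer' (hK.norm (hall_le hP hz)) hk), ?_⟩
    have : k⁻¹ * (z⁻¹ * k * z) = (k⁻¹ * z⁻¹ * k) * z := by group
    rw [this]
    exact P.mul_mem (conj_mem_of_mem_normalizer' hkN (P.inv_mem hz)) hz
  obtain ⟨β, b1, b2, b3⟩ := exists_lin_not_le_cfker (A := Subgroup.zpowers k) hLK.le hab
    ((Subgroup.zpowers_le).2 hk) (fun h' => hkL (h' (Subgroup.mem_zpowers k)))
  let _ := Fintype.ofFinite P
  let lam : G → ℂ := fun g => ∏ z : P, β ((z : G)⁻¹ * g * z)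
  have hPK : ∀ z : P, (z : G) ∈ N[K] := fun z => hK.norm (hall_le hP z.2)
  have l1 : IsLin K lam := by
    refine isLin_of_map_mul (fun g hg => Finset.prod_eq_zero (Finset.mem_univ (1 : P))
      (by simpa using b1.isIrr.2 g hg)) (Finset.prod_eq_one fun z _ => by simpa using b1.2)
      fun a ha b hb => ?_
    rw [← Finset.prod_mul_distrib]
    refine Finset.prod_congr rfl fun z _ => ?_
    rw [← b1.map_mul (conj_mem_of_mem_normalizer' (hPK z) ha)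
      (conj_mem_of_mem_normalizer' (hPK z) hb)]
    congr 1; group
  have l2 : L ≤ cfker K lam := fun g hg => l1.mem_cfker_iff.2 (Finset.prod_eq_one fun z _ =>
    b1.mem_cfker_iff.1 (b2 (conj_mem_of_mem_normalizer' (hL.norm (hall_le hP z.2)) hg)))
  have l3 : P ≤ inertia K lam := fun w hw => ⟨hPK ⟨w, hw⟩, funext fun g =>
    Fintype.prod_equiv (Equiv.mulLeft ⟨w, hw⟩) _ _ fun z => by
      simp only [Equiv.coe_mulLeft, Subgroup.coe_mul]; congr 1; group⟩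
  have l4 : lam k ≠ 1 := by
    intro e
    have e1 : lam k = β k ^ Nat.card P := by
      rw [Nat.card_eq_fintype_card, ← Finset.card_univ, ← Finset.prod_const]
      refine Finset.prod_congr rfl fun z _ => ?_
      rw [← cfker_mul_right b1.cfun (b2 (hfix z z.2)) k]
      congr 1; group
    refine b3 ((Subgroup.zpowers_le).2 (b1.mem_cfker_iff.2 ?_))
    refine eq_one_of_pow_coprime (lin_pow_relIndex b1 hKL b2 hk) (e1 ▸ e) ?_
    rw [syl_card hP]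
    exact Nat.Coprime.pow_right _ (Nat.coprime_two_right.2 ho)
  have hPKX : P ⊔ K ≤ X := sup_le (hall_le hP) hK.le
  obtain ⟨ν, n1, n2, -⟩ := extend_coprime_linear_char (hK.of_le le_sup_right hPKX) l1
    (sup_le l3 (le_inertia l1.cfun)) (fun g hg => lin_pow_relIndex l1 hKL l2 hg) (by
      rw [relIndex_sup_of_le_normalizer ((hall_le hP).trans hK.norm)]
      refine Nat.Coprime.coprime_dvd_left (Subgroup.relIndex_dvd_card K P) ?_
      rw [syl_card hP]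
      exact Nat.Coprime.pow_left _ (Nat.coprime_two_left.2 ho))
  obtain ⟨χ, c1, c2, c3⟩ := exists_odd_constituent (n1.isChar.cfInd hPKX)
    ⟨_, odd_relIndex_of_syl hP le_sup_left hPKX, by rw [cfInd_one, n1.2, mul_one]⟩
  rw [cfdot_cfInd_left hPKX _ c1.cfun] at c2
  have c4 : cfdot K χ lam ≠ 0 := over_trans c1.isChar hPKX le_sup_right n1.isIrr l1.isChar
    (fun h' => c2 (cfdot_symm_zero h')) (n2 ▸ cfdot_lin_cfRes n1 le_sup_right)
  have c5 := congrFun (real_of_under hK c1 l1.isIrr c4 c3 (h χ c1 c3)) k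
  have c6 := l1.mul_conj hk
  rw [conjFun_apply] at c5
  rw [c5, ← pow_two] at c6
  exact l4 (eq_one_of_pow_coprime (lin_pow_relIndex l1 hKL l2 hk) c6 (Nat.coprime_two_right.2 ho))

theorem lin_of_odd_of_two (hP : IsPGroup 2 P) (hχ : IsIrr P χ) (ho : OddDeg χ) : IsLin P χ := by
  haveI : Fact (Nat.Prime 2) := ⟨Nat.prime_two⟩
  obtain ⟨n, hn, e⟩ := ho
  obtain ⟨k, hk⟩ := IsPGroup.iff_card.1 hP
  have h1 : n ∣ Nat.card P := H12.irr_degree_dvd_card hχ.1 e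
  have h2 : n = 1 := Nat.eq_one_of_dvd_coprimes
    (Nat.Coprime.pow_right k (Nat.coprime_two_right.2 hn)) dvd_rfl (hk ▸ h1)
  exact hχ.isLin (by rw [e, h2, Nat.cast_one])

theorem all_real_iff_sq (hP : IsPGroup 2 P) :
    (∀ χ, IsIrr P χ → OddDeg χ → conjFun χ = χ) ↔ ∀ x ∈ P, x ^ 2 ∈ ⁅P, P⁆ := by
  constructor
  · intro h x hx
    by_contra h1
    obtain ⟨β, b1, -, b3⟩ := exists_lin_not_le_cfker (A := Subgroup.zpowers (x ^ 2))
      (derived_normalIn P).le le_rfl ((Subgroup.zpowers_le).2 (P.pow_mem hx 2))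
      (fun h' => h1 (h' (Subgroup.mem_zpowers _)))
    refine b3 ((Subgroup.zpowers_le).2 (b1.mem_cfker_iff.2 ?_))
    have c5 := congrFun (h β b1.isIrr ⟨1, odd_one, by rw [b1.2, Nat.cast_one]⟩) x
    have c6 := b1.mul_conj hx
    rw [conjFun_apply] at c5
    rwa [c5, ← pow_two, ← lin_map_pow b1 hx] at c6
  · intro h χ hχ ho
    have h1 := lin_of_odd_of_two hP hχ ho
    refine cfun_eq h1.conjFun.cfun h1.cfun fun x hx => ?_
    have h2 := h1.mem_cfker_iff.1 (h1.commutator_le_cfker (h x hx))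
    rw [lin_map_pow h1 hx, pow_two, ← h1.mul_conj hx, mul_right_inj' (h1.apply_ne_zero hx)] at h2
    exact h2.symm

theorem all_real_iff_card : (∀ χ, IsIrr X χ → OddDeg χ → conjFun χ = χ) ↔
    (goodF True X).card = (goodF False X).card := by
  have hs : goodF True X ⊆ goodF False X := fun χ hχ =>
    mem_goodF.2 ⟨(mem_goodF.1 hχ).1, (mem_goodF.1 hχ).2.1, False.elim⟩
  constructor
  · intro h
    refine le_antisymm (Finset.card_le_card hs) (Finset.card_le_card fun χ hχ => ?_)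
    obtain ⟨h1, h2, -⟩ := mem_goodF.1 hχ
    exact mem_goodF.2 ⟨h1, h2, fun _ => h χ h1 h2⟩
  · intro h χ h1 h2
    have := Finset.eq_of_subset_of_card_le hs h.ge
    have h3 : χ ∈ goodF True X := this ▸ mem_goodF.2 ⟨h1, h2, False.elim⟩
    exact (mem_goodF.1 h3).2.2 trivial

theorem all_real_iff [Group.IsSolvable G] (hP : IsSyl 2 P X) :
    (∀ χ, IsIrr X χ → OddDeg χ → conjFun χ = χ) ↔
      (∀ x ∈ P, x ^ 2 ∈ ⁅P, P⁆) ∧ X ⊓ N[P] = P := by
  haveI : Fact (Nat.Prime 2) := ⟨Nat.prime_two⟩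
  have hPN : P ≤ X ⊓ N[P] := le_inf (hall_le hP) Subgroup.le_normalizer
  have key : X ⊓ N[P] = P → ((∀ χ, IsIrr X χ → OddDeg χ → conjFun χ = χ) ↔
      ∀ x ∈ P, x ^ 2 ∈ ⁅P, P⁆) := fun e => by
    rw [← all_real_iff_sq (syl_isPGroup hP), all_real_iff_card, all_real_iff_card,
      card_goodF_eq True hP (fun _ => e.le), card_goodF_eq False hP (fun _ => e.le), e]
  constructor
  · intro h
    have e : X ⊓ N[P] = P := le_antisymm
      (by simpa using norm_le_of_all_real hP h _ ⊥ rfl (bot_normalIn X)) hPN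
    exact ⟨(key e).1 h, e⟩
  · exact fun h => (key h.2).2 h.1

theorem oddDeg_iff {A : Type*} [Group A] (χ : IrrCharacter A) :
    Odd (charDegree χ.1) ↔ ∃ n : ℕ, Odd n ∧ χ.1 1 = n :=
  ⟨fun h => ⟨_, h, (H21.cast_deg χ).symm⟩, fun ⟨_, h, e⟩ => by rwa [H21.charDegree_eq e]⟩

theorem real_iff_conjFun {A : Type*} (f : A → ℂ) : (∀ g, (f g).im = 0) ↔ conjFun f = f :=
  ⟨fun h => funext fun g => Complex.conj_eq_iff_im.2 (h g),
    fun h g => Complex.conj_eq_iff_im.1 (congrFun h g)⟩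

theorem card_goodF_true (X : Subgroup G) :
    Nat.card {ψ : IrrCharacter X // (∀ g, (ψ.1 g).im = 0) ∧ Odd (charDegree ψ.1)} =
      (goodF True X).card := by
  rw [← Nat.card_eq_finsetCard]
  refine Nat.card_congr ⟨fun ψ => ⟨extendByZero X ψ.1.1, mem_goodF.2 ⟨isIrr_ext.2 ψ.1.2, ?_,
    fun _ => ?_⟩⟩, fun χ => ⟨⟨res X χ.1, (mem_goodF.1 χ.2).1.1⟩, ?_, ?_⟩,
    fun ψ => Subtype.ext (Subtype.ext (res_ext _)),
    fun χ => Subtype.ext (ext_res (mem_goodF.1 χ.2).1.2)⟩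
  · obtain ⟨n, hn, e⟩ := (oddDeg_iff _).1 ψ.2.2
    exact ⟨n, hn, by rw [H14.extendByZero_of_mem X _ X.one_mem]; exact e⟩
  · refine (real_iff_conjFun _).1 fun g => ?_
    by_cases hg : g ∈ X
    · rw [H14.extendByZero_of_mem X _ hg]; exact ψ.2.1 _
    · rw [H14.extendByZero_of_not_mem X _ hg, Complex.zero_im]
  · exact fun g => (real_iff_conjFun _).2 ((mem_goodF.1 χ.2).2.2 trivial) g
  · exact (oddDeg_iff _).2 (mem_goodF.1 χ.2).2.1

theorem card_goodF_top :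
    Nat.card {ψ : IrrCharacter G // (∀ g, (ψ.1 g).im = 0) ∧ Odd (charDegree ψ.1)} =
      (goodF True (⊤ : Subgroup G)).card := by
  rw [← Nat.card_eq_finsetCard]
  exact Nat.card_congr ⟨fun ψ => ⟨ψ.1.1, mem_goodF.2 ⟨isIrr_top.2 ψ.1.2, (oddDeg_iff _).1 ψ.2.2,
    fun _ => (real_iff_conjFun _).1 ψ.2.1⟩⟩,
    fun χ => ⟨⟨χ.1, isIrr_top.1 (mem_goodF.1 χ.2).1⟩,
      (real_iff_conjFun _).2 ((mem_goodF.1 χ.2).2.2 trivial),
      (oddDeg_iff _).2 (mem_goodF.1 χ.2).2.1⟩, fun _ => rfl, fun _ => rfl⟩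

end Cfsg.Agent.H19
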