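import Mathlib
import Cfsg.Agent.H74.RuDefs

/-!
# Anisotropic additive subgroups of a unitary space are small
-/

set_option autoImplicit false

namespace Cfsg.Agent.H19.RuCW

open Module MvPolynomial Cfsg.Agent.H31 Cfsg.Agent.H74.Ru

/-- A bilinear map into a small space has an isotropic vector. -/
theorem iso {K W U : Type*} [Field K] [Fintype K] [AddCommGroup W] [Module K W] [AddCommGroup U]
    [Module K U] [Module.Finite K W] [Module.Finite K U] (β : W →ₗ[K] W →ₗ[K] U)
    (h : 2 * finrank K U < finrank K W) : ∃ w, w ≠ 0 ∧ β w w = 0 := by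
  classical
  let a := Module.finBasis K W
  let b := Module.finBasis K U
  let f : Fin (finrank K U) → MvPolynomial (Fin (finrank K W)) K := fun s =>
    ∑ i, ∑ j, C (b.coord s (β (a i) (a j))) * (X i * X j)
  have deg : ∀ s, (f s).totalDegree ≤ 2 := fun s =>
    totalDegree_finsetSum_le fun i _ => totalDegree_finsetSum_le fun j _ =>
      (totalDegree_mul _ _).trans (by
        have := totalDegree_mul (X i : MvPolynomial (Fin (finrank K W)) K) (X j)
        rw [totalDegree_X, totalDegree_X] at this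
        rw [totalDegree_C]; omega)
  have ev : ∀ x s, eval x (f s) = b.coord s (β (∑ i, x i • a i) (∑ i, x i • a i)) := fun x s => by
    simp only [f, map_sum, map_mul, eval_C, eval_X, map_smul, LinearMap.sum_apply,
      LinearMap.smul_apply, smul_eq_mul, Finset.mul_sum]
    rw [Finset.sum_comm]
    exact Finset.sum_congr rfl fun i _ => Finset.sum_congr rfl fun j _ => by ring
  obtain ⟨n, hp, -⟩ := FiniteField.card K (ringChar K)
  have d := char_dvd_card_solutions_of_fintype_sum_lt (ringChar K) (f := f) (by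
    rw [Fintype.card_fin]
    refine lt_of_le_of_lt (Finset.sum_le_sum fun s _ => deg s) ?_
    simpa [mul_comm] using h)
  let z : {x : Fin (finrank K W) → K // ∀ s, eval x (f s) = 0} := ⟨0, fun s => by rw [ev]; simp⟩
  have : Nonempty {x : Fin (finrank K W) → K // ∀ s, eval x (f s) = 0} := ⟨z⟩
  rw [Fintype.card_eq_nat_card] at d
  have := Finite.one_lt_card_iff_nontrivial.1 (lt_of_lt_of_le hp.one_lt (Nat.le_of_dvd Nat.card_pos d))
  obtain ⟨x, hx⟩ := exists_ne z
  refine ⟨∑ i, x.1 i • a i, fun e => hx (Subtype.ext (funext fun i => ?_)), ?_⟩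
  · exact Fintype.linearIndependent_iff.1 a.linearIndependent _ e i
  · exact b.forall_coord_eq_zero_iff.1 fun s => (ev _ s).symm.trans (x.2 s)

theorem iso_mod {W U : Type*} [AddCommGroup W] [AddCommGroup U] [Finite W] [Finite U] {p : ℕ}
    [hp : Fact p.Prime] [Module (ZMod p) W] [Module (ZMod p) U] (β : W →+ W →+ U)
    (h : Nat.card U ^ 2 < Nat.card W) : ∃ w, w ≠ 0 ∧ β w w = 0 := by
  refine iso (K := ZMod p) (LinearMap.mk₂ (ZMod p) (fun x y => β x y) (fun x y z => by simp)
    (fun c x y => ZMod.map_smul (β.flip y) c x) (fun x y z => by simp)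
    fun c x y => ZMod.map_smul (β x) c y) ?_
  rw [Module.natCard_eq_pow_finrank (K := ZMod p) (V := U),
    Module.natCard_eq_pow_finrank (K := ZMod p) (V := W), Nat.card_zmod, ← pow_mul] at h
  rw [mul_comm]
  exact (Nat.pow_lt_pow_iff_right hp.out.one_lt).1 h

/-- The same for groups of prime exponent. -/
theorem iso_add {W U : Type*} [AddCommGroup W] [AddCommGroup U] [Finite W] [Finite U] {p : ℕ}
    (hp : p.Prime) (hW : ∀ w : W, p • w = 0) (hU : ∀ w : U, p • w = 0) (β : W →+ W →+ U)
    (h : Nat.card U ^ 2 < Nat.card W) : ∃ w, w ≠ 0 ∧ β w w = 0 :=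
  haveI := Fact.mk hp
  @iso_mod W U _ _ _ _ p _ (AddCommGroup.zmodModule hW) (AddCommGroup.zmodModule hU) β h

theorem cw : CwStmt := by
  intro F V _ _ _ _ _ S A hA
  by_contra hc
  have : Finite V := Module.finite_of_finite F
  obtain ⟨k, -, hp, -⟩ := exists_pow_char S.hF
  have hi := S.herm.inv
  obtain ⟨d, hd⟩ := hi.exists_trace_eq (map_one S.σ)
  have p0 : ((ringChar F : ℕ) : F) = 0 := ringChar.Nat.cast_ringChar
  let τ : F →+ fixedField S.σ := AddMonoidHom.mk' (fun y => ⟨d * y + S.σ (d * y), hi.trace_fixed _⟩)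
    fun x y => Subtype.ext (by simp only [mul_add, map_add, Subfield.coe_add]; ring)
  let β : A →+ A →+ fixedField S.σ := AddMonoidHom.mk' (fun x => AddMonoidHom.mk'
    (fun y => τ (S.B x y)) fun y z => by simp) fun x y => by ext z; simp
  obtain ⟨w, w0, hw⟩ := iso_add hp (fun w => Subtype.ext (by
      rw [AddSubgroup.coe_nsmul, ← Nat.cast_smul_eq_nsmul F, p0, zero_smul]; rfl))
    (fun w => Subtype.ext (by
      rw [AddSubmonoidClass.coe_nsmul, nsmul_eq_mul, p0, zero_mul]; rfl)) β (by
      rw [show Nat.card (fixedField S.σ) = S.q from card_fixed S.hF S.hσ]; exact not_le.1 hc)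
  refine w0 (Subtype.ext (hA w w.2 ?_))
  have e : d * S.B w w + S.σ (d * S.B w w) = 0 := congrArg Subtype.val hw
  rw [map_mul, S.herm.symm, ← add_mul, hd, one_mul] at e
  exact e

end Cfsg.Agent.H19.RuCW
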