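import Cfsg.Agent.H56.SpDefs

/-! Project CY, chapter SP: a point stabiliser does not centralise its group. -/

set_option autoImplicit false

namespace Cfsg.Agent.H19.SpHn

open Subgroup MulAction Cfsg.Agent.H11.Cy Cfsg.Agent.H56.Sp
open Cfsg.Agent.H45.Iv (Fx)

variable {G : Type} [Group G] {Ω : Type} [MulAction G Ω] {p : ℕ} {A : Ω → Subgroup G}

/-- Every line is the first line of a commuting pair. -/
theorem exists_pr (hy : Hy p A) {x y : Ω} (hxy : x ≠ y) :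
    ∃ x' y' z u, Pr A x y x' y' z u := by
  obtain ⟨z, hz⟩ := (hy.lf x y hxy).ex
  obtain ⟨b, hb⟩ := (Set.ne_univ_iff_exists_notMem _).1 (hy.ml x y hxy)
  have hzb : z • b ≠ b := fun e => hb (hy.fz x y hxy z hz ▸ (e : b ∈ Fx Ω z))
  obtain ⟨u, hu⟩ := (hy.lf b (z • b) hzb.symm).ex
  obtain ⟨h1, h2⟩ := hy.cz.sw x y hxy z hz b hzb u hu
  exact ⟨b, z • b, z, u, hxy, hzb.symm, hz, hu, h1, h2⟩

theorem hn : HnStmt := by
  intro G _ _ Ω _ _ p A h hy bb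
  have := h.nt
  obtain ⟨x, y, hxy⟩ := exists_pair_ne Ω
  obtain ⟨x', y', z, u, pr⟩ := exists_pr hy hxy
  obtain ⟨-, hN, t, ht, hnt⟩ := bb x y x' y' z u pr
  have l := hy.lf x y hxy
  have hL := (hy.mc.ep.nrm x y hxy t).1 (hN ht)
  obtain ⟨f, hf, e1, e2⟩ := l.tr (t • x) (hL x l.mem.1) (t • y) (hL y l.mem.2) x l.mem.1 y l.mem.2
    (fun e => hxy (MulAction.injective t e)) hxy
  rw [← mul_smul] at e1 e2
  refine ⟨x, f * t, e1, fun hc => hnt ⟨f⁻¹, inv_mem hf, f * t, ?_, by group⟩⟩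
  exact hy.mc.ep.eps x y hxy _ ⟨e1, e2⟩ hc

end Cfsg.Agent.H19.SpHn
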