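import Cfsg.Agent.H58.SWDefs

/-! Project SW: the piece ALPHA. -/

set_option autoImplicit false

namespace Cfsg.Agent.H19.SwAlpha

open Matrix Cfsg Cfsg.Agent.H58.SW FiniteField
open scoped commutatorElement

theorem cube {G : Type*} [Group G] {y : G} {m b : ℤ} {i : ℕ} (h : y ^ ((m - 1) ^ 3) = 1)
    (e : y ^ (m ^ i) = y ^ b) : y ^ ((b - 1) ^ 3) = 1 := by
  rw [← orderOf_dvd_iff_zpow_eq_one] at h ⊢
  have h1 : m - 1 ∣ m ^ i - 1 := by simpa using sub_dvd_pow_sub_pow m 1 i
  exact (Int.modEq_zero_iff_dvd.1 ((((zpow_eq_zpow_iff_modEq.1 e).sub_right 1).pow 3).symm.trans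
    (Int.modEq_zero_iff_dvd.2 (h.trans (pow_dvd_pow_of_dvd h1 3)))))

theorem three {G K : Type*} [Group G] [CommGroup K] (J : K →* G) (hJ : Function.Injective J) {x : G}
    {m : ℤ} (hx : ∀ k, x * J k * x⁻¹ = J (k ^ m)) {y : K}
    (h : Commute x ⁅x, J y * x * (J y)⁻¹⁆) : y ^ ((m - 1) ^ 3) = 1 := by
  have h1 : J y * x * (J y)⁻¹ = J (y * y⁻¹ ^ m) * x := by
    rw [map_mul, ← hx, map_inv]
    group
  have h2 : ∀ c, ⁅x, J c * x⁆ = J (c ^ m * c⁻¹) := fun c => by
    rw [map_mul, ← hx, map_inv, commutatorElement_def]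
    group
  rw [h1, h2] at h
  have h3 := hx ((y * y⁻¹ ^ m) ^ m * (y * y⁻¹ ^ m)⁻¹)
  rw [h.eq, mul_inv_cancel_right] at h3
  have h4 := hJ h3
  rw [← mul_inv_eq_one] at h4
  rw [← h4]
  group

theorem alpha (hKA : KAStmt) (hKT : KTStmt) (hC : CentStmt) (hL : FisoLStmt) (hU : FisoUStmt) :
    AlphaStmt := by
  intro F _ _ _ n c r H Q lc _ A x mq ab _ fl rk nc
  have ka := hKA F n c
  have hSt : A ≤ c.St := fun a ha => ((ka.mem_hat H a).1 (lc.qh (mq.le ha))).1
  obtain ⟨K, _, _, _, s, j, Φ, -, hK, cK, -, -, -, hΦ, hu⟩ : FIso c A := by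
    cases e : c.u
    exacts [hL F n c e A ab fl, hU F n c e A hSt ab fl]
  rw [rk] at cK hu
  have n2 := c.hn
  haveI : Nonempty (Fin n) := ⟨⟨0, by omega⟩⟩
  have ji := j.injective
  have hA : ∀ a ∈ A, (a : Mt n F) ∈ spanG A := fun a ha => Submodule.subset_span ⟨a, ha, rfl⟩
  choose f hf using fun a : F => (hK (a • 1)).1 (Submodule.smul_mem _ a (hA 1 (one_mem A)))
  letI : Algebra F K := RingHom.toAlgebra
    { toFun := f
      map_one' := ji (by rw [hf, map_one, one_smul])
      map_mul' := fun a b => ji (by rw [map_mul, hf, hf, hf, smul_mul_smul_comm, mul_one])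
      map_zero' := ji (by rw [hf, map_zero, zero_smul])
      map_add' := fun a b => ji (by rw [map_add, hf, hf, hf, add_smul]) }
  replace hf : ∀ a, j (algebraMap F K a) = a • 1 := hf
  have js : ∀ (a : F) k, j (a • k) = a • j k := fun a k => by
    rw [Algebra.smul_def, map_mul, hf, smul_mul_assoc, one_mul]
  have fr : Module.finrank F K = n := Nat.pow_right_injective Fintype.one_lt_card
    ((Module.card_eq_pow_finrank (K := F) (V := K)).symm.trans cK)
  have hin := (hKT F n c).span H A mq.inv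
  choose t ht using fun k : K => (hK _).1
    ((hKT F n c).hatM H _ hin x (lc.qh nc.mem) (j k) ((hK _).2 ⟨k, rfl⟩))
  let τ : K →ₐ[F] K :=
    { toFun := t
      map_one' := ji (by simp [ht, cj])
      map_mul' := fun a b => ji (by simp [ht, cj, mul_assoc])
      map_zero' := ji (by simp [ht, cj])
      map_add' := fun a b => ji (by simp [ht, cj, mul_add, add_mul])
      commutes' := fun a => ji (by simp [ht, cj, hf]) }
  obtain ⟨⟨i, hi⟩, hτ⟩ := (bijective_frobeniusAlgHom_pow F K).2 τ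
  have φp : ∀ (l : ℕ) (k : K), (frobeniusAlgHom F K ^ l) k = k ^ Fintype.card F ^ l := fun l k => by
    rw [AlgHom.coe_pow, coe_frobeniusAlgHom, pow_iterate]
  replace ht : ∀ k, cj x (j k) = j (k ^ Fintype.card F ^ i) := fun k => by
    rw [← ht, ← φp, show frobeniusAlgHom F K ^ i = τ from hτ]; rfl
  let J : Kˣ →* Gl n F := Units.map j.toMonoidHom
  have hJ : Function.Injective J := Units.map_injective ji
  have hx : ∀ k, x * J k * x⁻¹ = J (k ^ ((Fintype.card F : ℤ) ^ i)) := fun k => by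
    rw [← Nat.cast_pow, zpow_natCast]
    exact Units.ext ((ht k).trans (by simp [J]))
  obtain ⟨a, ha, hxa⟩ := nc.nc
  have i0 : i ≠ 0 := by
    rintro rfl
    obtain ⟨k, hk⟩ := (hK _).1 (hA a ha)
    have := ht k
    rw [pow_zero, pow_one, hk] at this
    exact hxa (mul_inv_eq_iff_eq_mul.1 (Units.ext this : x * a * x⁻¹ = a))
  have hr := lc.prime
  -- `r` divides `|F| - 1`
  have hd : r ∣ Fintype.card F - 1 := by
    have h1 := mq.cen a ha x nc.mem
    obtain ⟨μ, m1, m2⟩ := (ka.mem_Z _).1 h1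
    have h2 : ⁅x, a⁆ ^ r = 1 := by
      have h3 : x * a * x⁻¹ = ⁅x, a⁆ * a := by rw [commutatorElement_def]; group
      have h4 := congrArg (· ^ r) h3
      simp only [conj_pow, (ka.zcomm _ h1 a).mul_pow] at h4
      rw [← (ka.zcomm _ (mq.pw a ha) x).eq, mul_inv_cancel_right] at h4
      exact (right_eq_mul.1 h4)
    have h5 : μ ^ r = 1 := by
      have := congrArg Units.val h2
      rw [Units.val_pow_eq_pow_val, m2, smul_pow, one_pow, Units.val_one] at this
      exact (algebraMap F K).injective (ji (by rw [hf, hf, this, one_smul]))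
    haveI := Fact.mk hr
    rw [← orderOf_eq_prime h5 fun e => hxa (commutatorElement_eq_one_iff_commute.1
      (Units.ext (by rw [m2, e, one_smul, Units.val_one])))]
    exact orderOf_dvd_of_pow_eq_one (pow_card_sub_one_eq_one μ m1.1)
  have hn : n = r := by
    refine ((Nat.dvd_prime hr).1 ?_).resolve_left (by omega)
    rw [← fr, ← orderOf_frobeniusAlgHom]
    refine orderOf_dvd_of_pow_eq_one (AlgHom.ext fun k => ?_)
    suffices h : ∀ y ∈ spanG A, ∀ k, j k = y → (frobeniusAlgHom F K ^ r) k = k from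
      h _ ((hK _).2 ⟨k, rfl⟩) k rfl
    intro y hy
    induction hy using Submodule.span_induction with
    | mem y hy =>
      obtain ⟨b, hb, rfl⟩ := hy
      intro k hk
      obtain ⟨ν, n1, n3⟩ := (ka.mem_Z _).1 (mq.pw b hb)
      obtain ⟨d, hd'⟩ := hd
      have h1 : k ^ r = algebraMap F K ν := ji (by
        rw [map_pow, hk, hf, ← n3, Units.val_pow_eq_pow_val])
      have h2 : frobeniusAlgHom F K k = ν ^ d • k := by
        rw [coe_frobeniusAlgHom, Algebra.smul_def, map_pow, ← h1, ← pow_mul, ← hd', ← pow_succ,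
          Nat.sub_add_cancel Fintype.card_pos]
      have h3 : ∀ l : ℕ, (frobeniusAlgHom F K ^ l) k = (ν ^ d) ^ l • k := fun l => by
        induction l with
        | zero => simp
        | succ l ih => rw [pow_succ', AlgHom.mul_apply, ih, map_smul, h2, smul_smul, pow_succ]
      rw [h3, ← pow_mul, mul_comm, ← hd', pow_card_sub_one_eq_one ν n1.1, one_smul]
    | zero =>
      intro k hk
      rw [ji (hk.trans (map_zero j).symm), map_zero]
    | add y z hy hz iy iz =>
      intro k hk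
      obtain ⟨k1, rfl⟩ := (hK _).1 hy
      obtain ⟨k2, rfl⟩ := (hK _).1 hz
      rw [ji (hk.trans (map_add j _ _).symm), map_add, iy k1 rfl, iz k2 rfl]
    | smul b y hy iy =>
      intro k hk
      obtain ⟨k1, rfl⟩ := (hK _).1 hy
      rw [ji (hk.trans (js _ _).symm), map_smul, iy k1 rfl]
  refine ⟨hn, ?_⟩
  subst hn
  -- Frobenius is a power of `τ`
  obtain ⟨i', -, hi'⟩ := Nat.exists_mul_mod_eq_one_of_coprime
    ((Nat.coprime_of_lt_prime i0 (fr ▸ hi) hr).symm) hr.one_lt
  have fp : ∀ (l : ℕ) (k : Kˣ), k ^ (((Fintype.card F : ℤ) ^ i) ^ (i' * l)) =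
      k ^ Fintype.card F ^ l := fun l k => by
    have h1 : frobeniusAlgHom F K ^ (i * i') = frobeniusAlgHom F K := by
      rw [← pow_mod_orderOf, orderOf_frobeniusAlgHom, fr, hi', pow_one]
    rw [← pow_mul, ← Nat.cast_pow, zpow_natCast]
    refine Units.ext ?_
    rw [Units.val_pow_eq_pow_val, Units.val_pow_eq_pow_val, ← φp, ← φp, ← mul_assoc, pow_mul, h1]
  -- the torus
  have key : ∀ k : Kˣ, J k ∈ c.St →
      (k ^ c.zc) ^ (((Fintype.card F : ℤ) ^ i - 1) ^ 3) = 1 := fun k hk => by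
    refine three J hJ hx (nc.w _ ((hC F n c n H Q lc _ hin ⟨a, hA a ha, fun ⟨b, hb⟩ => hxa
      (Units.ext (by simp [hb]))⟩).1 _ ((ka.mem_S _).2 ⟨map_pow J k _ ▸ pow_mem hk _, ?_⟩) ?_))
    · obtain ⟨z1, z2⟩ := ka.det_zv _ hk
      rw [map_pow, Units.val_pow_eq_pow_val, det_pow, Cl.zc]
      split_ifs with e
      · exact z2 e
      · have := c.hq
        rw [if_neg e] at this
        exact this ▸ pow_card_sub_one_eq_one _ z1
    · intro y hy
      obtain ⟨k', rfl⟩ := (hK _).1 hy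
      exact (Commute.all _ k').map j
  obtain ⟨g, hg⟩ := IsCyclic.exists_ofOrder_eq_natCard (α := Kˣ)
  rw [Nat.card_units, Nat.card_eq_fintype_card, cK] at hg
  have hq := c.hq
  have q2 := ka.two_le
  split_ifs at hq ⊢ with e
  · obtain ⟨⟨l, hl⟩, h2⟩ := hu e
    have h1 : c.q ^ n + 1 ∣ orderOf g := by
      rw [hg, hq, ← pow_mul, mul_comm, pow_mul]
      exact ⟨_, Nat.sq_sub_sq _ 1⟩
    have h3 := orderOf_pow_orderOf_div (orderOf_pos g).ne' h1
    generalize g ^ (orderOf g / (c.q ^ n + 1)) = k at h3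
    have h4 : k ^ (c.q ^ n + 1) = 1 := h3 ▸ pow_orderOf_eq_one k
    have h5 : J k ∈ c.St := (ka.mem_St _).2 fun _ => by
      have h6 := h2 ((k : K) • 1)
      rw [hΦ, show (((k : K) • (1 : Matrix (Fin s) (Fin s) K)).map fun a => a ^ c.q ^ n)ᵀ =
        ((k : K) ^ c.q ^ n) • 1 by
          ext a b
          by_cases hab : b = a
          · simp [hab]
          · simp [hab, Ne.symm hab, show c.q ≠ 0 by omega], hΦ] at h6
      change c.st (j k) * j k = 1
      rw [← h6, ← map_mul, ← pow_succ, ← Units.val_pow_eq_pow_val, h4, Units.val_one, map_one]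
    have h7 := cube (b := -c.q) (i := i' * (l + 1)) (key k h5) (by
      rw [fp, hq, ← pow_mul c.q, show 2 * (l + 1) = n + 1 by omega, _root_.zpow_neg, zpow_natCast,
        eq_inv_iff_mul_eq_one, ← pow_add, ← pow_mul,
        show c.zc * (c.q ^ (n + 1) + c.q) = (c.q ^ n + 1) * (c.zc * c.q) by ring, pow_mul, h4,
        one_pow])
    rw [show (-(c.q : ℤ) - 1) ^ 3 = -((c.zc ^ 3 : ℕ) : ℤ) by rw [Cl.zc, if_pos e]; push_cast; ring,
      _root_.zpow_neg, inv_eq_one, zpow_natCast, ← pow_mul, ← pow_succ'] at h7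
    exact h3 ▸ orderOf_dvd_of_pow_eq_one h7
  · have h7 := cube (b := c.q) (i := i' * 1) (key g ((ka.mem_St _).2 fun e' => absurd e' e)) (by
      rw [fp, hq, pow_one, zpow_natCast])
    rw [show ((c.q : ℤ) - 1) ^ 3 = ((c.zc ^ 3 : ℕ) : ℤ) by
      rw [Cl.zc, if_neg e, Nat.cast_pow, Nat.cast_sub (by omega), Nat.cast_one],
      zpow_natCast, ← pow_mul, ← pow_succ'] at h7
    rw [← hq, ← hg]
    exact orderOf_dvd_of_pow_eq_one h7

end Cfsg.Agent.H19.SwAlpha
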