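import Cfsg.Agent.H58.SWDefs

/-! Project SW: the piece ARITH. -/

set_option autoImplicit false

namespace Cfsg.Agent.H19.SwArith

open Cfsg.Agent.H58.SW

theorem arith : ArithStmt := by
  refine ⟨fun q r hq hr h => ?_, fun q r hq hr h3 h => ?_, fun d hd => ?_, fun d r hd hr => ?_⟩
  · have h1 := Nat.le_of_dvd (pow_pos (by omega) _) h
    have h2 : r < 4 := by
      by_contra! e
      have h2 := Nat.pow_le_pow_right (by omega : 0 < q) e
      obtain ⟨s, rfl⟩ : ∃ s, q = s + 2 := ⟨q - 2, by omega⟩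
      rw [show s + 2 - 1 = s + 1 from rfl] at h1
      have : (s + 1) ^ 4 + 1 < (s + 2) ^ 4 := by ring_nf; omega
      omega
    have := hr.two_le
    interval_cases r
    · refine ⟨rfl, by_contra fun e => ?_⟩
      obtain ⟨s, rfl⟩ : ∃ s, q = s + 10 := ⟨q - 10, by omega⟩
      rw [show (s + 10) ^ 2 - 1 = (s + 9) * (s + 11) from Nat.sub_eq_of_eq_add (by ring),
        show s + 10 - 1 = s + 9 from rfl, pow_succ' _ 3] at h
      have h4 : s + 11 ∣ (s + 9) ^ 3 + 8 := ⟨s ^ 2 + 16 * s + 67, by ring⟩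
      have := Nat.le_of_dvd (by omega) ((Nat.dvd_add_right
        (Nat.dvd_of_mul_dvd_mul_left (by omega) h)).1 h4)
      omega
    · exfalso
      by_cases e : q < 7
      · interval_cases q <;> omega
      obtain ⟨s, rfl⟩ : ∃ s, q = s + 7 := ⟨q - 7, by omega⟩
      rw [show (s + 7) ^ 3 - 1 = s ^ 3 + 21 * s ^ 2 + 147 * s + 342 from
        Nat.sub_eq_of_eq_add (by ring), show s + 7 - 1 = s + 6 from rfl,
        show (s + 6) ^ 4 = (s ^ 3 + 21 * s ^ 2 + 147 * s + 342) * (s + 3) +
          (6 * s ^ 2 + 81 * s + 270) by ring] at h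
      have := Nat.le_of_dvd (by omega) ((Nat.dvd_add_right (dvd_mul_right _ _)).1 h)
      omega
  · have h1 := Nat.le_of_dvd (pow_pos (by omega) _) h
    by_cases e : r = 3
    · subst e
      refine ⟨rfl, ?_⟩
      by_cases e : q < 7
      · interval_cases q <;> omega
      obtain ⟨s, rfl⟩ : ∃ s, q = s + 7 := ⟨q - 7, by omega⟩
      rw [show (s + 7 + 1) ^ 4 = ((s + 7) ^ 3 + 1) * (s + 11) + (6 * s ^ 2 + 87 * s + 312) by ring]
        at h
      have := Nat.le_of_dvd (by omega) ((Nat.dvd_add_right (dvd_mul_right _ _)).1 h)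
      rw [show (s + 7) ^ 3 = s ^ 3 + 21 * s ^ 2 + 147 * s + 343 by ring] at this
      omega
    exfalso
    have h5 : 5 ≤ r := by
      by_contra! e'
      obtain rfl : r = 4 := by omega
      exact absurd hr (by decide)
    have h6 : q < 4 := by
      by_contra! e'
      have h2 := Nat.pow_le_pow_right (by omega : 0 < q) h5
      obtain ⟨s, rfl⟩ : ∃ s, q = s + 4 := ⟨q - 4, by omega⟩
      have : (s + 4 + 1) ^ 4 < (s + 4) ^ 5 := by ring_nf; omega
      omega
    have h7 : r < 9 := by
      by_contra! e'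
      have h2 := (Nat.pow_le_pow_right two_pos e').trans (Nat.pow_le_pow_left hq r)
      have h8 := Nat.pow_le_pow_left (show q + 1 ≤ 4 by omega) 4
      omega
    interval_cases q <;> interval_cases r <;> omega
  · exact Nat.mul_le_mul (Nat.factorial_le hd : Nat.factorial 4 ≤ _)
      ((Nat.pow_le_pow_right (by omega) hd : 6 ^ 4 ≤ _).trans
        (Nat.pow_le_pow_left (Nat.factorial_le (by omega) : Nat.factorial 3 ≤ _) d))
  · refine le_trans ?_ (Nat.pow_le_pow_left (Nat.factorial_le (by omega) : Nat.factorial 3 ≤ _) d)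
    rw [show Nat.factorial 3 = 2 * 3 from rfl, mul_pow]
    exact Nat.mul_le_mul ((by omega : 12 ≤ 2 ^ 4).trans (Nat.pow_le_pow_right two_pos hd))
      (Nat.pow_le_pow_left hr d)

end Cfsg.Agent.H19.SwArith
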