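import Mathlib
import Cfsg.Agent.H19.SymAlt

/-!
Vanishing of characters of symmetric groups; partitions with at most three rows.
-/

set_option autoImplicit false
set_option linter.unusedSectionVars false

namespace Cfsg.Agent.H19

open Finset Function Equiv Cfsg

variable {N p : ℕ} {α : Type*} [Fintype α] [DecidableEq α]

theorem cnt_insert_congr {T : Finset ℕ} {x y : ℕ} (hx : x ∉ T) (hy : y ∉ T) (h : x % p = y % p) :
    cnt p (insert x T) = cnt p (insert y T) := by
  funext j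
  simp only [cnt, card_run j.2, filter_insert, h]
  split_ifs
  · rw [card_insert_of_notMem (fun h => hx (mem_filter.1 h).1),
      card_insert_of_notMem (fun h => hy (mem_filter.1 h).1)]
  · rfl

/-- A character vanishes if more cells are removed in `p`-divisible cycles than the weight allows. -/
theorem chiS_eq_zero_of_core (hp : 0 < p) {κ S : Finset ℕ} {f n : ℕ} (hκ : κ ∈ Lam N f)
    (h0 : ∀ x ∈ κ, p ≤ x → x - p ∈ κ) (hS : S ∈ Lam N n) (hc : cnt p S = cnt p κ)
    {ν μ : Multiset ℕ} (hν : ∀ r ∈ ν, 0 < r ∧ p ∣ r) (hμ : ∀ r ∈ μ, ¬ p ∣ r)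
    (hn : μ.sum + ν.sum = n) (hN : n ≤ N) (hm : μ.sum < f) : chiS N S (ν + μ) = 0 := by
  have h1 : wgt p κ = 0 := by
    by_contra h
    obtain ⟨x, hx, h2, h3⟩ := exists_move_of_wgt h
    exact h3 (h0 x hx h2)
  have h2 : baseS (cnt p κ) = N.choose 2 + f := by
    have := sum_eq_baseS hp κ
    rw [h1, (mem_Lam.1 hκ).2] at this
    omega
  have h3 := KX_add (N := N) (cnt p κ) hν hμ (by omega) μ.sum
  rw [KX, KX, XS_eq_empty hp h2 hm, sum_empty, mul_zero, hn,
    sum_eq_zero_iff_of_nonneg fun T _ => mul_self_nonneg _] at h3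
  exact mul_self_eq_zero.1 (h3 S (mem_XS.2 ⟨hS, hc⟩))

/-- The `β`-set with `k + 3` beads of the partition `(a, b, c)`. -/
def threeS (k a b c : ℕ) : Finset ℕ :=
  insert (k + 2 + a) (insert (k + 1 + b) (insert (k + c) (range k)))

theorem mem_threeS {k a b c x : ℕ} :
    x ∈ threeS k a b c ↔ x = k + 2 + a ∨ x = k + 1 + b ∨ x = k + c ∨ x < k := by
  simp [threeS]

theorem threeS_mem {k a b c : ℕ} (h1 : b ≤ a) (h2 : c ≤ b) :
    threeS k a b c ∈ Lam (k + 3) (a + b + c) := by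
  have e1 : k + c ∉ range k := by simp
  have e2 : k + 1 + b ∉ insert (k + c) (range k) := by simp; omega
  have e3 : k + 2 + a ∉ insert (k + 1 + b) (insert (k + c) (range k)) := by simp; omega
  rw [mem_Lam, threeS, card_insert_of_notMem e3, card_insert_of_notMem e2,
    card_insert_of_notMem e1, card_range, sum_insert e3, sum_insert e2, sum_insert e1,
    sum_range_choose_two, choose_two_succ (k + 2), choose_two_succ (k + 1), choose_two_succ k]
  exact ⟨rfl, by ring⟩

theorem cjS_threeS_ne {k a b c : ℕ} (h1 : 4 ≤ a) (h2 : a ≤ k + 3) :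
    cjS (2 * (k + 3)) (threeS k a b c) ≠ threeS k a b c := by
  intro h
  have h3 : k + 2 + a ∈ cjS (2 * (k + 3)) (threeS k a b c) := by
    rw [h, mem_threeS]; omega
  rw [mem_cjS, mem_threeS] at h3
  omega

theorem cnt_threeS {k a b c j : ℕ} (h1 : b ≤ a) (h2 : c ≤ b) :
    cnt p (threeS k (a + p * j) b c) = cnt p (threeS k a b c) := by
  refine cnt_insert_congr (by simp; omega) (by simp; omega) ?_
  rw [← add_assoc, Nat.add_mul_mod_self_left]

theorem orderOf_dvd_of_typ {σ : Perm α} {m : ℕ} (h : ∀ r ∈ typ σ, r ∣ m) : orderOf σ ∣ m := by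
  rw [← Perm.lcm_cycleType, Multiset.lcm_dvd]
  exact fun r hr => h r (by rw [typ_eq]; exact Multiset.mem_add.2 (Or.inl hr))

/-- An extendible character of the alternating group vanishing at an element of given type. -/
theorem exists_alt_vanish (hp : 0 < p) {a b c j : ℕ} (h1 : b ≤ a) (h2 : c ≤ b)
    (h4 : 4 ≤ a + p * j) (hn : Fintype.card α = a + p * j + b + c)
    (h0 : ∀ k, ∀ x ∈ threeS k a b c, p ≤ x → x - p ∈ threeS k a b c)
    {ν μ : Multiset ℕ} (hν : ∀ r ∈ ν, 0 < r ∧ p ∣ r) (hμ : ∀ r ∈ μ, r = 1) (hp1 : p ≠ 1)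
    (hs : μ.sum + ν.sum = Fintype.card α) (hm : μ.sum < a + b + c)
    (he : Even ((ν + μ).sum + (ν + μ).card)) :
    ∃ χ : IrrCharacter (alternatingGroup α),
      (∃ x : alternatingGroup α, typ (x : Perm α) = ν + μ ∧ χ.1 x = 0) ∧
      ∃ ψ : IrrCharacter (Perm α), ∀ x : alternatingGroup α, ψ.1 x = χ.1 x := by
  have : Nontrivial α := Fintype.one_lt_card_iff_nontrivial.1 (by omega)
  obtain ⟨k, hk⟩ : ∃ k, Fintype.card α ≤ k := ⟨_, le_rfl⟩
  have hN : Fintype.card α ≤ k + 3 := by omega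
  have hS : threeS k (a + p * j) b c ∈ Lam (k + 3) (Fintype.card α) := by
    rw [hn]
    exact threeS_mem (by omega) h2
  obtain ⟨σ, hσ⟩ := exists_typ_eq (α := α) (μ := ν + μ) (mem_Par.2 ⟨by simp [← hs, add_comm],
    fun r hr => (Multiset.mem_add.1 hr).elim (fun h => (hν r h).1) fun h => hμ r h ▸ one_pos⟩)
  have hσA : σ ∈ alternatingGroup α := by
    have := sign_eq_typ σ
    rw [hσ, he.neg_one_pow] at this
    exact Perm.mem_alternatingGroup.2 (Units.ext this)
  refine ⟨⟨_, isIrr_res_symChi hN hS (cjS_threeS_ne h4 (by omega))⟩, ⟨⟨σ, hσA⟩, hσ, ?_⟩,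
    ⟨_, isIrr_symChi hN hS⟩, fun _ => rfl⟩
  change symChi α (k + 3) _ σ = 0
  rw [symChi_apply, hσ, chiS_eq_zero_of_core hp (threeS_mem h1 h2) (h0 k) hS (cnt_threeS h1 h2) hν
    (fun r hr h => hp1 (Nat.dvd_one.1 (hμ r hr ▸ h))) hs hN hm, Int.cast_zero]

end Cfsg.Agent.H19
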